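import Cfsg.Prelude.Def_Local

/-! Interface for the theorem on involution centralisers with a 2-component of type `L₃(3)`. -/

set_option autoImplicit false

namespace H2.LS
open Cfsg Subgroup

universe u v

/-- The relations of `⟨t⟩ × SD₁₆`, `SD₁₆ = ⟨u, v, w⟩` with centre `z`, extended by `f` if `h`; `b`: `f ^ 2 = t`. -/
structure Rel {G : Type u} [Group G] (h b : Bool) (z t u v w f : G) : Prop where
  z2 : z * z = 1
  t2 : t * t = 1
  u2 : u * u = 1
  v2 : v * v = 1
  w2 : w * w = z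
  f2 : f * f = cond b t 1
  zt : t * z = z * t
  zu : u * z = z * u
  zv : v * z = z * v
  zf : f * z = z * f
  tu : u * t = t * u
  tv : v * t = t * v
  tw : w * t = t * w
  tf : f * t = t * f
  uv : v * u = z * u * v
  wu : w * u = v * w
  wv : w * v = u * w
  fu : f * u = u * f
  fv : f * v = v * f
  fw : f * w = cond h z 1 * w * f
  f1 : h = false → f = 1

/-- A Sylow 2-subgroup `⟨z, t, u, v, w, f⟩` of the centraliser of `t`, with its fusion. -/
structure Base {G : Type u} [Group G] (h b : Bool) (z t u v w f : G) : Prop extends Rel h b z t u v w f where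
  z1 : z ≠ 1
  syl : ¬ cond h 128 64 ∣ Nat.card (centralizer ({t} : Set G))
  r1 : ∃ g : G, g * t * g⁻¹ = t ∧ g * z * g⁻¹ = u ∧ g * u * g⁻¹ = z * u ∧ g * f * g⁻¹ = f
  r3 : ∃ g : G, g * t * g⁻¹ = t ∧ g * (u * v) * g⁻¹ = w ∧ g * w * g⁻¹ = u * v * w ∧
    (h = true → g * (u * v * f) * g⁻¹ = u * v * f)
  lam : ∃ M : Subgroup G, (∀ g x : G, g * t = t * g → x * t = t * x → x⁻¹ * (g * x * g⁻¹) ∈ M) ∧
    u ∈ M ∧ v ∈ M ∧ w ∈ M ∧ t ∉ M ∧ (h = true → f ∉ M ∧ t * f ∉ M)

/-- the main part (certificates) -/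
def MAIN : Prop := ∀ (G : Type u) [Group G] [Finite G] (F : Subgroup G) [F.Normal], IsSimpleGroup F →
  ∀ (h b : Bool) (z t u v w f : G), (∀ g, g ∈ F ∨ g * t ∈ F) → Base h b z t u v w f → (t ∉ F → f ∈ F) →
    ¬ 2 ^ 11 ∣ Nat.card F

/-- Elements of a group `Y` with a normal subgroup `X ≅ L₃(3)`; `f` induces the inverse-transpose automorphism. -/
structure Mod {Y : Type u} [Group Y] (X : Subgroup Y) (h : Bool) (z u v w f a c : Y) : Prop where
  si : IsSimpleGroup X
  uX : u ∈ X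
  vX : v ∈ X
  wX : w ∈ X
  aX : a ∈ X
  cX : c ∈ X
  sd : Rel false false z 1 u v w 1
  z1 : z ≠ 1
  syl : ¬ 32 ∣ Nat.card X
  az : a * z * a⁻¹ = u
  au : a * u * a⁻¹ = z * u
  c1 : c * (u * v) * c⁻¹ = w
  c2 : c * w * c⁻¹ = u * v * w
  f1 : h = false → f = 1
  fu : f * u = u * f
  fv : f * v = v * f
  fw : f * w = cond h z 1 * w * f
  fa : f * a = a * f
  fc : h = true → c * (u * v * f) = u * v * f * c
  f2 : f * f ∈ centralizer (X : Set Y)
  out : h = true → ∀ x ∈ X, x * f ∉ centralizer (X : Set Y)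
  cov : ∀ y : Y, ∃ x ∈ X, y * x ∈ centralizer (X : Set Y) ∨ y * x * f ∈ centralizer (X : Set Y)

/-- `q` maps the centraliser of `t` onto `Y`, with kernel of odd order; `C_Y(X)` is a cyclic 2-group -/
structure Red {G : Type u} [Group G] (t : G) {Y : Type u} [Group Y] (q : centralizer ({t} : Set G) →* Y)
    (X : Subgroup Y) : Prop where
  ht : orderOf t = 2
  sj : Function.Surjective q
  od : Odd (Nat.card q.ker)
  nm : X.Normal
  cy : IsCyclic (centralizer (X : Set Y))
  p2 : IsPGroup 2 (centralizer (X : Set Y))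
/-- `t` as an element of its centraliser -/
def tc {G : Type u} [Group G] (t : G) : centralizer ({t} : Set G) :=
  ⟨t, mem_centralizer_singleton_iff.2 rfl⟩
/-- the group generated by the generalised Fitting subgroup and `t` -/
abbrev Gm {G : Type u} [Group G] (t : G) : Subgroup G := generalizedFittingSubgroup G ⊔ zpowers t

/-- chunk K1: the reduction to the quotient `Y` of the centraliser of `t` in `Gm t` -/
def K1 : Prop := ∀ (G : Type u) [Group G] [Finite G], IsSimpleGroup ↥(generalizedFittingSubgroup G) →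
  ¬ IsMulCommutative ↥(generalizedFittingSubgroup G) → ∀ (t : G), orderOf t = 2 →
  ∀ (L : Subgroup ↥(centralizer ({t} : Set G))), IsPComponent 2 L →
  ∀ (K : Type v) [Field K] [Fintype K], Fintype.card K = 3 →
  Nonempty ((↥L ⧸ oddCore ↥L) ≃* Matrix.ProjectiveSpecialLinearGroup (Fin 3) K) →
  (∀ P : Subgroup ↥(centralizer ({t} : Set G)), IsPGroup 2 ↥P →
    (∀ g ∈ P, ∀ l ∈ L, ∃ o ∈ oddCore ↥L, g * (l : ↥(centralizer ({t} : Set G))) * g⁻¹ = l * o) → IsCyclic ↥P) →
  ¬ 2 ^ 11 ∣ Nat.card ↥(generalizedFittingSubgroup G) ∨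
    ∃ (t' : ↥(Gm t)) (Y : Type u) (_ : Group Y) (q : centralizer ({t'} : Set ↥(Gm t)) →* Y) (X : Subgroup Y),
      (t' : G) = t ∧ Red t' q X ∧ Nonempty (X ≃* Matrix.ProjectiveSpecialLinearGroup (Fin 3) K)
/-- chunk K2: the model -/
def K2 : Prop := ∀ (Y : Type u) [Group Y] (X : Subgroup Y) [X.Normal] (K : Type v) [Field K] [Fintype K],
  Fintype.card K = 3 → Nonempty (X ≃* Matrix.ProjectiveSpecialLinearGroup (Fin 3) K) →
    ∃ h z u v w f a c, Mod X h z u v w f a c
/-- chunk K3: in a simple group, `C_Y(X)` has order two -/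
def K3 : Prop := ∀ (G : Type u) [Group G] [Finite G], IsSimpleGroup G → ∀ (t : G) (Y : Type u) [Group Y]
  (q : centralizer ({t} : Set G) →* Y) (X : Subgroup Y), Red t q X → ∀ h z u v w f a c, Mod X h z u v w f a c →
    centralizer (X : Set Y) = zpowers (q (tc t))
/-- chunk K4: lifting -/
def K4 : Prop := ∀ (G : Type u) [Group G] [Finite G] (t : G) (Y : Type u) [Group Y]
  (q : centralizer ({t} : Set G) →* Y) (X : Subgroup Y), Red t q X → ∀ h z u v w f a c, Mod X h z u v w f a c →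
    centralizer (X : Set Y) = zpowers (q (tc t)) → ∃ b z' u' v' w' f', Base h b z' t u' v' w' f'
/-- chunk KV: a bound for the 2-subgroups of the centraliser of `⟨z, u⟩` -/
def KV : Prop := ∀ (G : Type u) [Group G] [Finite G] (F : Subgroup G) [F.Normal] (z t u v r x : G),
  (∀ g, g ∈ F ∨ g * t ∈ F) → t ∉ F → z ∈ F → v ∈ F → z * z = 1 → t * t = 1 → u * u = 1 → v * v = 1 → z ≠ 1 → u ≠ z →
  t * z = z * t → u * z = z * u → v * z = z * v → u * t = t * u → v * t = t * v → v * u = z * u * v →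
  r * t * r⁻¹ = t → r * z * r⁻¹ = u → r * u * r⁻¹ = z * u →
  (∀ (y : G) (n : ℕ), y ^ 2 ^ n = 1 → y * z = z * y → y * t = t * y → y * u = u * y → y ∈ closure {z, t, u}) →
  ¬ 64 ∣ Nat.card (centralizer ({t * v} : Set G)) →
  x ∈ F → x * u = u * x → x ^ 16 = z → False

end H2.LS

/- Paper plans.  Templates: H23/K1a-d (same style of reduction), notation of H0.PM / H19 (Syl, PiE, C[.], N(.)).

K1.  H = C_G(t), bars modulo O(H) = pPrimeCore 2 H; X = image of L, a component; L ⊓ O(H) = O(L) (L subnormal), so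
X ≅ L / O(L) is simple of order 5616.  X is normal in H-bar: a different conjugate X' centralises X, and a Sylow
2-subgroup of the preimage of X' acts trivially on L / O(L), so is cyclic; then X' ≅ X has cyclic Sylow 2-subgroups,
impossible (Burnside; or a four-group).  C = C_{H-bar}(X) has cyclic Sylow 2-subgroups (lift), so a normal
2-complement (Mathlib IsCyclic.isComplement' / Burnside), characteristic in C, hence trivial as O(H-bar) = 1: C is a
cyclic 2-group.  Y = image of H₀ = C_{Gm t}(t) = H ⊓ Gm t, normal in H-bar.  If X ⊓ Y = 1 then Y ≤ C, a Sylow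
2-subgroup T of H₀ is cyclic with unique involution t, so N_P(T) ≤ C(t) and T is Sylow in Gm t; the simple group F has
cyclic Sylow 2-subgroups, so odd order or a normal 2-complement: 2 ^ 11 does not divide |F|.  Otherwise X ≤ Y; use
X.subgroupOf Y.

K2.  PSL(3, K) ≅ SL(3, ZMod 3) (H24/LA7: card_sl3, sl3_simple; centre trivial).  z = diag(-1,-1,1), u = diag(1,-1,-1),
v = [[0,1,0],[1,0,0],[0,0,-1]], w = [[1,1,0],[1,-1,0],[0,0,1]], a = the cyclic permutation matrix with a z a⁻¹ = u,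
c in SL₂(3) of order 3 (check signs by `decide`; u v = ± [[0,1],[-1,0]] ⊕ 1).  γ = inverse transpose fixes the signed
permutation matrices z, u, v, a, sends w to w⁻¹ = z w, and γ ∘ (conjugation by u v) is trivial on SL₂(3).
|Aut| = 2 · 5616 (S0813), γ is not inner (an inner γ is induced by an element centralising u, v, a, i.e. 1; or
transvection classes), so Aut = Inn ∪ Inn γ.  h = some y acts as an outer automorphism; then f = y x acts as γ.

K3.  R-bar = C_Y(X) ∋ q t; suppose |R-bar| ≥ 4.  T Sylow in C(t) with q T = ⟨u, v, w, R-bar, f⟩ =: T-bar (order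
16 |R-bar| (2 if h), Sylow in Y by cov and syl); q is injective on T.  S, R ⊴ T preimages of ⟨u, v, w⟩, R-bar,
S ⊓ R = 1, [S, R] = 1, C_T(S) = R ⟨z⟩ is abelian (s r f centralising u, v has s ∈ ⟨z⟩, and f w ≠ w f).
(A) N(T) ≤ C(t): let n ∈ N(T), t^n ≠ t.  R^n ⊴ T cyclic with involution t^n, R^n ⊓ R = 1.  If R^n ⊓ S = 1 then
R^n ≤ C_T(S) = R ⟨z⟩, so |R^n| ≤ 2, false.  So t^n ∈ S is central in T: t^n = z; the same for n⁻¹ gives z^n = t.
S ⊓ S^n ⊴ T is trivial (else it contains a central involution of T lying in S, which is z, and z ∈ Z(S^n) = ⟨t⟩);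
so S^n ≤ C_T(S) is abelian, false.  Hence T is Sylow in G, and (Burnside, Z(T)) t is not conjugate to z or t z.
(B) Z*: (H23.K1.zstar_rel; G simple, not abelian as X is a section) t has a conjugate t' ≠ t in T.  Elements of T whose
images are conjugate in Y are conjugate in C(t) (odd kernel).  If q t' = s r then s, r have order ≤ 2, s ∈ {1, z, u, z u, v, z v}
~ 1 or z (a, w), so t' ~ z or t z, false.  Otherwise q t' = s r f with s f s f⁻¹ ∈ X ⊓ R-bar = 1, so
s ∈ {1, z, u, z u, v, z v} and s f ~ f under X (w f w⁻¹ = z f, a, w): we may take q t' = r f; t' centralises u, v and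
w t' w⁻¹ = z t'.  Sylow: g t' g⁻¹ = t with g ⟨t', u, v⟩ g⁻¹ ≤ T.  z' = g z g⁻¹ = [u', v'] ∈ T' ≤ ⟨u v⟩ × R is an
involution: z, t or z t; z' ≠ t; and t ~ t' ~ t' z ~ t z' ∈ {t z, z}, false.

K4.  T-bar = ⟨u, v, w, τ, f⟩, τ = q t central; f² ∈ ⟨τ⟩ gives b.  T Sylow in the preimage of T-bar, q : T ≅ T-bar; lift
the generators.  syl: |Y| divides |X| · 2 · (2 if h).  r1: a preimage of a maps A = ⟨z, t, u, f⟩ into A ker q; correct by
ker q (Sylow) to normalise A; q is injective on A.  r3 likewise with ⟨t, u v, w, u v f⟩.  M = image in G of q⁻¹ X;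
Y / X is generated by the central τ and f, so abelian; τ ∉ X (X ⊓ C(X) = 1), f, τ f ∉ X by `out`.

KV.  V = ⟨z, u⟩, C = C(V), A = ⟨z, t, u⟩ (order 8).  Take a 2-group U maximal with A ≤ U ≤ C, v ∈ N(U), and some
ρ ∈ N(U) ⊓ C(t) acting on V as r.  U is Sylow in C: else N = N_C(U), E Sylow in N ⟨v⟩ above U ⟨v⟩, E₀ = E ⊓ N > U Sylow in N;
|t^N| ≤ |U \ F| = |U| / 2, |t^E₀| = |E₀| / 8 ≥ |U| / 4 (C_E₀(t) = A), |t^N| is an odd multiple of |t^E₀|, so equal:
N = E₀ C_N(t); ρ E₀ ρ⁻¹ = n E₀ n⁻¹ with n ∈ C_N(t), and n⁻¹ ρ normalises E₀.  σ = v ρ v ρ⁻¹ is inverted by v, acts on V with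
order 3; its odd part ρ' (a 2-power of σ) is inverted by s = t v, centralises t, has no fixed point on V; ρ'³ centralises
A = C_U(A), has odd order, so centralises U.  U₀ = U ⊓ F: C_U₀(ρ') is t-invariant and meets C_U₀(t) = V trivially, so
is 1; ρ' is fixed-point-free of order 3 on U₀, so y commutes with y^ρ'.  B = C_U₀(s) has order ≤ 16 (B × ⟨s⟩).
I = {y ∈ U₀ | y^s = y⁻¹}: y ↦ y⁻¹ y^s gives |U₀| ≤ |B| |I|, and y ↦ y^ρ' (y^ρ'⁻¹)⁻¹ is an injection I → B.  So |U₀| ≤ 256.
A C-conjugate x' of x lies in U₀, x' ^ 16 = z, ⟨x'⟩ ⊓ ⟨ρ x' ρ⁻¹⟩ = 1, so |U₀| ≥ 32 · 32. -/
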