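import Cfsg.Agent.H17.FV0

/-! S5720: no triangles and at most one involution when all fixed spaces are small. -/

set_option autoImplicit false

open Module LinearMap

namespace H2.FV

universe u v w
section
variable {K : Type v} {V : Type w} [Field K] [AddCommGroup V] [Module K V] [FiniteDimensional K V]

theorem rk_add (f g : End K V) :
    finrank K (range (f + g)) ≤ finrank K (range f) + finrank K (range g) :=
  (Submodule.finrank_mono (by
    rintro _ ⟨x, rfl⟩
    exact Submodule.add_mem_sup (mem_range_self f x) (mem_range_self g x))).trans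
      (Submodule.finrank_add_le_finrank_add_finrank _ _)

theorem rk_sub (f g : End K V) :
    finrank K (range (f - g)) ≤ finrank K (range f) + finrank K (range g) := by
  have := rk_add f (-g)
  rwa [range_neg, ← sub_eq_add_neg] at this

theorem rk_l (f g : End K V) : finrank K (range (f * g)) ≤ finrank K (range f) :=
  Submodule.finrank_mono (range_comp_le_range g f)

theorem rk_r (f g : End K V) : finrank K (range (f * g)) ≤ finrank K (range g) := by
  rw [Module.End.mul_eq_comp, range_comp]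
  exact Submodule.finrank_map_le _ _

theorem ker_mul (f g : End K V) :
    finrank K (ker (f * g)) ≤ finrank K (ker f) + finrank K (ker g) := by
  have h := (g.domRestrict (ker (f * g))).finrank_range_add_finrank_ker
  have h1 : finrank K (range (g.domRestrict (ker (f * g)))) ≤ finrank K (ker f) :=
    Submodule.finrank_mono (by rintro _ ⟨x, rfl⟩; exact x.2)
  have h2 : finrank K (ker (g.domRestrict (ker (f * g)))) ≤ finrank K (ker g) := by
    rw [← Submodule.finrank_map_subtype_eq]
    exact Submodule.finrank_mono (by rintro _ ⟨x, hx, rfl⟩; exact hx)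
  omega

theorem rk_ker {f g : End K V} (h : f * g = 0) : finrank K (range g) ≤ finrank K (ker f) :=
  Submodule.finrank_mono (range_le_ker_iff.2 h)

theorem rk3 {a : End K V} (h : a ^ 3 = 1) :
    finrank K (range (1 + a + a ^ 2)) ≤ finrank K (ker (a - 1)) :=
  rk_ker (by rw [← sub_eq_zero.2 h]; noncomm_ring)

theorem tri {a b : End K V} (ha : a ^ 3 = 1) (hb : b ^ 3 = 1) (hc : (a * b) ^ 3 = 1) :
    finrank K V ≤ 2 * finrank K (ker (a - 1)) + finrank K (ker (b - 1)) +
      finrank K (ker (a * b - 1)) + 2 * finrank K (ker (a ^ 2 * b - 1)) := by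
  have e1 : a ^ 2 * b * (b ^ 2 * a) = 1 := by
    rw [show a ^ 2 * b * (b ^ 2 * a) = a ^ 2 * b ^ 3 * a by noncomm_ring, hb, mul_one, ← pow_succ, ha]
  have e2 : (a * b) ^ 2 = b ^ 2 * a ^ 2 := by
    have : b ^ 2 * a ^ 2 * (a * b) = 1 := by
      rw [show b ^ 2 * a ^ 2 * (a * b) = b ^ 2 * a ^ 3 * b by noncomm_ring, ha, mul_one, ← pow_succ, hb]
    rw [← one_mul ((a * b) ^ 2), ← this, mul_assoc, ← pow_succ', hc, mul_one]
  have e3 : (a ^ 2 * b - 1) * (a ^ 2 * b - 1) = a ^ 2 * b * ((1 + a + a ^ 2) * b +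
      (1 + b + b ^ 2) * (a + a ^ 2) - (1 + a * b + (a * b) ^ 2) - (1 + b) * (1 + a + a ^ 2)) := by
    rw [e2, show (1 + a + a ^ 2) * b + (1 + b + b ^ 2) * (a + a ^ 2) - (1 + a * b + b ^ 2 * a ^ 2) -
      (1 + b) * (1 + a + a ^ 2) = a ^ 2 * b + b ^ 2 * a - (1 + 1) by noncomm_ring, mul_sub (a ^ 2 * b),
      mul_add, e1]
    noncomm_ring
  have h0 := ((a ^ 2 * b - 1) * (a ^ 2 * b - 1)).finrank_range_add_finrank_ker
  have h1 := ker_mul (a ^ 2 * b - 1) (a ^ 2 * b - 1)
  have h2 := rk_r (a ^ 2 * b) ((1 + a + a ^ 2) * b +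
      (1 + b + b ^ 2) * (a + a ^ 2) - (1 + a * b + (a * b) ^ 2) - (1 + b) * (1 + a + a ^ 2))
  have h3 := rk_sub ((1 + a + a ^ 2) * b +
      (1 + b + b ^ 2) * (a + a ^ 2) - (1 + a * b + (a * b) ^ 2)) ((1 + b) * (1 + a + a ^ 2))
  have h4 := rk_sub ((1 + a + a ^ 2) * b + (1 + b + b ^ 2) * (a + a ^ 2)) (1 + a * b + (a * b) ^ 2)
  have h5 := rk_add ((1 + a + a ^ 2) * b) ((1 + b + b ^ 2) * (a + a ^ 2))
  have h6 := rk_l (1 + a + a ^ 2) b
  have h7 := rk_l (1 + b + b ^ 2) (a + a ^ 2)
  have h8 := rk_r (1 + b) (1 + a + a ^ 2)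
  have h9 := rk3 ha
  have h10 := rk3 hb
  have h11 := rk3 hc
  rw [← e3] at h2
  omega

theorem inv {x y : End K V} (hx : x * x = 1) (hy : y * y = 1) :
    finrank K V ≤ finrank K (ker (x - 1)) + finrank K (ker (y - 1)) + finrank K (ker (x * y - 1)) := by
  have h0 := (x * y - 1).finrank_range_add_finrank_ker
  have h1 := rk_sub ((x + 1) * y) (y + 1)
  have h2 := rk_l (x + 1) y
  have h3 := rk_ker (f := x - 1) (g := x + 1) (by rw [← sub_eq_zero.2 hx]; noncomm_ring)
  have h4 := rk_ker (f := y - 1) (g := y + 1) (by rw [← sub_eq_zero.2 hy]; noncomm_ring)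
  rw [show (x + 1) * y - (y + 1) = x * y - 1 by noncomm_ring] at h1
  omega
end

theorem lt : H17.FV.LT.{u, v, w} := fun H K V _ _ _ _ _ ρ hs => by
  refine ⟨fun a b ha hb hc a1 b1 c1 => by_contra fun e => ?_, fun x y hx hy x1 y1 => by_contra fun e => ?_⟩
  · have h := tri (a := ρ a) (b := ρ b) (by rw [← map_pow, ha, map_one]) (by rw [← map_pow, hb, map_one])
      (by rw [← map_mul, ← map_pow, hc, map_one])
    have h1 := hs a a1
    have h2 := hs b b1
    have h3 := hs _ c1
    have h4 := hs (a ^ 2 * b) fun e' => e (mul_left_cancel (a := a ^ 2) (by rw [e', ← pow_succ, ha]))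
    rw [map_mul] at h3
    rw [map_mul, map_pow] at h4
    omega
  · have h := inv (x := ρ x) (y := ρ y) (by rw [← map_mul, hx, map_one]) (by rw [← map_mul, hy, map_one])
    have h1 := hs x x1
    have h2 := hs y y1
    have h3 := hs (x * y) fun e' => e (mul_left_cancel (a := x) (by rw [e', hx]))
    rw [map_mul] at h3
    omega

end H2.FV
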