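import Cfsg.Agent.H16.FV1

/-! S5720: the radical generator `e` of `K[U]`. -/

set_option autoImplicit false

open Polynomial H17.FV

namespace H2.FV

theorem poly {K : Type*} [Field K] (Q f : K[X]) (k : ℕ) : ∃ g r : K[X],
    X ^ 2 * f = (-X + X ^ 2 * Q) ^ 2 * g.comp (-X + X ^ 2 * Q) + X ^ (2 + k) * r := by
  induction k with
  | zero => exact ⟨0, f, by simp⟩
  | succ k ih =>
    obtain ⟨g, r, h⟩ := ih
    obtain ⟨s, hs⟩ := sub_dvd_pow_sub_pow (1 : K[X]) (1 - X * Q) (2 + k)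
    refine ⟨g + C (r.coeff 0) * (-X) ^ k, divX r + C (r.coeff 0) * Q * s, ?_⟩
    have e : (-X + X ^ 2 * Q) ^ 2 * (-(-X + X ^ 2 * Q)) ^ k = X ^ (2 + k) * (1 - X * Q) ^ (2 + k) := by
      rw [← neg_sq, ← pow_add, ← mul_pow]; congr 1; ring
    rw [add_comp, mul_comp, C_comp, pow_comp, neg_comp, X_comp, h]
    have e2 := X_mul_divX_add r
    rw [one_pow] at hs
    rw [← add_assoc, pow_succ _ (2 + k)]
    linear_combination (-X ^ (2 + k)) * e2 - C (r.coeff 0) * e + C (r.coeff 0) * X ^ (2 + k) * hs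

theorem bin {K : Type*} [Field K] (n : ℕ) : ∃ q : K[X], (1 + X) ^ n = 1 + C (n : K) * X + X ^ 2 * q := by
  induction n with
  | zero => exact ⟨0, by simp⟩
  | succ n ih =>
    obtain ⟨q, h⟩ := ih
    exact ⟨C (n : K) + q + q * X, by rw [pow_succ, h, Nat.cast_succ, C_add, C_1]; ring⟩

variable {K A : Type*} [Field K] [Ring A] [Algebra K A] {p : ℕ} [hp : Fact p.Prime] [CharP K p]
  (D : Dat K A p)

omit [CharP K p] in
theorem Un (n : ℕ) : D.U n = D.U 1 ^ n := by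
  induction n with
  | zero => simp [D.U0]
  | succ n ih => rw [Nat.cast_succ, D.Uadd, ih, pow_succ]

theorem Np : (D.U 1 - 1) ^ p = 0 := by
  rcases subsingleton_or_nontrivial A with _ | _
  · exact Subsingleton.elim _ _
  have := charP_of_injective_algebraMap (algebraMap K A).injective p
  rw [sub_pow_char_of_commute p (Commute.one_right _), ← Un, ZMod.natCast_self, D.U0, one_pow, sub_self]

theorem Uq (c : ZMod p) : ∃ q : K[X], D.U c = aeval (D.U 1 - 1) (1 + C (D.φ c) * X + X ^ 2 * q) := by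
  obtain ⟨q, h⟩ := bin (K := K) c.val
  refine ⟨q, ?_⟩
  rw [ZMod.castHom_apply, ← ZMod.natCast_val, ← h]
  rw [map_pow, map_add, map_one, aeval_X, add_sub_cancel, ← Un, ZMod.natCast_zmod_val]

theorem eq (h : 11 ≤ p) : ∃ Q : K[X], D.e = aeval (D.U 1 - 1) (-X + X ^ 2 * Q) := by
  choose q hq using Uq D
  refine ⟨∑ c : (ZMod p)ˣ, C (D.φ ((c⁻¹ : (ZMod p)ˣ) : ZMod p)) * q c, ?_⟩
  have s0 : ∑ c : (ZMod p)ˣ, ((c⁻¹ : (ZMod p)ˣ) : ZMod p) = 0 := by
    rw [Fintype.sum_equiv (Equiv.inv _) (fun c : (ZMod p)ˣ => ((c⁻¹ : (ZMod p)ˣ) : ZMod p))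
      (fun c : (ZMod p)ˣ => (c : ZMod p) ^ 1) (fun c => (pow_one _).symm),
      FiniteField.sum_pow_units, ZMod.card, if_neg]
    rw [Nat.dvd_one]; omega
  have s1 : ∑ c : (ZMod p)ˣ, ((c⁻¹ : (ZMod p)ˣ) : ZMod p) * c = -1 := by
    rw [Finset.sum_congr rfl fun (c : (ZMod p)ˣ) _ => (Units.inv_mul c).trans (pow_zero (c : ZMod p)).symm,
      FiniteField.sum_pow_units, if_pos (dvd_zero _)]
  have e : (-X + X ^ 2 * ∑ c : (ZMod p)ˣ, C (D.φ ((c⁻¹ : (ZMod p)ˣ) : ZMod p)) * q c : K[X]) =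
      ∑ c : (ZMod p)ˣ, C (D.φ ((c⁻¹ : (ZMod p)ˣ) : ZMod p)) * (1 + C (D.φ c) * X + X ^ 2 * q c) := by
    simp only [mul_add, Finset.sum_add_distrib, mul_one, ← mul_assoc, ← map_mul]
    rw [← Finset.sum_mul, ← map_sum, ← map_sum, ← map_sum, ← map_sum, s0, s1, Finset.mul_sum]
    simp only [map_zero, map_neg, map_one, zero_add, neg_mul, one_mul]
    congr 1
    exact Finset.sum_congr rfl fun c _ => by ring
  rw [e, map_sum, Dat.e]
  exact Finset.sum_congr rfl fun c _ => by rw [map_mul, aeval_C, ← hq, Algebra.smul_def]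

theorem ep (h : 11 ≤ p) : D.e ^ p = 0 := by
  obtain ⟨Q, hQ⟩ := eq D h
  rw [hQ, ← map_pow, show (-X + X ^ 2 * Q : K[X]) = X * (-1 + X * Q) by ring, mul_pow, map_mul,
    map_pow, aeval_X, Np, zero_mul]

theorem Ue (h : 11 ≤ p) (c : ZMod p) :
    ∃ y ∈ Algebra.adjoin K {D.e}, D.U c = 1 - D.φ c • D.e + D.e * D.e * y := by
  obtain ⟨Q, hQ⟩ := eq D h
  obtain ⟨q, hq⟩ := Uq D c
  obtain ⟨g, r, e⟩ := poly Q (q + C (D.φ c) * Q) p
  refine ⟨aeval D.e g, aeval_mem_adjoin_singleton K _, ?_⟩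
  have e1 : (1 + C (D.φ c) * X + X ^ 2 * q : K[X]) = 1 - C (D.φ c) * (-X + X ^ 2 * Q) +
      (-X + X ^ 2 * Q) ^ 2 * g.comp (-X + X ^ 2 * Q) + X ^ p * (X ^ 2 * r) := by
    linear_combination e
  rw [hq, e1, map_add, map_add, map_sub, map_mul, map_mul, map_mul, map_pow, map_pow, aeval_comp, ← hQ,
    aeval_X, Np, zero_mul, add_zero, map_one, aeval_C, Algebra.smul_def, sq]

theorem eU (h : 11 ≤ p) : ∃ y : A, D.U 1 - 1 = y * D.e := by
  obtain ⟨y, hy, e⟩ := Ue D h 1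
  have c : Commute D.e y := Algebra.commute_of_mem_adjoin_self hy
  exact ⟨-1 + D.e * y, by rw [e, map_one, one_smul, mul_assoc, c.eq, add_mul, ← c.eq, mul_assoc, ← c.eq]; noncomm_ring⟩

theorem ek.{v, w} : EK.{v, w} := fun _ _ _ _ _ _ _ _ D h => H16.FV.ef D (ep D h) (Ue D h) (eU D h)

end H2.FV
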