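import Cfsg.Agent.H29.AH0
import Cfsg.Agent.H23.Small
import Cfsg.Agent.S0112
import Cfsg.Agent.S0113

/-! S4162: the chunks `C2`, `C3`, `F4` (small centralizers). -/

set_option autoImplicit false

namespace H2.AH
open Subgroup H29.AH

universe u

section
variable {G : Type*} [Group G] [Finite G]

omit [Finite G] in
theorem two_mem {k a : G} (hk : cc k = 2) (k1 : k ≠ 1) (h : Commute a k) : a = 1 ∨ a = k := by
  obtain ⟨y, -, hy⟩ := (Nat.card_eq_two_iff' (1 : centralizer ({k} : Set G))).1 hk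
  by_cases a1 : a = 1
  · exact .inl a1
  · have e1 := hy ⟨a, mem_cc.2 h⟩ fun e => a1 (congrArg Subtype.val e)
    have e2 := hy ⟨k, mem_cc.2 (Commute.refl k)⟩ fun e => k1 (congrArg Subtype.val e)
    exact .inr (congrArg Subtype.val (e1.trans e2.symm))

omit [Finite G] in
theorem cc_one : cc (1 : G) = Nat.card G := by
  have : centralizer ({1} : Set G) = ⊤ := eq_top_iff.2 fun g _ => mem_cc.2 (Commute.one_right g)
  rw [cc, this, card_top]

theorem gen3 {s t : G} (hs : cc s = 3) (t1 : t ≠ 1) (h : Commute t s) :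
    zpowers t = centralizer ({s} : Set G) := by
  have hle : zpowers t ≤ centralizer ({s} : Set G) := zpowers_le.2 (mem_cc.2 h)
  have hd : Nat.card (zpowers t) ∣ 3 := hs ▸ card_dvd_of_le hle
  rcases (Nat.dvd_prime Nat.prime_three).1 hd with e | e
  · exact absurd (orderOf_eq_one_iff.1 (by rwa [Nat.card_zpowers] at e)) t1
  · exact eq_of_le_of_card_ge hle (by rw [e]; exact hs.le)

theorem cc3 {s t : G} (hs : cc s = 3) (s1 : s ≠ 1) (t1 : t ≠ 1) (h : Commute t s) : cc t = 3 := by
  have e1 := gen3 hs t1 h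
  have e2 := gen3 hs s1 (Commute.refl s)
  have : centralizer ({t} : Set G) = centralizer ({s} : Set G) := by
    ext g
    rw [mem_cc, mem_cc]
    constructor
    · intro hg
      obtain ⟨k, hk⟩ := mem_zpowers_iff.1 (e1 ▸ mem_cc.2 (Commute.refl s) : s ∈ zpowers t)
      rw [← hk]; exact hg.zpow_right k
    · intro hg
      obtain ⟨k, hk⟩ := mem_zpowers_iff.1 (e2 ▸ mem_cc.2 h : t ∈ zpowers s)
      rw [← hk]; exact hg.zpow_right k
  rw [cc, this]; exact hs

end

theorem c2 : C2.{u} := by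
  intro G _ _ H x hx
  classical
  have := Fintype.ofFinite G
  have x1 : x ≠ 1 := by
    rintro rfl
    rw [cc_one] at hx
    obtain ⟨y, hy, -⟩ := (Nat.card_eq_two_iff' (1 : G)).1 hx
    have h1 : cc y ∣ 2 := hx ▸ cc_dvd y
    rcases (Nat.dvd_prime Nat.prime_two).1 h1 with e | e
    · exact hy (orderOf_eq_one_iff.1 (Nat.dvd_one.1 (e ▸ orderOf_dvd_cc y)))
    · exact hy (isConj_one_left.1 (H y 1 (by rw [e, cc_one, hx])))
  have hk : ∀ k, IsConj x k → cc k = 2 ∧ k ≠ 1 ∧ k * k = 1 := fun k h => by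
    have h2 : cc k = 2 := (cc_conj h).symm.trans hx
    have k1 : k ≠ 1 := fun e => x1 (isConj_one_left.1 (e ▸ h))
    refine ⟨h2, k1, ?_⟩
    rcases two_mem h2 k1 ((Commute.refl k).mul_left (Commute.refl k)) with e | e
    · exact e
    · exact absurd (mul_eq_left.1 e) k1
  set K := Finset.univ.filter fun y => IsConj x y with hK
  set I := Finset.univ.filter fun y => ¬ IsConj x y with hI
  have cK : K.card * 2 = Nat.card G := by
    rw [← card_cls x, hx, Nat.card_eq_fintype_card, Fintype.card_subtype]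
  have cI : I.card = K.card := by
    have := Finset.card_filter_add_card_filter_not (s := (Finset.univ : Finset G)) fun y => IsConj x y
    rw [Finset.card_univ, ← Nat.card_eq_fintype_card] at this
    change K.card + I.card = _ at this
    omega
  have dec : ∀ k, IsConj x k → ∀ a, ¬ IsConj x a → ∃ k', IsConj x k' ∧ a = k' * k := by
    intro k h a ha
    obtain ⟨h2, k1, kk⟩ := hk k h
    have := Finset.surj_on_of_inj_on_of_card_le (s := K) (t := I) (fun b _ => b * k)
      (fun b hb => by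
        have hb' : IsConj x b := (Finset.mem_filter.1 hb).2
        refine Finset.mem_filter.2 ⟨Finset.mem_univ _, fun hc => ?_⟩
        obtain ⟨-, b1, bb⟩ := hk b hb'
        obtain ⟨-, c1, cc'⟩ := hk _ hc
        have hcm : Commute b k := by
          have e1 : b * k = (b * k)⁻¹ := eq_inv_of_mul_eq_one_left cc'
          rw [mul_inv_rev, ← eq_inv_of_mul_eq_one_left kk, ← eq_inv_of_mul_eq_one_left bb] at e1
          exact e1
        rcases two_mem h2 k1 hcm with e | e
        · exact b1 e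
        · exact c1 (by rw [e, kk]))
      (fun _ _ _ _ e => mul_right_cancel e) cI.le a (Finset.mem_filter.2 ⟨Finset.mem_univ _, ha⟩)
    obtain ⟨b, hb, e⟩ := this
    exact ⟨b, (Finset.mem_filter.1 hb).2, e⟩
  have inv : ∀ k, IsConj x k → ∀ a, ¬ IsConj x a → k * a * k⁻¹ = a⁻¹ := by
    intro k h a ha
    obtain ⟨k', h', rfl⟩ := dec k h a ha
    rw [mul_inv_rev, ← eq_inv_of_mul_eq_one_left (hk k h).2.2,
      ← eq_inv_of_mul_eq_one_left (hk k' h').2.2, mul_assoc, mul_assoc, (hk k h).2.2, mul_one]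
  have cen : ∀ b, ¬ IsConj x b → ∀ a, ¬ IsConj x a → b * a * b⁻¹ = a := by
    intro b hb a ha
    obtain ⟨k', h', rfl⟩ := dec x (IsConj.refl x) b hb
    have e1 := inv x (IsConj.refl x) a ha
    have e2 := inv k' h' a ha
    calc k' * x * a * (k' * x)⁻¹ = k' * (x * a * x⁻¹) * k'⁻¹ := by group
      _ = (k' * a * k'⁻¹)⁻¹ := by rw [e1]; group
      _ = a := by rw [e2, inv_inv]
  have nc : ∀ k, IsConj x k → ∀ a, ¬ IsConj x a → a ≠ 1 → ¬ Commute k a := by
    intro k h a ha a1 hc
    rcases two_mem (hk k h).1 (hk k h).2.1 hc.symm with e | e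
    · exact a1 e
    · exact ha (e ▸ h)
  have cca : ∀ a, ¬ IsConj x a → a ≠ 1 → cc a = I.card := by
    intro a ha a1
    rw [cc, Nat.card_eq_fintype_card, Fintype.card_subtype]
    congr 1
    ext g
    simp only [hI, Finset.mem_filter, Finset.mem_univ, true_and, mem_cc]
    exact ⟨fun hc hg => nc g hg a ha a1 hc, fun hg => mul_inv_eq_iff_eq_mul.1 (cen g hg a ha)⟩
  have one : ¬ IsConj x 1 := fun h => x1 (isConj_one_left.1 h)
  by_cases hex : ∃ a, ¬ IsConj x a ∧ a ≠ 1
  · obtain ⟨a, ha, a1⟩ := hex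
    have aa : a ≠ a⁻¹ := fun e => nc x (IsConj.refl x) a ha a1
      (mul_inv_eq_iff_eq_mul.1 ((inv x (IsConj.refl x) a ha).trans e.symm))
    have ai : ¬ IsConj x a⁻¹ := fun h => aa (by
      have := (hk _ h).2.2
      rw [← mul_inv_rev, inv_eq_one] at this
      exact eq_inv_of_mul_eq_one_left this)
    have hI3 : I = {1, a, a⁻¹} := by
      ext b
      simp only [hI, Finset.mem_filter, Finset.mem_univ, true_and, Finset.mem_insert,
        Finset.mem_singleton]
      constructor
      · intro hb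
        by_cases b1 : b = 1
        · exact .inl b1
        · obtain ⟨g, hg⟩ := isConj_iff.1 (H a b ((cca a ha a1).trans (cca b hb b1).symm))
          by_cases hgx : IsConj x g
          · exact .inr (.inr (hg.symm.trans (inv g hgx a ha)))
          · exact .inr (.inl (hg.symm.trans (cen g hgx a ha)))
      · rintro (rfl | rfl | rfl)
        · exact one
        · exact ha
        · exact ai
    have c3 : I.card = 3 := by
      rw [hI3]
      exact Finset.card_eq_three.2 ⟨_, _, _, a1.symm, (inv_ne_one.2 a1).symm, aa, rfl⟩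
    exact H23.s3_of_card_six (by omega) fun h => nc x (IsConj.refl x) a ha a1 (h x a)
  · have hI1 : I = {1} := by
      ext b
      simp only [hI, Finset.mem_filter, Finset.mem_univ, true_and, Finset.mem_singleton]
      exact ⟨fun hb => by_contra fun b1 => hex ⟨b, hb, b1⟩, fun e => e ▸ one⟩
    rw [hI1, Finset.card_singleton] at cI
    exact absurd (H x 1 (by rw [hx, cc_one]; omega)) one

theorem c3 : C3.{u} := by
  intro G _ _ s hs x x1 h3
  have : Fact (Nat.Prime 3) := ⟨Nat.prime_three⟩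
  by_cases s1 : s = 1
  · subst s1
    rw [cc_one] at hs
    exact Nat.dvd_antisymm (hs ▸ cc_dvd x) h3
  have hz : IsPGroup 3 (zpowers s) := by
    rw [gen3 hs s1 (Commute.refl s)]; exact IsPGroup.of_card (n := 1) hs
  obtain ⟨P, hP⟩ := hz.exists_le_sylow
  have hsP : s ∈ (P : Subgroup G) := hP (mem_zpowers s)
  have : Nontrivial (P : Subgroup G) := ⟨⟨⟨s, hsP⟩, 1, fun e => s1 (congrArg Subtype.val e)⟩⟩
  have := P.isPGroup'.center_nontrivial
  obtain ⟨z, z1⟩ := exists_ne (1 : center (P : Subgroup G))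
  have zc : ∀ g ∈ (P : Subgroup G), Commute g ((z : (P : Subgroup G)) : G) := fun g hg =>
    congrArg Subtype.val (mem_center_iff.1 z.2 ⟨g, hg⟩)
  have z1' : ((z : (P : Subgroup G)) : G) ≠ 1 := fun e => z1 (Subtype.ext (Subtype.ext e))
  have hz3 := cc3 hs s1 z1' (zc s hsP).symm
  obtain ⟨t, ht⟩ := exists_prime_orderOf_dvd_card' (G := centralizer ({x} : Set G)) 3 h3
  have ht' : orderOf (t : G) = 3 := by rw [Subgroup.orderOf_coe, ht]
  have t1 : (t : G) ≠ 1 := fun e => by rw [e, orderOf_one] at ht'; omega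
  obtain ⟨Q, hQ⟩ := (IsPGroup.of_card (p := 3) (n := 1) (G := zpowers (t : G))
    (by rw [Nat.card_zpowers, ht', pow_one])).exists_le_sylow
  obtain ⟨g, hg⟩ := MulAction.exists_smul_eq G Q P
  have hm : g * t * g⁻¹ ∈ (P : Subgroup G) := by
    rw [← hg]
    exact smul_mem_pointwise_smul _ (MulAut.conj g) _ (hQ (mem_zpowers _))
  have h1 := cc3 hz3 z1' (fun e => t1 (by simpa using e)) (zc _ hm)
  have h2 : cc (t : G) = 3 := (cc_conj (isConj_iff.2 ⟨g, rfl⟩)).trans h1
  exact cc3 h2 t1 x1 (mem_cc.1 t.2).symm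

theorem f4 : F4.{u} := by
  intro G _ _ hR w hw
  have : Fact (Nat.Prime 2) := ⟨Nat.prime_two⟩
  set A := centralizer ({w} : Set G) with hA
  have cA : Nat.card A = 2 ^ 2 := hw
  obtain ⟨T, hT⟩ := (IsPGroup.of_card cA).exists_le_sylow
  obtain ⟨n, hn⟩ := IsPGroup.iff_card.1 T.isPGroup'
  have wA : w ∈ A := mem_cc.2 (Commute.refl w)
  have hv : (Nat.card G).factorization 2 = n := by
    have := T.card_eq_multiplicity
    rw [hn] at this
    exact (Nat.pow_right_injective le_rfl this).symm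
  have hle : ∀ m, 2 ^ m ∣ Nat.card G → m ≤ n := fun m hm =>
    hv ▸ (Nat.prime_two.pow_dvd_iff_le_factorization Nat.card_pos.ne').1 hm
  have n3 : n ≤ 3 := by
    by_contra hlt
    have hcm := (IsPGroup.isMulCommutative_of_card_eq_prime_sq cA).is_comm.comm
    have hC : centralizer ((A.subgroupOf T : Subgroup (T : Subgroup G)) : Set (T : Subgroup G)) =
        A.subgroupOf T := by
      ext g
      rw [mem_centralizer_iff, mem_subgroupOf]
      constructor
      · intro h
        exact mem_cc.2 (congrArg Subtype.val (h ⟨w, hT wA⟩ wA)).symm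
      · intro h a ha
        have := congrArg Subtype.val (hcm ⟨a, ha⟩ ⟨g, h⟩)
        exact Subtype.ext this
    have hc := Cfsg.Agent.S0112.result n hn (A.subgroupOf T)
      ((Nat.card_congr (subgroupOfEquivOfLe hT).toEquiv).trans cA) hC
    obtain ⟨C, hcy, hi⟩ := Cfsg.Agent.S0113.result n (by omega) hn hc
    obtain ⟨g, hg⟩ := IsCyclic.exists_ofOrder_eq_natCard (α := C)
    have h1 := C.index_mul_card
    rw [hi, hn, ← hg] at h1
    obtain ⟨m, rfl⟩ : ∃ m, n = m + 2 := ⟨n - 2, by omega⟩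
    have h2 : orderOf ((g : (T : Subgroup G)) : G) = 2 ^ (m + 1) := by
      rw [Subgroup.orderOf_coe, Subgroup.orderOf_coe]
      rw [pow_succ' 2 (m + 1)] at h1
      omega
    have h3 := hR.dvd' ((g : (T : Subgroup G)) : G)
    rw [h2, Nat.totient_prime_pow_succ Nat.prime_two, ← mul_assoc, ← pow_add] at h3
    have := hle _ ((Dvd.intro _ rfl).trans h3)
    omega
  refine ⟨fun h => by have := hle 4 h; omega, ?_⟩
  have key : ∀ x : G, 8 ∣ cc x → n = 3 ∧ ∃ x', IsConj x x' ∧ ∀ t ∈ (T : Subgroup G), Commute t x' := by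
    intro x hx
    have e3 : n = 3 := le_antisymm n3 (hle 3 (hx.trans (cc_dvd x)))
    refine ⟨e3, ?_⟩
    obtain ⟨Q, hQ⟩ := Sylow.exists_subgroup_card_pow_prime (G := centralizer ({x} : Set G)) 2 (n := 3) hx
    have cQ : Nat.card (Q.map (centralizer ({x} : Set G)).subtype) = 2 ^ 3 := by
      rw [card_map_of_injective (subtype_injective _), hQ]
    obtain ⟨T', hT'⟩ := (IsPGroup.of_card cQ).exists_le_sylow
    obtain ⟨g, hg⟩ := MulAction.exists_smul_eq G T' T
    have eQ : Q.map (centralizer ({x} : Set G)).subtype = T' := eq_of_le_of_card_ge hT' (by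
      rw [cQ, T'.card_eq_multiplicity, hv, e3])
    refine ⟨g * x * g⁻¹, isConj_iff.2 ⟨g, rfl⟩, fun t ht => ?_⟩
    rw [← hg] at ht
    have h1 : (MulAut.conj g)⁻¹ • t ∈ (T' : Subgroup G) := mem_pointwise_smul_iff_inv_smul_mem.1 ht
    rw [← eQ] at h1
    obtain ⟨q, -, hq⟩ := h1
    have h2 : Commute (g⁻¹ * t * g) x := by
      have := mem_cc.1 q.2
      have e : (q : G) = g⁻¹ * t * g := by simpa using hq
      rwa [e] at this
    calc t * (g * x * g⁻¹) = g * (g⁻¹ * t * g * x) * g⁻¹ := by group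
      _ = g * x * g⁻¹ * t := by rw [h2.eq]; group
  intro x y x1 y1 hx hy
  obtain ⟨e3, x', cx, hx'⟩ := key x hx
  obtain ⟨-, y', cy, hy'⟩ := key y hy
  rw [cc_conj cx, cc_conj cy]
  by_contra hne
  have xy : x' ≠ y' := fun e => hne (by rw [e])
  have x1' : x' ≠ 1 := fun e => x1 (isConj_one_left.1 (e ▸ cx))
  have y1' : y' ≠ 1 := fun e => y1 (isConj_one_left.1 (e ▸ cy))
  set B := A ⊓ centralizer ((T : Subgroup G) : Set G) with hB
  have mB : ∀ u : G, (∀ t ∈ (T : Subgroup G), Commute t u) → u ∈ B := fun u hu =>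
    ⟨mem_cc.2 (hu w (hT wA)).symm, mem_centralizer_iff.2 fun t ht => hu t ht⟩
  have c3 : 3 ≤ Nat.card B := by
    classical
    have := Fintype.ofFinite B
    rw [Nat.card_eq_fintype_card, ← Finset.card_univ]
    have h3 : ({1, ⟨x', mB x' hx'⟩, ⟨y', mB y' hy'⟩} : Finset B).card = 3 :=
      Finset.card_eq_three.2 ⟨_, _, _, fun e => x1' (congrArg Subtype.val e).symm,
        fun e => y1' (congrArg Subtype.val e).symm, fun e => xy (congrArg Subtype.val e), rfl⟩
    exact h3 ▸ Finset.card_le_univ _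
  have hd : Nat.card B ∣ 2 ^ 2 := cA ▸ card_dvd_of_le inf_le_left
  have c4 : Nat.card B = 4 := by
    have := Nat.le_of_dvd (by norm_num) hd
    rcases (by omega : Nat.card B = 3 ∨ Nat.card B = 4) with e | e
    · rw [e] at hd; norm_num at hd
    · exact e
  have eB : B = A := eq_of_le_of_card_ge inf_le_left (by rw [c4, cA]; norm_num)
  have wB : w ∈ B := eB ▸ wA
  have : (T : Subgroup G) ≤ A := fun t ht => mem_cc.2 (mem_centralizer_iff.1 wB.2 t ht)
  have := card_le_of_le this
  rw [hn, cA, e3] at this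
  omega

end H2.AH
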