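import Cfsg.Agent.H29.AH0

/-! S4162: the chunks `D1` (trace lemma) and `S49`. -/

set_option autoImplicit false

namespace H2.AH
open Subgroup H29.AH

universe u

section
variable {p : ℕ} [Fact p.Prime] {G V : Type*} [Group G] [AddCommGroup V] [Module (ZMod p) V]
  [Finite V]

theorem tr_sum (ρ : G →* Module.End (ZMod p) V) {g x : G} {v : V} {k : ZMod p} {o : ℕ}
    (xo : x ^ o = 1) (po : ¬ p ∣ o) (v0 : v ≠ 0) (hv : ρ x v = v)
    (hf : ∀ w, ρ x w = w → ∃ c : ZMod p, w = c • v) (hg : ρ g v = k • v) :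
    ∑ i ∈ Finset.range o, LinearMap.trace (ZMod p) V (ρ (g * x ^ i)) = o * k := by
  have o0 : (o : ZMod p) ≠ 0 := fun e => po ((ZMod.natCast_eq_zero_iff _ _).1 e)
  set Q : Module.End (ZMod p) V := ∑ i ∈ Finset.range o, ρ (x ^ i) with hQ
  have hx : ρ x * Q = Q := by
    have h1 := Finset.sum_range_succ (fun i => ρ (x ^ i)) o
    have h2 := Finset.sum_range_succ' (fun i => ρ (x ^ i)) o
    rw [h1, xo, pow_zero, add_left_inj] at h2
    rw [hQ, Finset.mul_sum, h2]
    exact Finset.sum_congr rfl fun i _ => by rw [← map_mul, ← pow_succ']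
  have hw : ∀ w, ∃ c : ZMod p, Q w = c • v := fun w => hf _ (LinearMap.congr_fun hx w)
  have hxi : ∀ i : ℕ, ρ (x ^ i) v = v := fun i => by
    induction i with
    | zero => simp
    | succ i ih => rw [pow_succ, map_mul, Module.End.mul_apply, hv, ih]
  have hQv : Q v = (o : ZMod p) • v := by
    rw [hQ, LinearMap.sum_apply, Finset.sum_congr rfl fun i _ => hxi i, Finset.sum_const,
      Finset.card_range, Nat.cast_smul_eq_nsmul]
  have hP : LinearMap.IsProj (Submodule.span (ZMod p) {v}) ((o : ZMod p)⁻¹ • Q) := ⟨fun w => by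
      obtain ⟨c, hc⟩ := hw w
      rw [LinearMap.smul_apply, hc]
      exact Submodule.smul_mem _ _ (Submodule.smul_mem _ _ (Submodule.mem_span_singleton_self v)),
    fun w h => by
      obtain ⟨c, rfl⟩ := Submodule.mem_span_singleton.1 h
      rw [map_smul, LinearMap.smul_apply, hQv, smul_smul _ _ v, inv_mul_cancel₀ o0, one_smul]⟩
  have ht := hP.trace
  rw [finrank_span_singleton v0, map_smul, Nat.cast_one, smul_eq_mul, inv_mul_eq_one₀ o0] at ht
  have hgQ : ρ g * Q = k • Q := LinearMap.ext fun w => by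
    obtain ⟨c, hc⟩ := hw w
    rw [Module.End.mul_apply, LinearMap.smul_apply, hc, map_smul, hg, smul_comm]
  have := congrArg (LinearMap.trace (ZMod p) V) hgQ
  rw [map_smul, ← ht, hQ, Finset.mul_sum, map_sum, smul_eq_mul, mul_comm] at this
  rw [← this]
  exact Finset.sum_congr rfl fun i _ => by rw [map_mul]

omit [Finite V] in
theorem line [Module.Finite (ZMod p) V] {W : Submodule (ZMod p) V}
    (hW : Module.finrank (ZMod p) W ≤ 1) {v w : V} (hv : v ∈ W) (v0 : v ≠ 0) (hw : w ∈ W) :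
    ∃ c : ZMod p, w = c • v := by
  have : Submodule.span (ZMod p) {v} = W := Submodule.eq_of_le_of_finrank_le
    ((Submodule.span_singleton_le_iff_mem _ _).2 hv) (by rw [finrank_span_singleton v0]; exact hW)
  obtain ⟨c, hc⟩ := Submodule.mem_span_singleton.1 (this ▸ hw : w ∈ Submodule.span (ZMod p) {v})
  exact ⟨c, hc.symm⟩

end

theorem d1 : D1.{u} := by
  intro p _ G V _ _ _ _ _ ρ g x v k hc po hr v0 hv hf hg
  have inv : ∀ (y : G) (a b : V), ρ y a = b → ρ y⁻¹ b = a := fun y a b h => by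
    rw [← h, ← Module.End.mul_apply, ← map_mul, inv_mul_cancel, map_one, Module.End.one_apply]
  have k0 : k ≠ 0 := fun e => v0 (by
    rw [e, zero_smul] at hg
    rw [← inv g v 0 hg, map_zero])
  have h1 := tr_sum ρ (pow_orderOf_eq_one x) po v0 hv hf hg
  have h2 := tr_sum ρ (g := g⁻¹) (x := x⁻¹) (k := k⁻¹) (o := orderOf x)
    (by rw [inv_pow, pow_orderOf_eq_one, inv_one]) po v0 (inv x v v hv)
    (fun w h => hf w (by simpa using inv x⁻¹ w w h))
    (inv g _ _ (by rw [map_smul, hg, smul_smul, inv_mul_cancel₀ k0, one_smul]))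
  have h3 : ∀ i : ℕ, LinearMap.trace (ZMod p) V (ρ (g⁻¹ * x⁻¹ ^ i)) =
      LinearMap.trace (ZMod p) V (ρ (g * x ^ i)) := fun i => by
    obtain ⟨e, he⟩ := hr i
    have e1 : g⁻¹ * x⁻¹ ^ i = e * ((g * x ^ i) * e⁻¹) := by
      rw [← mul_assoc, he, (hc.pow_right i).eq, mul_inv_rev, inv_pow]
    rw [e1, map_mul, LinearMap.trace_mul_comm, ← map_mul, inv_mul_cancel_right]
  rw [Finset.sum_congr rfl fun i _ => h3 i, h1] at h2
  have o0 : (orderOf x : ZMod p) ≠ 0 := fun e => po ((ZMod.natCast_eq_zero_iff _ _).1 e)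
  have := mul_left_cancel₀ o0 h2
  rw [sq]
  nth_rewrite 2 [this]
  exact mul_inv_cancel₀ k0

local instance f7 : Fact (Nat.Prime 7) := ⟨by norm_num⟩

theorem s49 (h1 : D1.{u}) (h6 : S6.{u}) : S49.{u} := by
  intro H V _ _ _ _ _ ρ R hs
  by_contra hle
  have hd : Module.finrank (ZMod 7) V ≤ 2 := by
    have := Module.natCard_eq_pow_finrank (K := ZMod 7) (V := V)
    rw [Nat.card_zmod] at this
    by_contra h
    have : 7 ^ 3 ≤ 7 ^ Module.finrank (ZMod 7) V := Nat.pow_le_pow_right (by norm_num) (by omega)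
    omega
  have A : ∀ (h : H) (v : V), v ≠ 0 → ρ h v = v → ¬ ∀ w, ρ h w = w → ∃ c : ZMod 7, w = c • v := by
    intro h v v0 hv hf
    obtain ⟨g, hc, hg⟩ := R.ev h v hv 3 (by decide)
    exact absurd (h1 7 H V ρ g h v 3 hc (fun e => R.cop (e.trans (orderOf_dvd_natCard h)))
      (fun i => R.rat.real _) v0 hv hf hg) (by decide)
  have prop : ∀ W : Submodule (ZMod 7) V, W ≠ ⊤ → Module.finrank (ZMod 7) W ≤ 1 := fun W hW => by
    have := Submodule.finrank_lt hW
    omega
  have fpf : ∀ h : H, h ≠ 1 → ∀ v, ρ h v = v → v = 0 := by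
    intro h h1' v hv
    by_contra v0
    have m : ∀ w, w ∈ LinearMap.ker (ρ h - 1) ↔ ρ h w = w := fun w => by
      simp [LinearMap.mem_ker, sub_eq_zero]
    refine A h v v0 hv fun w hw => line (prop (LinearMap.ker (ρ h - 1)) fun e => h1' (R.inj ?_))
      ((m v).2 hv) v0 ((m w).2 hw)
    rw [map_one]
    exact LinearMap.ext fun w => (m w).1 (e ▸ Submodule.mem_top)
  have := R.nt
  obtain ⟨v, v0⟩ := exists_ne (0 : V)
  obtain ⟨s, -, hs2⟩ := R.ev 1 v (by simp) 2 (by decide)
  have s3 : s ^ 3 = 1 := by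
    by_contra h
    refine v0 (fpf _ h v ?_)
    rw [pow_three, map_mul, map_mul, Module.End.mul_apply, Module.End.mul_apply, hs2, map_smul, hs2,
      map_smul, map_smul, hs2, smul_smul, smul_smul, show (2 * 2 * 2 : ZMod 7) = 1 by decide, one_smul]
  have s1 : s ≠ 1 := fun e => v0 (by
    rw [e, map_one, Module.End.one_apply, two_smul] at hs2
    exact left_eq_add.1 hs2)
  have h7 := h6 7 H V ρ R (by norm_num) hs s (by rw [show 6 = 3 * 2 from rfl, pow_mul, s3, one_pow])
    (fpf s s1)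
  have m : ∀ w, w ∈ LinearMap.ker (ρ s - (2 : ZMod 7) • 1) ↔ ρ s w = (2 : ZMod 7) • w := fun w => by
    simp [LinearMap.mem_ker, sub_eq_zero]
  have hE : LinearMap.ker (ρ s - (2 : ZMod 7) • 1) ≠ ⊤ := fun e => by
    have all : ∀ w, ρ s w = (2 : ZMod 7) • w := fun w => (m w).1 (e ▸ Submodule.mem_top)
    obtain ⟨g, hg⟩ := R.rat.real s
    have hc : g * s = s * g := R.inj (LinearMap.ext fun w => by
      rw [map_mul, map_mul, Module.End.mul_apply, Module.End.mul_apply, all, all, map_smul])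
    rw [hc, mul_inv_cancel_right] at hg
    apply s1
    rw [← s3, pow_three]
    nth_rewrite 3 [hg]
    group
  have ex : ∀ g : centralizer ({s} : Set H), ∃ c : (ZMod 7)ˣ, ρ g v = (c : ZMod 7) • v := fun g => by
    obtain ⟨c, hc⟩ := line (prop _ hE) ((m v).2 hs2) v0 (w := ρ g v) ((m _).2 (by
      rw [← Module.End.mul_apply, ← map_mul, ← (mem_cc.1 g.2).eq, map_mul, Module.End.mul_apply, hs2,
        map_smul]))
    refine ⟨Units.mk0 c fun e => v0 ?_, hc⟩
    rw [e, zero_smul] at hc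
    have := congrArg (ρ (g : H)⁻¹) hc
    rwa [← Module.End.mul_apply, ← map_mul, inv_mul_cancel, map_one, Module.End.one_apply,
      map_zero] at this
  choose f hf using ex
  have hinj : Function.Injective f := fun a b e => by
    have e1 : ρ ((b : H)⁻¹ * a) v = v := by
      rw [map_mul, Module.End.mul_apply, hf a, e, ← hf b, ← Module.End.mul_apply, ← map_mul,
        inv_mul_cancel, map_one, Module.End.one_apply]
    by_contra hne
    exact v0 (fpf _ (fun e2 => hne (Subtype.ext (inv_mul_eq_one.1 e2).symm)) v e1)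
  have := Nat.card_le_card_of_injective f hinj
  rw [Nat.card_eq_fintype_card (α := (ZMod 7)ˣ), ZMod.card_units] at this
  exact absurd h7 (not_lt.2 this)

end H2.AH
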