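import Cfsg.Agent.H5.IS0
import Cfsg.Agent.H5.Three

/-! Mazurov's lemma for a given prime of the kernel. -/

set_option autoImplicit false

namespace H2.IS
open Subgroup H5.IS H5 H19

theorem pw_mem {G : Type} [Group G] {P : Subgroup G} {u v : G} (hu : u ∈ N(P)) (hv : v ∈ P) (n : ℕ) :
    (v * u) ^ n * (u ^ n)⁻¹ ∈ P := by
  induction n with
  | zero => simp
  | succ n ih =>
    have := mul_mem ih ((mem_normalizer_iff.1 (pow_mem hu n) v).1 hv)
    convert this using 1
    rw [pow_succ, pow_succ]; group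

theorem fr : FR := by
  intro G B _ _ _ _ π x g r s sj so hr ox nd na cx fp hs sd
  have := Fact.mk hr
  have := Fact.mk hs
  have co : (#π.ker).Coprime r := (hr.coprime_iff_not_dvd.2 nd).symm
  obtain ⟨y0, rfl⟩ := sj x
  obtain ⟨c, hc⟩ := exists_pow_eq_self_of_coprime (ox ▸ co)
  obtain ⟨y, hy, e⟩ : ∃ y : G, y ^ r = 1 ∧ π y = π y0 := ⟨(y0 ^ #π.ker) ^ c, by
    rw [pow_right_comm, pow_right_comm y0, orderOf_dvd_iff_pow_eq_one.1 (orderOf_dvd_card' (by
      rw [MonoidHom.mem_ker, map_pow, ← ox, pow_orderOf_eq_one])), one_pow], by rw [map_pow, map_pow, hc]⟩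
  rw [← e] at ox cx fp
  clear hc e
  have oy : orderOf y = r := orderOf_eq_prime hy fun t => by simp [t] at ox; exact hr.one_lt.ne ox
  have cF : #(zpowers y) = r := by rw [Nat.card_zpowers, oy]
  have ck : ∀ k ∈ π.ker, Commute y k → k = 1 := fun k hk c => by
    by_contra k1
    obtain ⟨t, ht, d⟩ := exists_prime_dvd_orderOf k1
    have d1 := orderOf_dvd_card' hk
    refine na t ht (d.trans d1) ⟨_, orderOf_pow_orderOf_div (orderOf_pos (y * k)).ne' ?_⟩
    rw [c.orderOf_mul_eq_mul_orderOf_of_coprime (oy ▸ (co.coprime_dvd_left d1).symm), oy]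
    exact Nat.mul_dvd_mul_left r d
  have nK : ∀ X : Subgroup G, X ≤ N(π.ker) := fun X => normalIn_top.norms le_top
  have c : (#π.ker).Coprime #(zpowers y) := cF ▸ co
  obtain ⟨h, rfl⟩ := sj g
  obtain ⟨a, ha, a1⟩ := exists_cj_le_of_le_sup (B := cj h (zpowers y)) (nK (zpowers y)) (by
    rw [cj_zpowers, zpowers_le, sup_comm, ← comap_map_eq, mem_comap, MonoidHom.map_zpowers]
    simpa using cx) (by rwa [card_cj]) (.inr so)
  rw [cj_cj] at a1
  have a2 := mem_norm_of_cj_le a1
  obtain ⟨P, hP, n1⟩ := inv_syl_exists s (nK _) c (.inr so)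
  obtain ⟨b, hb, b1⟩ := inv_syl_conj (nK _) c (.inr so) (hP.Jnorm (nK _ (mem_top (a * h))))
    (by rw [← cj_norm, le_cj_iff, cj_of_mem_norm (inv_mem a2)]; exact n1) hP n1
  rw [cj_cj] at b1
  have b2 := mul_mem (cent_le_norm _ hb.2) a2
  have e : π (b * (a * h)) = π h := by rw [map_mul, map_mul, show π b = 1 from hb.1, show π a = 1 from ha, one_mul, one_mul]
  generalize b * (a * h) = u at b1 b2 e
  rw [← e] at fp ⊢
  have kf : ∀ z ∈ zpowers y, π z = 1 → z = 1 := fun z hz t => ck z t (by obtain ⟨i, rfl⟩ := hz; exact (Commute.refl y).zpow_right i)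
  have un : u ^ orderOf (π u) = 1 := by
    have t : π (u ^ orderOf (π u)) = 1 := by rw [map_pow, pow_orderOf_eq_one]
    refine ck _ t (commutatorElement_eq_one_iff_commute.1 (kf _ ?_ (by simp [commutatorElement_def, t]))).symm
    exact mul_mem ((mem_normalizer_iff.1 (pow_mem b2 _) y).1 (mem_zpowers y)) (inv_mem (mem_zpowers y))
  by_contra H
  refine hP.sne_bot hs sd (eq_bot_iff.2 fun v hv => ck v (hP.le hv) ?_)
  refine (cents_of_pow (orderOf_pos (π u)) b2 (fun i i0 i1 => eq_bot_iff.2 fun z hz => by_contra fun z1 => ?_) hP.pi.sol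
    (mem_norm_iff_cj.2 b1) n1 (c.symm.coprime_dvd_right (card_dvd hP.le)) (fun w hw => by_contra fun t => H ?_)
    (mem_zpowers y) v hv).symm
  · refine pow_ne_one_of_lt_orderOf i0.ne' i1 (fp i ?_)
    obtain ⟨j, t⟩ := (eq_zpowers_of_prime (cF ▸ hr) hz.1 z1).ge (mem_zpowers y)
    rw [← map_pow, ← t]
    exact ((show Commute z (u ^ i) from mem_cent1.1 hz.2).symm.zpow_right j).map π
  · have m := pw_mem (mem_norm_iff_cj.2 b1) hw (orderOf (π u))
    rw [un] at t m
    rw [inv_one, mul_one] at m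
    have d1 : orderOf (π u) ∣ orderOf (w * u) := by
      have := orderOf_map_dvd π (w * u)
      rwa [map_mul, show π w = 1 from hP.le hw, one_mul] at this
    obtain ⟨p, hp, d⟩ := exists_prime_dvd_orderOf t
    obtain rfl : p = s := hP.pi p hp (d.trans (orderOf_dvd_card' m))
    rw [orderOf_pow' _ (orderOf_pos _).ne', Nat.gcd_eq_right d1, Nat.dvd_div_iff_mul_dvd d1, mul_comm] at d
    exact ⟨_, orderOf_pow_orderOf_div (orderOf_pos _).ne' d⟩

end H2.IS
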