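import Cfsg.Agent.H5.IS0
import Cfsg.Agent.H7.ST5
import Cfsg.Agent.H18.G6
import Cfsg.Agent.S1447
import Cfsg.Agent.S2807

/-! Simple groups with a Sylow subgroup of order 27 and exponent 9. -/

set_option autoImplicit false

namespace H2.IS
open Cfsg Subgroup H5.IS H19 Cfsg.Agent

section
variable {S : Type} [Group S] [Finite S] {P Q : Subgroup S} {g a b s : S}

omit [Finite S] in
theorem mc : g ∈ C[a] ↔ g * a * g⁻¹ = a := mem_cent1.trans mul_inv_eq_iff_eq_mul.symm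

theorem pm (o : orderOf a = 3 ∨ orderOf a = 9 ∧ g * g ∈ C[a]) (h : g * a * g⁻¹ ∈ zpowers a) :
    g * a * g⁻¹ = a ∨ g * a * g⁻¹ = a⁻¹ := by
  classical
  obtain ⟨k, hk, e⟩ := Finset.mem_image.1 (mem_zpowers_iff_mem_range_orderOf.1 h)
  rw [Finset.mem_range] at hk
  have : k = 1 ∨ k + 1 = orderOf a := by
    rcases o with o | ⟨o, c⟩
    · have : k ≠ 0 := by
        rintro rfl
        rw [pow_zero, eq_comm, conj_eq_one_iff] at e
        simp [e] at o
      omega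
    · have t : a ^ (k * k) = a ^ 1 := by
        rw [pow_mul, e, conj_pow, e, pow_one]
        refine .trans ?_ (mc.1 c); group
      rw [pow_eq_pow_iff_modEq, o] at t
      rw [o] at hk ⊢
      exact (by decide : ∀ k < 9, k * k % 9 = 1 % 9 → k = 1 ∨ k + 1 = 9) k hk t
  refine this.imp (fun t => by rw [← e, t, pow_one]) fun t => ?_
  rw [← e, eq_inv_iff_mul_eq_one, ← pow_succ, t, pow_orderOf_eq_one]

theorem c3 (hQ : #Q ∣ 3) (hg : g ∈ N(Q)) : g * g ∈ C(Q) := mem_cent.2 fun x hx => by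
  by_cases x1 : x = 1
  · simp [x1]
  have c : #Q = 3 := ((Nat.dvd_prime Nat.prime_three).1 hQ).resolve_left fun e => x1 ((eq_bot_of_card_eq _ e).le hx)
  have e := eq_zpowers_of_prime (c ▸ Nat.prime_three) hx x1
  have t : g * g * x * (g * g)⁻¹ = g * (g * x * g⁻¹) * g⁻¹ := by group
  refine (mem_cent1.1 (mc.2 ?_)).symm
  rcases pm (g := g) (.inl (by rw [← Nat.card_zpowers, e, c])) (e.ge (conj_mem_of_norm hg hx)) with h | h
  · rw [t, h, h]
  · rw [t, h, ← conj_inv, h, inv_inv]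

/-- an abelian group of order 27 and exponent 9 whose automizer has exponent 2 and no fixed points -/
structure Ct (P : Subgroup S) : Prop where
  ab : Ab P
  cd : #P = 27
  e9 : ∀ u ∈ P, u ^ 9 = 1
  k1 : ∀ g ∈ N(P), g * g ∈ C(P)
  k2 : ∀ u ∈ P, (∀ g ∈ N(P), g * u * g⁻¹ = u) → u = 1

/-- eigenspaces -/
def Ct.E (h : Ct P) (s : S) (σ : ℤ) : Subgroup S where
  carrier := {u | u ∈ P ∧ s * u * s⁻¹ = u ^ σ}
  one_mem' := ⟨one_mem _, by simp⟩
  mul_mem' := fun {a b} ha hb => ⟨mul_mem ha.1 hb.1, by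
    rw [Commute.mul_zpow (mul_comm_of_comm h.ab ha.1 hb.1), ← ha.2, ← hb.2]; group⟩
  inv_mem' := fun {a} ha => ⟨inv_mem ha.1, by rw [inv_zpow, ← ha.2]; group⟩

omit [Finite S] in
theorem Ct.nE (h : Ct P) (hs : s ∈ N(P)) (σ : ℤ) (hg : g ∈ N(P)) (ha : a ∈ h.E s σ) : g * a * g⁻¹ ∈ h.E s σ := by
  refine ⟨conj_mem_of_norm hg ha.1, ?_⟩
  have c := mul_mem (mul_mem (h.k1 _ (inv_mem (mul_mem hs hg))) (conj_mem_of_norm (norm_le_norm_cent P hs) (h.k1 g hg)))
    (h.k1 s hs)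
  have := mem_cent.1 c a ha.1
  rw [conj_zpow, ← ha.2]
  calc _ = g * s * (((s * g)⁻¹ * (s * g)⁻¹ * (s * (g * g) * s⁻¹) * (s * s))⁻¹ * a *
      ((s * g)⁻¹ * (s * g)⁻¹ * (s * (g * g) * s⁻¹) * (s * s))) * s⁻¹ * g⁻¹ := by group
    _ = _ := by rw [mul_assoc _ a, this]; group

theorem Ct.fin (h : Ct P) (hs : s ∈ N(P)) {σ : ℤ} (hσ : σ = 1 ∨ σ = -1) (ha : a ∈ h.E s σ) (a3 : a ^ 3 ≠ 1)
    (hb : b ∈ h.E s (-σ)) (b1 : b ≠ 1) : ∃ s, P9 a b s := by
  have := Fact.mk Nat.prime_three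
  have oa : orderOf a = 9 := orderOf_eq_prime_pow (p := 3) (n := 1) a3 (h.e9 a ha.1)
  have l : ∀ τ, h.E s τ ≤ P := fun _ _ m => m.1
  have ni : ∀ u ∈ P, u⁻¹ = u → u = 1 := fun u hu e => by
    have t : u ^ 2 = 1 := by rw [sq]; exact mul_eq_one_iff_inv_eq.2 e
    rw [← h.e9 u hu, show 9 = 2 * 4 + 1 from rfl, pow_succ, pow_mul, t, one_pow, one_mul]
  have di : h.E s σ ⊓ h.E s (-σ) = ⊥ := eq_bot_iff.2 fun u hu => ni u hu.1.1 (by
    have := hu.1.2.symm.trans hu.2.2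
    rcases hσ with rfl | rfl
    · simpa using this.symm
    · simpa using this)
  have cs := card_sup_of_disjoint (norms_of_comm h.ab (l _) (l σ)) di
  have c1 := card_le (sup_le (l σ) (l (-σ)))
  have c2 := card_le (zpowers_le.2 ha)
  have c3 := card_le (zpowers_le.2 hb)
  have ob : 3 ≤ orderOf b := by
    obtain ⟨i, -, e⟩ := (Nat.dvd_prime_pow (m := 2) Nat.prime_three).1 (orderOf_dvd_of_pow_eq_one (h.e9 b hb.1))
    rcases i with _ | i
    · exact absurd (orderOf_eq_one_iff.1 e) b1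
    · exact e ▸ Nat.le_self_pow i.succ_ne_zero 3
  rw [cs, h.cd] at c1
  rw [Nat.card_zpowers] at c2 c3
  have za : zpowers a = h.E s σ := eq_of_le_of_card_ge (zpowers_le.2 ha) (by rw [Nat.card_zpowers]; nlinarith)
  have zb : zpowers b = h.E s (-σ) := eq_of_le_of_card_ge (zpowers_le.2 hb) (by rw [Nat.card_zpowers]; nlinarith)
  replace ob : orderOf b = 3 := by nlinarith
  have e : zpowers a ⊔ zpowers b = P := eq_of_le_of_card_eq (sup_le (za ▸ l _) (zb ▸ l _)) (by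
    rw [za, zb, cs, ← za, ← zb, Nat.card_zpowers, Nat.card_zpowers, oa, ob, h.cd])
  have pa : ∀ g ∈ N(P), g * a * g⁻¹ = a ∨ g * a * g⁻¹ = a⁻¹ := fun g hg =>
    pm (.inr ⟨oa, mem_cent1.2 (mem_cent.1 (h.k1 g hg) a ha.1).symm⟩) (za ▸ h.nE hs σ hg ha)
  have pb : ∀ g ∈ N(P), g * b * g⁻¹ = b ∨ g * b * g⁻¹ = b⁻¹ := fun g hg => pm (.inl ob) (zb ▸ h.nE hs _ hg hb)
  have a1 : a ≠ 1 := fun t => a3 (by rw [t, one_pow])
  have ii : ∀ {g t u : S}, g * u * g⁻¹ = u⁻¹ → t * u * t⁻¹ = u⁻¹ → g * t * u * (g * t)⁻¹ = u := fun {g t u} x y =>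
    (show _ = g * (t * u * t⁻¹) * g⁻¹ by group).trans (by rw [y, ← conj_inv, x, inv_inv])
  obtain ⟨t, ht, ta, tb⟩ : ∃ t ∈ N(P), t * a * t⁻¹ = a⁻¹ ∧ t * b * t⁻¹ = b := by
    rcases hσ with rfl | rfl
    · obtain ⟨t, ht, ta⟩ : ∃ t ∈ N(P), t * a * t⁻¹ ≠ a := by
        by_contra! k; exact a1 (h.k2 a ha.1 k)
      replace ta := (pa t ht).resolve_left ta
      rcases pb t ht with tb | tb
      · exact ⟨t, ht, ta, tb⟩
      · refine ⟨t * s, mul_mem ht hs, (show _ = t * (s * a * s⁻¹) * t⁻¹ by group).trans ?_, ii tb (by simpa using hb.2)⟩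
        rw [ha.2, zpow_one, ta]
    · exact ⟨s, hs, by simpa using ha.2, by simpa using hb.2⟩
  obtain ⟨r, hr, rb⟩ : ∃ t ∈ N(P), t * b * t⁻¹ ≠ b := by
    by_contra! k; exact b1 (h.k2 b hb.1 k)
  have cP : C(P) = C[a] ⊓ C[b] := by rw [← e, cent_sup, cent_zpowers, cent_zpowers]
  refine ⟨t, oa, ob, mul_comm_of_comm h.ab ha.1 hb.1, fun m => b1 (di.le ⟨za ▸ m, hb⟩), e ▸ h.cd,
    e ▸ fun g hg => ⟨pa g hg, pb g hg⟩, ta, tb, ?_⟩
  rw [e, ← relIndex_mul_relIndex C(P) (C[b] ⊓ N(P)) N(P) (le_inf (cP ▸ inf_le_right) (cent_le_norm P)) inf_le_right,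
    inf_relIndex_right, cP, (relIndex_eq_two_iff_exists_notMem_and (H := C[a] ⊓ C[b]) (K := C[b] ⊓ N(P))).2 ⟨t, ⟨mc.2 tb, ht⟩,
      fun m => a1 (ni a ha.1 (ta.symm.trans (mc.1 m.1))), fun g hg => (pa g hg.2).symm.imp
        (fun x => ⟨mc.2 (ii x ta), mul_mem hg.1 (mc.2 tb)⟩) fun x => ⟨mc.2 x, hg.1⟩⟩,
    relIndex_eq_two_iff_exists_notMem_and.2 ⟨r, hr, mt mc.1 rb, fun g hg => (pb g hg).symm.imp
      (fun x => mc.2 (ii x ((pb r hr).resolve_left rb))) mc.2⟩]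

theorem Ct.p9 (h : Ct P) (ha : a ∈ P) (oa : orderOf a = 9) (hs : s ∈ N(P)) {u v : S} (hu : u ∈ P)
    (su : s * u * s⁻¹ ≠ u) (hv : v ∈ P) (sv : s * v * s⁻¹ ≠ v⁻¹) : ∃ a b s : S, P9 a b s := by
  have ss : ∀ w ∈ P, s * (s * w * s⁻¹) * s⁻¹ = w := fun w hw =>
    (show _ = s * s * w * (s * s)⁻¹ by group).trans (mul_inv_eq_iff_eq_mul.2 (mem_cent.1 (h.k1 s hs) w hw).symm)
  have cm : ∀ w ∈ P, Commute w (s * w * s⁻¹) := fun w hw => mul_comm_of_comm h.ab hw (conj_mem_of_norm hs hw)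
  have x : ∀ w ∈ P, w * (s * w * s⁻¹)⁻¹ ∈ h.E s (-1) := fun w hw => ⟨mul_mem hw (inv_mem (conj_mem_of_norm hs hw)), by
    rw [← conj_mul, ← conj_inv, ss w hw]; group⟩
  have y : ∀ w ∈ P, w * (s * w * s⁻¹) ∈ h.E s 1 := fun w hw => ⟨mul_mem hw (conj_mem_of_norm hs hw), by
    rw [← conj_mul, ss w hw, zpow_one, cm w hw]⟩
  by_cases c : (a * (s * a * s⁻¹)) ^ 3 = 1
  · refine ⟨_, _, h.fin hs (.inr rfl) (x a ha) (fun k => ?_) (y v hv) fun k => sv (eq_inv_of_mul_eq_one_right k)⟩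
    rw [(cm a ha).mul_pow] at c
    rw [(cm a ha).inv_right.mul_pow, inv_pow, mul_inv_eq_one] at k
    rw [← k, ← pow_add] at c
    exact absurd (oa ▸ orderOf_dvd_of_pow_eq_one c) (by decide)
  · exact ⟨_, _, h.fin hs (.inl rfl) (y a ha) c (x u hu) fun k => su (mul_inv_eq_one.1 k).symm⟩
end

theorem p27 : P27 := by
  intro S _ _ hs hn h27 h81 ⟨a, oa⟩ n27
  have p3 := Nat.prime_three
  have := Fact.mk p3
  have ca : #(zpowers a) = 9 := (Nat.card_zpowers a).trans oa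
  obtain ⟨T, hT⟩ := (IsPGroup.of_card (p := 3) (n := 2) ca).exists_le_sylow
  have aP : a ∈ (T : Subgroup S) := hT (mem_zpowers a)
  have cP : #(T : Subgroup S) = 27 := by
    obtain ⟨n, e⟩ := T.isPGroup'.exists_card_eq
    have h1 := (Nat.pow_dvd_pow_iff_le_right (by decide)).1 (e ▸ T.pow_dvd_card_of_pow_dvd_card (n := 3) h27)
    have h2 : ¬ 4 ≤ n := fun l => h81 ((pow_dvd_pow 3 l).trans (e ▸ card_subgroup_dvd_card _))
    rw [e, show n = 3 by omega]; rfl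
  have qs := H1.isQuasisimple_of_isSimpleGroup hn
  have d : (T : Subgroup S) ≤ ⁅N((T : Subgroup S)), N((T : Subgroup S))⁆ := by
    by_contra k
    obtain ⟨Q, f, sf⟩ := S2807.result T fun e => k (inf_eq_left.1 (e.symm.trans (by
      rw [Group.isPerfect_def.1 qs.1, inf_top_eq])))
    exact h81 ((Q.pow_dvd_card_of_pow_dvd_card (n := 4) (by rw [Nat.card_perm, Nat.card_fin]; decide)).trans
      ((card_dvd_of_surjective f sf).trans (card_subgroup_dvd_card _)))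
  have hP := (syl_sylow_top T).of_le le_normalizer le_top
  obtain ⟨A, hA⟩ := hP.exists_compl le_rfl
  have co := hP.pi.coprime (hA.hall_right hP).pi
  obtain ⟨d1, d2⟩ := H18.coprime_der1_sdprod hA co hP.pi.sol d
  have ix : (zpowers a).relIndex T = 3 := by
    have := card_mul_relIndex hT
    rw [ca, cP] at this
    omega
  have nm : ((zpowers a).subgroupOf T).Normal := normal_of_index_eq_minFac_card (by rw [cP]; exact ix.trans (by norm_num))
  have mt : IsMetacyclic T := ⟨_, nm, isCyclic_of_surjective _ (subgroupOfEquivOfLe hT).symm.surjective,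
    isCyclic_of_prime_card (p := 3) ix⟩
  have c3' : ∀ B : Subgroup S, B ≤ A → (#B).Coprime 3 := fun B l =>
    ((co.coprime_dvd_right (card_dvd l)).coprime_dvd_left (by rw [cP]; decide)).symm
  have ab : Ab (T : Subgroup S) := by
    have := (S1447.result 3 (by decide) T A T.isPGroup' mt hA.norm (c3' A le_rfl)).1
    rwa [d1] at this
  have e9 : ∀ u ∈ (T : Subgroup S), u ^ 9 = 1 := fun u hu => by
    obtain ⟨i, l, e⟩ := (Nat.dvd_prime_pow (m := 3) p3).1 ((orderOf_dvd_card' hu).trans (dvd_of_eq cP))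
    exact orderOf_dvd_iff_pow_eq_one.1 ((dvd_of_eq e).trans (pow_dvd_pow 3 (show i ≤ 2 from Nat.le_of_lt_succ
      (l.lt_of_ne fun t => n27 ⟨u, by rw [e, t]; rfl⟩))))
  have u3 : ∀ u ∈ (T : Subgroup S), u ^ 3 ∈ zpowers (a ^ 3) := fun u hu => by
    obtain ⟨k, e⟩ : u ^ 3 ∈ zpowers a := by
      have := pow_index_mem (H := (zpowers a).subgroupOf T) ⟨u, hu⟩
      rwa [show index _ = 3 from ix] at this
    have t : a ^ (k * 3) = 1 := by rw [zpow_mul, show a ^ k = u ^ 3 from e, zpow_ofNat, ← pow_mul, e9 u hu]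
    obtain ⟨j, rfl⟩ : 3 ∣ k := by
      have := orderOf_dvd_iff_zpow_eq_one.2 t
      rw [oa] at this
      omega
    exact ⟨j, by rw [← e]; simp only [zpow_mul, zpow_ofNat]⟩
  have oz : orderOf (a ^ 3) = 3 := by rw [orderOf_pow' _ (by decide), oa]; rfl
  have k1 : ∀ g ∈ A, g * g ∈ C((T : Subgroup S)) := fun g hg => by
    have gN := hA.norm hg
    have l : zpowers (g * g) ≤ A := zpowers_le.2 (mul_mem hg hg)
    obtain ⟨-, -, i, -⟩ := S1447.result 3 (by decide) T _ T.isPGroup' mt (l.trans hA.norm) (c3' _ l)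
    have z : zpowers (g * g) ≤ C(zpowers (a ^ 3)) := zpowers_le.2 (c3 (by rw [Nat.card_zpowers, oz])
      (mem_norm_of_cj_le (by rw [cj_zpowers, zpowers_le, ← conj_pow]; exact u3 _ (conj_mem_of_norm gN aP))))
    have lD := commg_le_left (l.trans hA.norm)
    have zP : zpowers (a ^ 3) ≤ T := zpowers_le.2 (pow_mem aP 3)
    have o : ⁅(T : Subgroup S), zpowers (g * g)⁆ ⊔ zpowers (a ^ 3) < T := by
      refine (sup_le (commutator_le.2 fun u hu k hk => ?_) (zpowers_le.2 (mem_Ohm1 (pow_mem aP 3)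
        (by rw [← pow_mul, e9 a aP])))).trans_lt ((Ohm1_le 3 _).lt_of_ne fun e => ?_)
      · refine mem_Ohm1 (lD (commutator_mem_commutator hu hk)) ?_
        rw [commutatorElement_def, show u * k * u⁻¹ * k⁻¹ = u * (k * u * k⁻¹)⁻¹ by group, (show Commute u _ from mul_comm_of_comm ab hu
          (conj_mem_of_norm (hA.norm (l hk)) hu)).inv_right.mul_pow, inv_pow, conj_pow, ← mem_cent.1 (z hk) _ (u3 u hu)]
        group
      · rw [pow_of_mem_Ohm1 ab (e.ge aP), orderOf_one] at oz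
        omega
    have c := card_sup_of_disjoint (norms_of_comm ab zP lD) (eq_bot_iff.2 ((inf_le_inf_left _
      (le_inf zP (cents_symm z))).trans i.le))
    have c1 := card_dvd o.le
    have c2 := card_lt o
    rw [c, cP, Nat.card_zpowers, oz] at c1 c2
    have t := c3 (g := g) (Q := ⁅(T : Subgroup S), zpowers (g * g)⁆) (by
      generalize #(⁅(T : Subgroup S), zpowers (g * g)⁆) = n at c1 c2
      exact (by decide : ∀ n < 9, n * 3 ∣ 27 → n ∣ 3) n (by omega) c1)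
      (norms_comm (zpowers_le.2 gN) (zpowers_le.2 (cent1_le_norm_zpowers _ (mem_cent1.2 (mul_assoc ..).symm)))
        (mem_zpowers g))
    exact cents_symm (commg_eq_bot.1 (eq_bot_iff.2 ((le_inf le_rfl (le_inf lD (cents_symm (zpowers_le.2 t)))).trans
      i.le))) (mem_zpowers _)
  have ct : Ct (T : Subgroup S) := ⟨ab, cP, e9, fun g hg => by
    obtain ⟨p, hp, q, hq, rfl⟩ := hA.mem hg
    rw [show p * q * (p * q) = p * (q * p * q⁻¹) * (q * q) by group]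
    exact mul_mem (comm_iff_le_cent.1 ab (mul_mem hp (conj_mem_of_norm (hA.norm hq) hp))) (k1 q hq),
    fun u hu k => (comm_iff_der.1 ab).le (d2 ⟨hu, mem_cent.2 fun g hg => mul_inv_eq_iff_eq_mul.1 (k g (hA.norm hg))⟩)⟩
  by_contra k
  refine H1.not_dvd_card_of_isQuasisimple_of_isPSolvable (L := ⊤) (p := 3) (H1.isQuasisimple_of_equiv qs topEquiv.symm)
    (H1.isPSolvable_subgroup (H1.isPSolvable_of_pLengthLE (H7.ST.plen (P := T) ⟨by decide, H28.isSylowIn_top T,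
      comm_iff_le_cent.1 ab, fun s hs => by_contra fun t => ?_⟩ fun c => ?_)) ⊤) (by rw [card_top]; exact .trans (by decide) h27)
  · push Not at t
    obtain ⟨⟨u, hu, su⟩, v, hv, sv⟩ := t
    exact k (ct.p9 aP oa hs hu su hv sv)
  · obtain ⟨x, e⟩ := cyc_iff.1 c
    exact n27 ⟨x, by rw [← Nat.card_zpowers, e, cP]⟩

end H2.IS
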