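import Cfsg.Agent.H2.NilpFactor

/-!
The theorem of Wielandt and Kegel: a finite product of two nilpotent groups is solvable.
-/

set_option autoImplicit false

namespace H2

open Subgroup Cfsg
open scoped Pointwise commutatorElement

universe u v

variable {G : Type u} [Group G]

/-- The configuration of a minimal counterexample to Wielandt's theorem. -/
structure WConf (A B : Subgroup G) : Prop where
  simple : ∀ N : Subgroup G, N.Normal → N = ⊥ ∨ N = ⊤
  nilA : Group.IsNilpotent A
  nilB : Group.IsNilpotent B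
  cop : (Nat.card A).Coprime (Nat.card B)
  fac : FacIn A B ⊤
  twoA : ∀ p : ℕ, ∃ r : ℕ, r.Prime ∧ r ≠ p ∧ r ∣ Nat.card A
  twoB : ∀ p : ℕ, ∃ r : ℕ, r.Prime ∧ r ≠ p ∧ r ∣ Nat.card B
  ih : ∀ L X Y : Subgroup G, L ≠ ⊤ → X ≤ L → Group.IsNilpotent X → Group.IsNilpotent Y →
    (Nat.card X).Coprime (Nat.card Y) → FacIn X Y L → Group.IsSolvable L

namespace WConf

variable {A B : Subgroup G}

theorem symm (c : WConf A B) : WConf B A :=
  ⟨c.simple, c.nilB, c.nilA, c.cop.symm, c.fac.symm, c.twoB, c.twoA, c.ih⟩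

theorem conj_right (c : WConf A B) (g : G) : WConf A (MulAut.conj g • B) :=
  ⟨c.simple, c.nilA, H1.isNilpotent_map c.nilB _, by rw [card_conj_smul]; exact c.cop,
    c.fac.conj_right g, c.twoA, by rw [card_conj_smul]; exact c.twoB, c.ih⟩

theorem conj_left (c : WConf A B) (g : G) : WConf (MulAut.conj g • A) B :=
  (c.symm.conj_right g).symm

theorem index_eq (c : WConf A B) : A.index = Nat.card B := c.fac.symm.index_eq_card c.cop.symm

theorem card_eq (c : WConf A B) : Nat.card G = Nat.card A * Nat.card B := by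
  rw [← c.index_eq, card_mul_index]

theorem hall (c : WConf A B) : IsPiHall {p | p ∣ Nat.card A} A :=
  isPiHall_of_coprime (c.index_eq ▸ c.cop)

theorem ne_top (c : WConf A B) : A ≠ ⊤ := fun e => by
  obtain ⟨r, hr, -, hd⟩ := c.twoB 0
  rw [← c.index_eq, e, index_top] at hd
  exact hr.ne_one (Nat.dvd_one.1 hd)

theorem normalizer_ne_top (c : WConf A B) {U : Subgroup G} (h0 : U ≠ ⊥) (h1 : U ≠ ⊤) :
    normalizer (U : Set G) ≠ ⊤ := fun e =>
  (c.simple U (normalizer_eq_top_iff.1 e)).elim h0 h1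

variable [Finite G]

theorem not_dvd_index_sy (c : WConf A B) {r : ℕ} [hr : Fact r.Prime] (h : r ∣ Nat.card A) :
    ¬ r ∣ (sy r A).index := by
  rw [← relIndex_mul_index (sy_le r A), c.index_eq, hr.out.dvd_mul, not_or]
  exact ⟨not_dvd_relIndex_sy c.nilA, H1.coprime_iff_forall_prime.1 c.cop r hr.out h⟩

theorem exists_le_sy (c : WConf A B) {r : ℕ} [hr : Fact r.Prime] (h : r ∣ Nat.card A)
    {U : Subgroup G} (hU : IsPGroup r U) : ∃ g : G, U ≤ sy r (MulAut.conj g • A) := by
  obtain ⟨g, -, hg⟩ := exists_conj_mem_of_not_dvd_relIndex (H := sy r A) (L := ⊤) hU le_top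
    (by rw [relIndex_top_right]; exact c.not_dvd_index_sy h)
  exact ⟨g, fun x hx => by rw [sy, ← H1.conj_smul_pCoreOf, mem_conj_smul]; exact hg x hx⟩

omit [Finite G] in
theorem solvable_of_facIn (c : WConf A B) {L : Subgroup G} (hL : L ≠ ⊤)
    (h : FacIn (L ⊓ A) (L ⊓ B) L) : Group.IsSolvable L :=
  c.ih L _ _ hL inf_le_left (H1.isNilpotent_of_le inf_le_right c.nilA)
    (H1.isNilpotent_of_le inf_le_right c.nilB)
    (Nat.Coprime.coprime_dvd_left (card_dvd_of_le inf_le_right)
      (c.cop.coprime_dvd_right (card_dvd_of_le inf_le_right))) h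

/-- A Sylow subgroup of `A` and one of `B` generate `G`. -/
theorem sy_sup_sy (c : WConf A B) {r s : ℕ} [hr : Fact r.Prime] [hs : Fact s.Prime]
    (hrA : r ∣ Nat.card A) (hsB : s ∣ Nat.card B) : sy r A ⊔ sy s B = ⊤ := by
  by_contra hne
  have hR0 := sy_ne_bot c.nilA hrA
  have hS0 := sy_ne_bot c.nilB hsB
  set L := normalizer ((sy r A ⊔ sy s B : Subgroup G) : Set G) with hL
  have hLt : L ≠ ⊤ := c.normalizer_ne_top (fun e => hR0 (le_bot_iff.1 (e ▸ le_sup_left))) hne
  have hf : FacIn (L ⊓ A) (L ⊓ B) L :=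
    facIn_normalizer_sup c.fac (H1.le_normalizer_pCoreOf A) (H1.le_normalizer_pCoreOf B)
  have := c.solvable_of_facIn hLt hf
  have hRL : sy r A ≤ L := le_sup_left.trans le_normalizer
  have hSL : sy s B ≤ L := le_sup_right.trans le_normalizer
  have key : ∀ (p : ℕ) [Fact p.Prime] (X : Subgroup G), sy p X ≤ L → ¬ p ∣ (sy p X).index →
      (L ⊓ X).subgroupOf L ≤ normalizer (((sy p X).subgroupOf L : Subgroup L) : Set L) ∧
      (Nat.card ((sy p X).subgroupOf L)).Coprime ((sy p X).subgroupOf L).index := by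
    intro p _ X hle hd
    refine ⟨?_, H1.coprime_card_of_isPGroup (H1.pCoreOf_isPGroup X).comap_subtype
      (H1.coprime_iff_not_dvd.2 fun h => hd (h.trans (relIndex_dvd_index_of_le hle)))⟩
    rw [← subgroupOf_normalizer_eq hle]
    exact comap_mono (inf_le_right.trans (H1.le_normalizer_pCoreOf X))
  obtain ⟨a1, a2⟩ := key r A hRL (c.not_dvd_index_sy hrA)
  obtain ⟨b1, b2⟩ := key s B hSL (c.symm.not_dvd_index_sy hsB)
  have hp := FacIn.map ((hf.subgroupOf inf_le_left).permutes_of_hall a1 b1 a2 b2) L.subtype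
  rw [Subgroup.map_sup, map_subgroupOf_eq_of_le hRL, map_subgroupOf_eq_of_le hSL] at hp
  obtain ⟨N, hN, hNt, h⟩ := kegel_lemma (sy r A) (sy s B) (fun x => by
    have := Permutes.conj_conj hp c.fac (H1.le_normalizer_pCoreOf A) (H1.le_normalizer_pCoreOf B)
      1 x
    rwa [H1.conj_one_smul] at this) fun hf => hne (top_le_iff.1 hf.le_sup)
  rcases c.simple N hN with rfl | h1
  · exact h.elim (fun e => hR0 (le_bot_iff.1 e)) fun e => hS0 (le_bot_iff.1 e)
  · exact hNt h1

/-- A Sylow subgroup of `A` normalizes no nontrivial `q`-subgroup for `q ∤ |A|`. -/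
theorem eq_bot_of_le_normalizer (c : WConf A B) {r q : ℕ} [hr : Fact r.Prime] [hq : Fact q.Prime]
    (hrA : r ∣ Nat.card A) (hqA : ¬ q ∣ Nat.card A) {E : Subgroup G} (hE : IsPGroup q E)
    (h : sy r A ≤ normalizer (E : Set G)) : E = ⊥ := by
  by_cases hqB : q ∣ Nat.card B
  · obtain ⟨g, hg⟩ := c.symm.exists_le_sy hqB hE
    obtain ⟨s, hs, hsq, hsB⟩ := c.twoB q
    have : Fact s.Prime := ⟨hs⟩
    have c' := c.conj_right g
    have h1 := c'.sy_sup_sy hrA (s := s) (by rwa [card_conj_smul])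
    have h2 : sy s (MulAut.conj g • B) ≤ normalizer (E : Set G) := le_normalizer_of_le_centralizer
      (le_centralizer_of_nilpotent c'.nilB (hg.trans (sy_le _ _)) (sy_le _ _) hE
        (coprime_card_sy hsq _))
    by_contra hE0
    refine c.normalizer_ne_top hE0 (fun e => ?_) (top_le_iff.1 (h1 ▸ sup_le h h2))
    rw [e] at hE
    have := H1.isPGroup_iff_forall_prime.1 hE r hr.out
      (hrA.trans (card_dvd_of_le le_top))
    exact hqA (this ▸ hrA)
  · refine H1.eq_bot_of_isPGroup_of_coprime hE (H1.coprime_iff_not_dvd.2 fun hd => ?_)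
    have := hd.trans (card_subgroup_dvd_card E)
    rw [c.card_eq, hq.out.dvd_mul] at this
    exact this.elim hqA hqB

theorem le_centralizer_of_isPGroup (c : WConf A B) {r s : ℕ} [hr : Fact r.Prime]
    [hs : Fact s.Prime] (hrA : r ∣ Nat.card A) (hsr : s ≠ r) {U : Subgroup G} (hU : IsPGroup s U)
    (h : sy r A ≤ normalizer (U : Set G)) : U ≤ centralizer (sy r A : Set G) := by
  by_cases hsA : s ∣ Nat.card A
  · obtain ⟨g, hg⟩ := c.exists_le_sy hsA hU
    have c' := c.conj_left g
    have h1 : sy r (MulAut.conj g • A) ≤ centralizer (U : Set G) :=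
      le_centralizer_of_nilpotent c'.nilA (hg.trans (sy_le _ _)) (sy_le _ _) hU
        (coprime_card_sy hsr.symm _)
    rw [le_centralizer_iff]
    refine le_of_coprime_relIndex h (H1.normalizer_le_normalizer_centralizer U)
      (H1.coprime_card_of_isPGroup (H1.pCoreOf_isPGroup A) (H1.coprime_iff_not_dvd.2 fun hd => ?_))
    exact c'.not_dvd_index_sy (by rwa [card_conj_smul]) ((hd.trans
      (relIndex_dvd_index_of_le (centralizer_le_normalizer _))).trans (index_dvd_of_le h1))
  · rw [c.eq_bot_of_le_normalizer hrA hsA hU h]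
    exact bot_le

/-- A Sylow `r`-subgroup of `A` centralizes every `r'`-subgroup it normalizes. -/
theorem le_centralizer_of_coprime (c : WConf A B) {r : ℕ} [hr : Fact r.Prime]
    (hrA : r ∣ Nat.card A) {K : Subgroup G} (hK : (Nat.card K).Coprime r)
    (h : sy r A ≤ normalizer (K : Set G)) : K ≤ centralizer (sy r A : Set G) := by
  refine le_of_forall_prime_relIndex fun s hs => ?_
  have : Fact s.Prime := ⟨hs⟩
  by_cases hsr : s = r
  · exact ⟨⊥, bot_le, by rw [relIndex_bot_left, hsr]; exact H1.coprime_iff_not_dvd.1 hK⟩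
  obtain ⟨P, -, h2, h3, h4⟩ := exists_invariant_sylow h
    (H1.coprime_card_of_isPGroup (H1.pCoreOf_isPGroup A) hK)
    (Or.inl (isSolvable_of_isPGroup (H1.pCoreOf_isPGroup A))) s
  exact ⟨P, c.le_centralizer_of_isPGroup hrA hsr h2 h4, h3⟩

theorem piNum_of_le_centralizer (c : WConf A B) {r : ℕ} [hr : Fact r.Prime]
    (hrA : r ∣ Nat.card A) {K : Subgroup G} (h : K ≤ centralizer (sy r A : Set G)) :
    PiNum {p | p ∣ Nat.card A} (Nat.card K) := by
  intro q hq hd
  by_contra hqA
  have : Fact q.Prime := ⟨hq⟩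
  obtain ⟨P, h1, h2, h3⟩ := exists_ambient_sylow q K
  rw [c.eq_bot_of_le_normalizer hrA hqA h2 (le_normalizer_of_le_centralizer
    (le_centralizer_iff.1 (h1.trans h))), relIndex_bot_left] at h3
  exact h3 hd

theorem le_of_le_normalizer (c : WConf A B) {U : Subgroup G}
    (hU : PiNum {p | p ∣ Nat.card A} (Nat.card U)) (h : U ≤ normalizer (A : Set G)) : U ≤ A :=
  le_of_isPiHallOf_of_le_normalizer' (isPiHallOf_top.2 c.hall) le_top hU h

theorem inf_centralizer_le (c : WConf A B) {r : ℕ} [hr : Fact r.Prime] (hrA : r ∣ Nat.card A)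
    {L : Subgroup G} (hL : Group.IsSolvable L) (h : sy r A ≤ L) :
    L ⊓ centralizer (sy r L : Set G) ≤ sy' r L ⊔ sy r L :=
  inf_centralizer_sy_le_sup hL h (H1.pCoreOf_isPGroup A)
    (fun hd => c.not_dvd_index_sy hrA (hd.trans (relIndex_dvd_index_of_le h)))
    (c.le_centralizer_of_coprime hrA (H1.pPrimeCoreOf_coprime L)
      (h.trans (H1.le_normalizer_pPrimeCoreOf L)))

theorem sy_le_sy (c : WConf A B) {r : ℕ} [hr : Fact r.Prime] (hrA : r ∣ Nat.card A)
    {L : Subgroup G} (h : sy r A ≤ L) : sy r L ≤ sy r A :=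
  le_of_normal_of_not_dvd_relIndex (H1.pCoreOf_isPGroup L) (sy_le r L)
    (H1.le_normalizer_pCoreOf L)
    fun hd => c.not_dvd_index_sy hrA (hd.trans (relIndex_dvd_index_of_le h))

/-- Every proper subgroup containing `A` normalizes `A`. -/
theorem le_normalizer_of_ge (c : WConf A B) {L : Subgroup G} (hL : L ≠ ⊤) (h : A ≤ L) :
    L ≤ normalizer (A : Set G) := by
  have hs : Group.IsSolvable L := c.solvable_of_facIn hL ((c.fac.inf_of_le h le_top).mono
    (le_inf h le_rfl) (inf_comm B L).le le_rfl)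
  have key : ∀ (r : ℕ) [Fact r.Prime], r ∣ Nat.card A → L ≤ normalizer (sy' r A : Set G) := by
    intro r _ hrA
    have hRL : sy r A ≤ L := (sy_le r A).trans h
    have h1 : sy' r A ≤ sy' r L := le_sy'_of_le_sup (le_trans (le_inf ((sy'_le r A).trans h)
      (le_centralizer_of_nilpotent c.nilA ((c.sy_le_sy hrA hRL).trans (sy_le r A)) (sy'_le r A)
        (H1.pCoreOf_isPGroup L) (H1.pPrimeCoreOf_coprime A))) (c.inf_centralizer_le hrA hs hRL))
      (H1.pPrimeCoreOf_coprime A)
    have h2 : sy' r L ≤ A := le_of_isPiHallOf_of_le_normalizer (isPiHallOf_top.2 c.hall) le_top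
      (c.piNum_of_le_centralizer hrA (c.le_centralizer_of_coprime hrA (H1.pPrimeCoreOf_coprime L)
        (hRL.trans (H1.le_normalizer_pPrimeCoreOf L)))) (h.trans (H1.le_normalizer_pPrimeCoreOf L))
    rw [le_antisymm h1 (le_sy' c.nilA h2 (H1.pPrimeCoreOf_coprime L))]
    exact H1.le_normalizer_pPrimeCoreOf L
  obtain ⟨r, hr, -, hrA⟩ := c.twoA 0
  obtain ⟨p, hp, hpr, hpA⟩ := c.twoA r
  have : Fact r.Prime := ⟨hr⟩
  have : Fact p.Prime := ⟨hp⟩
  have h3 : A = sy' r A ⊔ sy' p A := le_antisymm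
    ((H1.pCoreOf_sup_pPrimeCoreOf c.nilA r).ge.trans
      (sup_le ((sy_le_sy' c.nilA hpr.symm).trans le_sup_right) le_sup_left))
    (sup_le (sy'_le _ _) (sy'_le _ _))
  rw [h3]
  exact le_normalizer_sup (key r hrA) (key p hpA)

theorem normalizer_le (c : WConf A B) {U : Subgroup G} (h0 : U ≠ ⊥) (hU : U ≤ A)
    (h : A ≤ normalizer (U : Set G)) : normalizer (U : Set G) ≤ normalizer (A : Set G) :=
  c.le_normalizer_of_ge (c.normalizer_ne_top h0 fun e => c.ne_top (top_le_iff.1 (e ▸ hU))) h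

theorem mem_normalizer_of_sy_le (c : WConf A B) {s : ℕ} [Fact s.Prime] (hsA : s ∣ Nat.card A)
    {g : G} (h : sy s (MulAut.conj g • A) ≤ normalizer (A : Set G)) :
    g ∈ normalizer (A : Set G) := by
  have h1 := le_sy c.nilA (c.le_of_le_normalizer (piNum_of_isPGroup (H1.pCoreOf_isPGroup _) hsA) h)
    (H1.pCoreOf_isPGroup _)
  rw [← H1.conj_smul_pCoreOf] at h1
  exact c.normalizer_le (sy_ne_bot c.nilA hsA) (sy_le s A) (H1.le_normalizer_pCoreOf A)
    (H1.mem_normalizer_of_conj_smul_le h1)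

/-- The centre of a Sylow subgroup of `A` lies in only one conjugate of `A`. -/
theorem mem_normalizer_of_center_le (c : WConf A B) {r : ℕ} [hr : Fact r.Prime]
    (hrA : r ∣ Nat.card A) {g : G}
    (h : sy r A ⊓ centralizer (sy r A : Set G) ≤ MulAut.conj g • A) :
    g ∈ normalizer (A : Set G) := by
  obtain ⟨s, hs, hsr, hsA⟩ := c.twoA r
  have : Fact s.Prime := ⟨hs⟩
  refine c.mem_normalizer_of_sy_le hsA (le_trans (le_normalizer_of_le_centralizer
    (le_centralizer_of_nilpotent (c.conj_left g).nilA h (sy_le _ _)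
      ((H1.pCoreOf_isPGroup A).to_le inf_le_left) (coprime_card_sy hsr _)))
    (c.normalizer_le ?_ (inf_le_left.trans (sy_le r A)) (le_normalizer_inf
      (H1.le_normalizer_pCoreOf A) (le_normalizer_centralizer (H1.le_normalizer_pCoreOf A)))))
  exact H1.inf_centralizer_ne_bot_of_isPGroup (H1.pCoreOf_isPGroup A) (H1.pCoreOf_isPGroup A)
    le_normalizer (sy_ne_bot c.nilA hrA)

theorem mem_normalizer_of_conj_center_le (c : WConf A B) {r : ℕ} [hr : Fact r.Prime]
    (hrA : r ∣ Nat.card A) {g : G}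
    (h : MulAut.conj g • (sy r A ⊓ centralizer (sy r A : Set G)) ≤ A) :
    g ∈ normalizer (A : Set G) := by
  rw [← inv_mem_iff]
  apply c.mem_normalizer_of_center_le hrA
  have := (pointwise_smul_le_pointwise_smul_iff (a := MulAut.conj g⁻¹)).2 h
  rwa [H1.conj_inv_smul_conj_smul] at this

/-- Every solvable subgroup containing a Sylow subgroup of `A` normalizes `A`. -/
theorem le_normalizer_of_solvable (c : WConf A B) {r : ℕ} [hr : Fact r.Prime]
    (hrA : r ∣ Nat.card A) {L : Subgroup G} (hL : Group.IsSolvable L) (h : sy r A ≤ L) :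
    L ≤ normalizer (A : Set G) := by
  have h1 : sy r A ⊓ centralizer (sy r A : Set G) ≤ sy r L := le_sy_of_le_sup
    (le_trans (inf_le_inf h (H1.centralizer_anti (c.sy_le_sy hrA h)))
      (c.inf_centralizer_le hrA hL h)) ((H1.pCoreOf_isPGroup A).to_le inf_le_left)
  intro l hl
  exact c.mem_normalizer_of_conj_center_le hrA
    ((conj_smul_le_of_mem_normalizer h1 (H1.le_normalizer_pCoreOf L hl)).trans
      ((c.sy_le_sy hrA h).trans (sy_le r A)))

omit [Finite G] in
theorem centralizer_ne_top (c : WConf A B) {x : G} (hx : x ∈ A) (h1 : x ≠ 1) :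
    centralizer {x} ≠ ⊤ := fun e => by
  refine c.normalizer_ne_top (U := zpowers x) (by rwa [Ne, zpowers_eq_bot])
    (fun e' => c.ne_top (top_le_iff.1 (e' ▸ zpowers_le.2 hx))) (top_le_iff.1 ?_)
  rw [← e, ← H1.centralizer_zpowers]
  exact centralizer_le_normalizer _

theorem sy_le_centralizer (hA : Group.IsNilpotent A) {p r : ℕ} [Fact p.Prime] [Fact r.Prime]
    (hrp : r ≠ p) {x : G} (hx : x ∈ A) (ho : orderOf x = p) : sy r A ≤ centralizer {x} := by
  rw [← H1.centralizer_zpowers]
  exact le_centralizer_of_nilpotent hA (zpowers_le.2 hx) (sy_le _ _) (isPGroup_zpowers_of_prime ho)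
    (coprime_card_sy hrp _)

theorem centralizer_le_of_mem_normalizer (c : WConf A B) {p : ℕ} [hp : Fact p.Prime] {x : G}
    (hx : x ∈ A) (ho : orderOf x = p) (hxB : x ∈ normalizer (B : Set G)) :
    centralizer {x} ≤ normalizer (A : Set G) := by
  obtain ⟨r, hr, hrp, hrA⟩ := c.twoA p
  have : Fact r.Prime := ⟨hr⟩
  have h1 : x ≠ 1 := fun e => hp.out.ne_one (by rw [← ho, e, orderOf_one])
  refine c.le_normalizer_of_solvable hrA (c.solvable_of_facIn (c.centralizer_ne_top hx h1)
    fun g hg => ?_) (sy_le_centralizer c.nilA hrp hx ho)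
  obtain ⟨a, ha, b, hb, rfl⟩ := c.fac g trivial
  rw [mem_centralizer_singleton_iff] at hg
  have h2 : a⁻¹ * (x * a * x⁻¹) = b * (x * b * x⁻¹)⁻¹ := by
    rw [inv_mul_eq_iff_eq_mul, ← mul_assoc, eq_mul_inv_iff_mul_eq]
    calc x * a * x⁻¹ * (x * b * x⁻¹) = x * (a * b) * x⁻¹ := by group
      _ = a * b := by rw [← hg, mul_inv_cancel_right]
  have h3 : a⁻¹ * (x * a * x⁻¹) ∈ A ⊓ B :=
    ⟨A.mul_mem (A.inv_mem ha) (A.mul_mem (A.mul_mem hx ha) (A.inv_mem hx)),
      h2 ▸ B.mul_mem hb (B.inv_mem (H1.conj_mem_of_mem_normalizer hxB hb))⟩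
  rw [(disjoint_of_coprime_natCard c.cop).eq_bot, mem_bot] at h3
  have h4 : a ∈ centralizer {x} := by
    rw [inv_mul_eq_one, eq_mul_inv_iff_mul_eq] at h3
    exact mem_centralizer_singleton_iff.2 h3
  refine ⟨a, ⟨h4, ha⟩, b, ⟨?_, hb⟩, rfl⟩
  have := mul_mem (inv_mem h4) (mem_centralizer_singleton_iff.2 hg)
  rwa [inv_mul_cancel_left] at this

/-- If `H ∩ N(A) ≤ A` for a subgroup `H` containing a Sylow subgroup of `A`, then
`H ≤ N(A)`. -/
theorem le_normalizer_of_inf_le (c : WConf A B) {r : ℕ} [hr : Fact r.Prime]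
    (hrA : r ∣ Nat.card A) {H : Subgroup G} (hRH : sy r A ≤ H)
    (h : H ⊓ normalizer (A : Set G) ≤ A) : H ≤ normalizer (A : Set G) := by
  set R := sy r A with hR
  set Z := R ⊓ centralizer (R : Set G) with hZ
  have hRp : IsPGroup r R := H1.pCoreOf_isPGroup A
  have hZp : IsPGroup r Z := hRp.to_le inf_le_left
  obtain ⟨S, hS⟩ := H1.exists_sylow_of_not_dvd_index (P := R.subgroupOf H) hRp.comap_subtype
    fun hd => c.not_dvd_index_sy hrA (hd.trans (relIndex_dvd_index_of_le hRH))
  have hnpc : HasNormalPComplement r H := by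
    refine H3.hasNPC_of_control S fun x hx g hg => ?_
    have hxR : (x : G) ∈ R := by
      have : x ∈ (S : Subgroup H) := hx
      rwa [hS] at this
    have hgR : (g : G) * x * (g : G)⁻¹ ∈ R := by
      have : g * x * g⁻¹ ∈ (S : Subgroup H) := hg
      rwa [hS] at this
    set C := H ⊓ centralizer {(x : G)} with hC
    have h1 : Z ≤ C := le_inf (inf_le_left.trans hRH) fun z hz =>
      mem_centralizer_singleton_iff.2 (mem_centralizer_iff.1 hz.2 _ hxR).symm
    have h2 : MulAut.conj (g : G)⁻¹ • Z ≤ C := fun z hz => by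
      rw [mem_conj_smul, inv_inv] at hz
      refine ⟨?_, mem_centralizer_singleton_iff.2 ?_⟩
      · have := H.mul_mem (H.mul_mem (H.inv_mem g.2) (hRH hz.1)) g.2
        simpa [mul_assoc] using this
      · have := mem_centralizer_iff.1 hz.2 _ hgR
        have h3 : (g : G) * (x * z) * (g : G)⁻¹ = g * (z * x) * (g : G)⁻¹ := by
          calc (g : G) * (x * z) * (g : G)⁻¹ = g * x * (g : G)⁻¹ * (g * z * (g : G)⁻¹) := by group
            _ = g * z * (g : G)⁻¹ * (g * x * (g : G)⁻¹) := this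
            _ = _ := by group
        exact (mul_left_cancel (mul_right_cancel h3)).symm
    obtain ⟨T, hT1, hT2⟩ := (dPi_singleton r C).exists_piHallOf_ge h1
      (piNum_of_isPGroup hZp rfl)
    obtain ⟨k, hk⟩ := c.exists_le_sy hrA (isPiHallOf_singleton_iff.1 hT1).2.1
    have hkA : MulAut.conj k • A = A := conj_smul_eq_iff.2
      (c.mem_normalizer_of_center_le hrA ((hT2.trans hk).trans (sy_le _ _)))
    rw [hkA] at hk
    obtain ⟨d, hd, hd'⟩ := (dPi_singleton r C).exists_conj_mem_piHallOf hT1 h2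
      (piNum_of_isPGroup (isPGroup_conj_smul hZp _) rfl)
    have h3 : d⁻¹ * (g : G)⁻¹ ∈ A := by
      refine h ⟨H.mul_mem (H.inv_mem hd.1) (H.inv_mem g.2),
        c.mem_normalizer_of_conj_center_le hrA ?_⟩
      rw [← H1.conj_smul_conj_smul]
      rintro _ ⟨y, hy, rfl⟩
      have := sy_le r A (hk (hd' y hy))
      simpa using this
    have h4 : (g : G) * d ∈ sy r A ⊔ sy' r A := by
      rw [H1.pCoreOf_sup_pPrimeCoreOf c.nilA r]
      simpa using A.inv_mem h3
    obtain ⟨y, hy, e, he, hye⟩ := (mem_sup_of_le_normalizer ((sy'_le r A).trans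
      (H1.le_normalizer_pCoreOf A))).1 h4
    have he' : (x : G) * e = e * x := mem_centralizer_iff.1
      (le_centralizer_of_nilpotent c.nilA (sy_le r A) (sy'_le r A) hRp
        (H1.pPrimeCoreOf_coprime A) he) _ hxR
    have hd2 : d * x = x * d := mem_centralizer_singleton_iff.1 hd.2
    refine ⟨⟨y, hRH hy⟩, ?_, Subtype.ext ?_⟩
    · show _ ∈ (S : Subgroup H)
      rw [hS]
      exact hy
    · show y * x * y⁻¹ = g * x * (g : G)⁻¹
      calc y * x * y⁻¹ = y * (x * e * e⁻¹) * y⁻¹ := by group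
        _ = (y * e) * x * (y * e)⁻¹ := by rw [he']; group
        _ = g * (d * x * d⁻¹) * (g : G)⁻¹ := by rw [hye]; group
        _ = _ := by rw [hd2]; group
  have hK := (H3.hasNPC_iff_coprime).1 hnpc
  have hsup := congrArg (Subgroup.map H.subtype) (H3.pResidual_sup_sylow S)
  rw [Subgroup.map_sup, hS, map_subgroupOf_eq_of_le hRH, H1.map_subtype_top] at hsup
  have h5 := c.le_centralizer_of_coprime hrA (K := (pResidual r H).map H.subtype)
    (by rwa [card_map_of_injective H.subtype_injective])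
    (hRH.trans (H1.le_normalizer_map_subtype _))
  rw [← hsup]
  exact (sup_le (le_normalizer_of_le_centralizer h5) le_normalizer).trans
    (c.normalizer_le (sy_ne_bot c.nilA hrA) (sy_le r A) (H1.le_normalizer_pCoreOf A))

theorem centralizer_le_normalizer (c : WConf A B) {p : ℕ} [hp : Fact p.Prime] {x : G}
    (hx : x ∈ A) (ho : orderOf x = p) : centralizer {x} ≤ normalizer (A : Set G) := by
  obtain ⟨r, hr, hrp, hrA⟩ := c.twoA p
  have : Fact r.Prime := ⟨hr⟩
  by_cases h : PiNum {p | p ∣ Nat.card A}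
    (Nat.card (centralizer {x} ⊓ normalizer (A : Set G) : Subgroup G))
  · exact c.le_normalizer_of_inf_le hrA (sy_le_centralizer c.nilA hrp hx ho)
      (c.le_of_le_normalizer h inf_le_right)
  · unfold PiNum at h
    push Not at h
    obtain ⟨q, hq, hd, hqA⟩ := h
    have : Fact q.Prime := ⟨hq⟩
    obtain ⟨⟨y, hy⟩, hyo⟩ := exists_prime_orderOf_dvd_card' q hd
    rw [Subgroup.orderOf_mk] at hyo
    have hqB : q ∣ Nat.card B := by
      have := hd.trans (card_subgroup_dvd_card _)
      rw [c.card_eq, hq.dvd_mul] at this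
      exact this.resolve_left hqA
    obtain ⟨g, hg⟩ := c.symm.exists_le_sy hqB (isPGroup_zpowers_of_prime hyo)
    have c' := c.conj_right g
    have h1 := c'.symm.centralizer_le_of_mem_normalizer (sy_le _ _ (hg (mem_zpowers y))) hyo hy.2
    exact c'.centralizer_le_of_mem_normalizer hx ho
      (h1 (mem_centralizer_singleton_iff.2 (mem_centralizer_singleton_iff.1 hy.1).symm))

theorem card_le (c : WConf A B) : Nat.card A ≤ Nat.card B := by
  have hA0 : A ≠ ⊥ := fun e => by
    obtain ⟨r, hr, -, hd⟩ := c.twoA 0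
    rw [e, card_bot] at hd
    exact hr.ne_one (Nat.dvd_one.1 hd)
  obtain ⟨g, -, hg⟩ := SetLike.exists_of_lt (lt_top_iff_ne_top.2 (c.normalizer_ne_top hA0 c.ne_top))
  have h1 : A ⊓ MulAut.conj g • A = ⊥ := by
    by_contra hne
    obtain ⟨p, hp, hd⟩ := Nat.exists_prime_and_dvd (fun e => hne (card_eq_one.1 e))
    have : Fact p.Prime := ⟨hp⟩
    obtain ⟨⟨x, hx⟩, ho⟩ := exists_prime_orderOf_dvd_card' p hd
    rw [Subgroup.orderOf_mk] at ho
    obtain ⟨r, hr, hrp, hrA⟩ := c.twoA p
    have : Fact r.Prime := ⟨hr⟩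
    exact hg (c.mem_normalizer_of_sy_le hrA ((sy_le_centralizer (c.conj_left g).nilA hrp hx.2
      ho).trans (c.centralizer_le_normalizer hx.1 ho)))
  have h2 := relIndex_le_of_le_right (H := A) (le_top : MulAut.conj g • A ≤ ⊤)
    (relIndex_ne_zero' _ _)
  rwa [relIndex_top_right, c.index_eq, ← inf_relIndex_right, h1, relIndex_bot_left,
    card_conj_smul] at h2

theorem elim (c : WConf A B) : False := by
  have h := le_antisymm c.card_le c.symm.card_le
  obtain ⟨r, hr, -, hd⟩ := c.twoA 0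
  exact H1.coprime_iff_forall_prime.1 c.cop r hr hd (h ▸ hd)

end WConf

theorem isNilpotent_subgroupOf {X : Subgroup G} (hX : Group.IsNilpotent X) (L : Subgroup G) :
    Group.IsNilpotent (X.subgroupOf L) := by
  rw [← inf_subgroupOf_right]
  have := H1.isNilpotent_of_le (inf_le_left : X ⊓ L ≤ X) hX
  exact Group.nilpotent_of_mulEquiv (subgroupOfEquivOfLe inf_le_right).symm

/-- A simple group with a subgroup of prime power index and nontrivial centre is solvable. -/
theorem isSolvable_of_simple_of_index_prime_pow [Finite G]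
    (hs : ∀ N : Subgroup G, N.Normal → N = ⊥ ∨ N = ⊤) {B : Subgroup G} (hB : Group.IsNilpotent B)
    {p k : ℕ} (hp : p.Prime) (h : B.index = p ^ k) : Group.IsSolvable G := by
  have : Fact p.Prime := ⟨hp⟩
  by_cases h0 : B = ⊥
  · rw [h0, index_bot] at h
    exact isSolvable_of_isPGroup (IsPGroup.of_card h)
  obtain ⟨⟨z, hz⟩, hz1⟩ := (ne_bot_iff_exists_ne_one).1
    (H1.inf_centralizer_ne_bot_of_isNilpotent hB le_rfl le_normalizer h0)
  have hz1' : z ≠ 1 := fun e => hz1 (Subtype.ext e)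
  have : Nontrivial G := ⟨z, 1, hz1'⟩
  have : IsSimpleGroup G := ⟨hs⟩
  have h1 : B ≤ centralizer {z} := fun b hb =>
    mem_centralizer_singleton_iff.2 (mem_centralizer_iff.1 hz.2 b hb)
  obtain ⟨j, -, hj⟩ := (Nat.dvd_prime_pow hp).1 (h ▸ index_dvd_of_le h1)
  have h2 := H5.comm_of_simple_of_class_prime_pow hp hz1' hj
  exact H1.isSolvable_of_isMulCommutative
    ⟨⟨fun x y => mem_center_iff.1 (h2 ▸ mem_top y) x⟩⟩

/-- Wielandt: a product of two nilpotent groups of coprime orders is solvable. -/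
theorem isSolvable_of_coprime_nilpotent (G : Type u) [Group G] [Finite G] :
    ∀ A B : Subgroup G, Group.IsNilpotent A → Group.IsNilpotent B →
      (Nat.card A).Coprime (Nat.card B) → FacIn A B ⊤ → Group.IsSolvable G := by
  refine H1.induction_subgroup_quotient (P := fun X _ _ => ∀ A B : Subgroup X,
    Group.IsNilpotent A → Group.IsNilpotent B → (Nat.card A).Coprime (Nat.card B) →
      FacIn A B ⊤ → Group.IsSolvable X) ?_ G
  intro X _ _ ih1 ih2 A B hA hB hc hf
  have ih : ∀ L Y Z : Subgroup X, L ≠ ⊤ → Y ≤ L → Group.IsNilpotent Y → Group.IsNilpotent Z →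
      (Nat.card Y).Coprime (Nat.card Z) → FacIn Y Z L → Group.IsSolvable L :=
    fun L Y Z hL hY h1 h2 h3 h4 => ih1 L hL _ _ (isNilpotent_subgroupOf h1 L)
      (isNilpotent_subgroupOf h2 L) (Nat.Coprime.coprime_dvd_left (card_subgroupOf_dvd _ _)
        (h3.coprime_dvd_right (card_subgroupOf_dvd _ _))) (h4.subgroupOf hY)
  by_cases hs : ∀ N : Subgroup X, N.Normal → N = ⊥ ∨ N = ⊤
  · have key : ∀ Y Z : Subgroup X, Group.IsNilpotent Z → Z.index = Nat.card Y →
        ¬ (∀ p : ℕ, ∃ r : ℕ, r.Prime ∧ r ≠ p ∧ r ∣ Nat.card Y) → Group.IsSolvable X := by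
      intro Y Z hZ hi h
      push Not at h
      obtain ⟨p, hp⟩ := h
      by_cases h1 : Nat.card Y = 1
      · exact isSolvable_of_simple_of_index_prime_pow hs hZ (k := 0) Nat.prime_two (hi.trans h1)
      obtain ⟨q, hq, hd⟩ := Nat.exists_prime_and_dvd h1
      obtain ⟨k, hk⟩ := (piNum_singleton_iff hq (Nat.card_pos (α := Y)).ne').1 fun r hr hr' => by
        have e1 : r = p := by_contra fun e => hp r hr e hr'
        have e2 : q = p := by_contra fun e => hp q hq e hd
        exact e1.trans e2.symm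
      exact isSolvable_of_simple_of_index_prime_pow hs hZ hq (hi.trans hk)
    by_contra hns
    exact WConf.elim ⟨hs, hA, hB, hc, hf,
      by_contra fun h => hns (key A B hB (hf.index_eq_card hc) h),
      by_contra fun h => hns (key B A hA (hf.symm.index_eq_card hc.symm) h), ih⟩
  · push Not at hs
    obtain ⟨N, hN, h0, h1⟩ := hs
    have hq := QuotientGroup.mk'_surjective N
    refine isSolvable_of_normal N (ih N (A ⊓ N) (B ⊓ N) h1 inf_le_right
      (H1.isNilpotent_of_le inf_le_left hA) (H1.isNilpotent_of_le inf_le_left hB)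
      (Nat.Coprime.coprime_dvd_left (card_dvd_of_le inf_le_left)
        (hc.coprime_dvd_right (card_dvd_of_le inf_le_left))) (facIn_of_coprime_relIndex ?_))
      (ih2 N h0 _ _ (H1.isNilpotent_map hA _) (H1.isNilpotent_map hB _)
        (Nat.Coprime.coprime_dvd_left (card_map_dvd _ _) (hc.coprime_dvd_right (card_map_dvd _ _)))
        (hf.map_top hq))
    refine Nat.Coprime.coprime_dvd_left (H3.relIndex_dvd_index_of_normal_right A N)
      (Nat.Coprime.coprime_dvd_right (H3.relIndex_dvd_index_of_normal_right B N) ?_)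
    rw [hf.index_eq_card hc, hf.symm.index_eq_card hc.symm]
    exact hc.symm

/-- The factorizer of a normal subgroup. -/
theorem FacIn.factorizer {A B : Subgroup G} (h : FacIn A B ⊤) (N : Subgroup G) :
    FacIn (A ⊓ (B ⊔ N)) (B ⊓ (A ⊔ N)) ((A ⊔ N) ⊓ (B ⊔ N)) := by
  intro g hg
  obtain ⟨a, ha, b, hb, rfl⟩ := h g trivial
  refine ⟨a, ⟨ha, ?_⟩, b, ⟨hb, ?_⟩, rfl⟩
  · simpa using (B ⊔ N).mul_mem hg.2 (inv_mem (mem_sup_left hb))
  · simpa using (A ⊔ N).mul_mem (inv_mem (mem_sup_left ha)) hg.1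

theorem inf_sup_sup_eq {A B N : Subgroup G} [N.Normal] :
    (A ⊓ (B ⊔ N)) ⊔ N = (A ⊔ N) ⊓ (B ⊔ N) := by
  rw [sup_comm A, H1.sup_inf_assoc_of_le_normalizer' le_normalizer_of_normal le_sup_right,
    sup_comm]

/-- The theorem of Kegel and Wielandt. -/
theorem isSolvable_of_nilpotent_mul (G : Type u) [Group G] [Finite G] :
    ∀ A B : Subgroup G, Group.IsNilpotent A → Group.IsNilpotent B → FacIn A B ⊤ →
      Group.IsSolvable G := by
  refine H1.induction_subgroup_quotient (P := fun X _ _ => ∀ A B : Subgroup X,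
    Group.IsNilpotent A → Group.IsNilpotent B → FacIn A B ⊤ → Group.IsSolvable X) ?_ G
  intro X _ _ ih1 ih2 A B hA hB hf
  by_cases hc : (Nat.card A).Coprime (Nat.card B)
  · exact isSolvable_of_coprime_nilpotent X A B hA hB hc hf
  rcases subsingleton_or_nontrivial X with hX | hX
  · infer_instance
  have ihq : ∀ (N : Subgroup X) [N.Normal], N ≠ ⊥ → Group.IsSolvable (X ⧸ N) := fun N _ h0 =>
    ih2 N h0 _ _ (H1.isNilpotent_map hA _) (H1.isNilpotent_map hB _)
      (hf.map_top (QuotientGroup.mk'_surjective N))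
  obtain ⟨M, hMn, hM0, hmin⟩ := H1.exists_minimal_normal (G := X)
  refine isSolvable_of_normal M ?_ (ihq M hM0)
  by_contra hMs
  have hsup : (A ⊔ M) ⊓ (B ⊔ M) = ⊤ := by
    by_contra hne
    exact hMs (H1.isSolvable_of_le (le_inf le_sup_right le_sup_right) (ih1 _ hne _ _
      (isNilpotent_subgroupOf (H1.isNilpotent_of_le inf_le_left hA) _)
      (isNilpotent_subgroupOf (H1.isNilpotent_of_le inf_le_left hB) _)
      ((hf.factorizer M).subgroupOf (inf_le_inf_right _ le_sup_left))))
  have hC : centralizer (M : Set X) = ⊥ := by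
    by_contra hne
    have := ihq _ hne
    refine hMs (H1.isSolvable_of_map_of_ker (QuotientGroup.mk' (centralizer (M : Set X)))
      inferInstance (H1.isSolvable_of_isMulCommutative ?_))
    rw [QuotientGroup.ker_mk', H1.isMulCommutative_iff]
    exact fun a ha b hb => (mem_centralizer_iff.1 ha.1 b hb.2).symm
  obtain ⟨q, hq, hqA, hqB⟩ := Nat.Prime.not_coprime_iff_dvd.1 hc
  have : Fact q.Prime := ⟨hq⟩
  have hsM : ∀ Y : Subgroup X, Group.IsNilpotent Y → Y ⊔ M = ⊤ → q ∣ Nat.card Y →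
      ⁅sy q Y, M⁆ = M ∧ (sy q Y).map (QuotientGroup.mk' M) = pCore q (X ⧸ M) := by
    intro Y hY hYM hd
    constructor
    · refine (hmin _ (H1.normal_of_top_le_normalizer ?_) (commutator_le_right _ _)).resolve_left
        fun e => sy_ne_bot hY hd (le_bot_iff.1 (hC ▸ H1.le_centralizer_of_commutator_eq_bot e))
      rw [← hYM]
      exact sup_le (le_normalizer_commutator (H1.le_normalizer_pCoreOf Y) le_normalizer_of_normal)
        (normalizer_commutator_ge_right _ _)
    · have hs : Function.Surjective ((QuotientGroup.mk' M).comp Y.subtype) := by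
        rw [← MonoidHom.range_eq_top, MonoidHom.range_comp, range_subtype, eq_top_iff,
          ← map_top_of_surjective _ (QuotientGroup.mk'_surjective M), H1.map_mk'_le_map_mk'_iff,
          hYM]
      rw [sy, Subgroup.map_map]
      refine le_antisymm (H1.map_pCore_le hs) (le_of_normal_of_not_dvd_relIndex
        H1.pCore_isPGroup le_top le_normalizer_of_normal fun hd => ?_)
      rw [relIndex_top_right] at hd
      exact H1.isNilpotent_iff_pCore.1 hY q hq (hd.trans (index_map_dvd _ hs))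
  obtain ⟨a1, a2⟩ := hsM A hA (top_le_iff.1 (hsup ▸ inf_le_left)) hqA
  obtain ⟨b1, b2⟩ := hsM B hB (top_le_iff.1 (hsup ▸ inf_le_right)) hqB
  have hQ : sy q A ⊔ M = sy q B ⊔ M := by
    rw [← H1.comap_map_mk', a2, ← b2, H1.comap_map_mk']
  set Q := sy q A ⊔ M with hQdef
  have hAQ : sy q A ≤ Q := le_sup_left
  have hBQ : sy q B ≤ Q := hQ ▸ le_sup_left
  have hMQ : M ≤ Q := le_sup_right
  have hp : ∀ x : X, Permutes (sy q A) (MulAut.conj x • sy q B) := fun x => by
    rw [sy, sy, H1.conj_smul_pCoreOf]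
    exact ((hf.conj_right x).sy_sup_sy hA (H1.isNilpotent_map hB _)).2
  obtain ⟨N, hN, hNt, h⟩ := kegel_lemma ((sy q A).subgroupOf Q) ((sy q B).subgroupOf Q)
    (fun x => by
      have hx : MulAut.conj (x : X) • sy q B ≤ Q :=
        conj_smul_le_of_mem_normalizer hBQ (le_normalizer x.2)
      have h1 : MulAut.conj x • (sy q B).subgroupOf Q =
          (MulAut.conj (x : X) • sy q B).subgroupOf Q := by
        ext y
        simp only [mem_conj_smul, mem_subgroupOf, Subgroup.coe_mul, Subgroup.coe_inv]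
      rw [h1]
      intro g hg
      rw [← subgroupOf_sup hAQ hx] at hg
      obtain ⟨a, ha, b, hb, e⟩ := hp x g hg
      exact ⟨⟨a, hAQ ha⟩, ha, ⟨b, hx hb⟩, hb, Subtype.ext e⟩) (fun h => by
      have h1 := (hf.sy_sup_sy (p := q) hA hB).1
      exact hMs (isSolvable_of_isPGroup ((isPGroup_of_piNum_singleton
        (isPiHall_iff.1 h1).1).to_le (hMQ.trans h.of_subgroupOf.le_sup))))
  have key : ∀ Y : Subgroup X, Y ≤ Q → Y ⊔ M = Q → ⁅Y, M⁆ = M → ¬ Y.subgroupOf Q ≤ N := by
    intro Y hY h1 h2 h3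
    apply hNt
    have h4 : (⊤ : Subgroup Q) = Y.subgroupOf Q ⊔ M.subgroupOf Q := by
      rw [← subgroupOf_sup hY hMQ, h1, subgroupOf_self]
    rw [eq_top_iff, h4]
    refine sup_le h3 ?_
    rw [← h2, ← H1.commutator_subgroupOf hY hMQ]
    exact (commutator_mono h3 le_rfl).trans (commutator_le_left _ _)
  exact h.elim (key _ hAQ rfl a1) (key _ hBQ hQ.symm b1)

/-- Kegel: in a product of nilpotent groups a proper normal subgroup contains a factor. -/
theorem exists_normal_ge_of_nilpotent_mul (G : Type u) [Group G] [Finite G] :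
    ∀ A B : Subgroup G, Group.IsNilpotent A → Group.IsNilpotent B → FacIn A B ⊤ →
      (A ≠ ⊤ ∨ B ≠ ⊤) → ∃ N : Subgroup G, N.Normal ∧ N ≠ ⊤ ∧ (A ≤ N ∨ B ≤ N) := by
  refine H1.induction_subgroup_quotient (P := fun X _ _ => ∀ A B : Subgroup X,
    Group.IsNilpotent A → Group.IsNilpotent B → FacIn A B ⊤ → (A ≠ ⊤ ∨ B ≠ ⊤) →
      ∃ N : Subgroup X, N.Normal ∧ N ≠ ⊤ ∧ (A ≤ N ∨ B ≤ N)) ?_ G
  intro X _ _ _ ih A B hA hB hf hne
  have hs := isSolvable_of_nilpotent_mul X A B hA hB hf
  have hnt : (⊤ : Subgroup X) ≠ ⊥ := fun e =>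
    hne.elim (fun h => h (top_le_iff.1 (e.le.trans bot_le))) fun h =>
      h (top_le_iff.1 (e.le.trans bot_le))
  obtain ⟨N, p, hp, -, hNn, hN0, hNe, hmin⟩ :=
    H1.exists_minimal_normal_elementary_le (⊤ : Subgroup X) hnt inferInstance
  have hq := QuotientGroup.mk'_surjective N
  by_cases hsup : A ⊔ N = ⊤ ∧ B ⊔ N = ⊤
  · by_cases hX : Group.IsNilpotent X
    · have key : ∀ Y : Subgroup X, Y ≠ ⊤ → ∃ M : Subgroup X, M.Normal ∧ M ≠ ⊤ ∧ Y ≤ M :=
        fun Y hY => by
          obtain ⟨M, hM, hle⟩ := H1.exists_coatom_ge hY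
          exact ⟨M, H1.isNilpotent_iff_coatom_normal.1 hX M hM, hM.1, hle⟩
      rcases hne with h | h
      · obtain ⟨M, h1, h2, h3⟩ := key A h
        exact ⟨M, h1, h2, Or.inl h3⟩
      · obtain ⟨M, h1, h2, h3⟩ := key B h
        exact ⟨M, h1, h2, Or.inr h3⟩
    exact absurd (isNilpotent_of_triple hA hB (H1.isNilpotent_of_isMulCommutative hNe.1) hf
      hsup.1 hsup.2) hX
  · obtain ⟨M, h1, h2, h3⟩ := ih N hN0 _ _ (H1.isNilpotent_map hA _) (H1.isNilpotent_map hB _)
      (hf.map_top hq) (by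
        by_contra h
        push Not at h
        exact hsup ⟨by rw [← H1.comap_map_mk', h.1, comap_top],
          by rw [← H1.comap_map_mk', h.2, comap_top]⟩)
    refine ⟨M.comap (QuotientGroup.mk' N), h1.comap _, fun e => h2 ?_,
      h3.imp map_le_iff_le_comap.1 map_le_iff_le_comap.1⟩
    rw [← map_comap_eq_self_of_surjective hq M, e, map_top_of_surjective _ hq]

theorem exists_center_mul_of_facIn {A B L : Subgroup G} [IsMulCommutative A] [IsMulCommutative B]
    (h : FacIn A B L) (hB : B ≤ L) {z : G} (hz : z ∈ L ⊓ centralizer (L : Set G)) :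
    ∃ a ∈ A ⊓ centralizer (L : Set G), ∃ b ∈ B ⊓ centralizer (L : Set G), z = a * b := by
  obtain ⟨a, ha, b, hb, e⟩ := h z hz.1
  have h1 : a ∈ centralizer (L : Set G) := by
    refine H1.centralizer_anti h.le_sup ?_
    rw [H1.centralizer_sup]
    refine ⟨le_centralizer A ha, ?_⟩
    have := mul_mem (H1.centralizer_anti hB hz.2) (inv_mem (le_centralizer B hb))
    rwa [e, mul_inv_cancel_right] at this
  refine ⟨a, ⟨ha, h1⟩, b, ⟨hb, ?_⟩, e⟩
  have := mul_mem (inv_mem h1) hz.2
  rwa [e, inv_mul_cancel_left] at this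

/-- Itô: a nontrivial finite product of two abelian groups has a nontrivial normal subgroup
inside one of the factors. -/
theorem exists_normal_le_of_abelian_mul [Finite G] [Nontrivial G] {A B : Subgroup G}
    [hA : IsMulCommutative A] [hB : IsMulCommutative B] (h : FacIn A B ⊤) :
    ∃ N : Subgroup G, N.Normal ∧ N ≠ ⊥ ∧ (N ≤ A ∨ N ≤ B) := by
  by_contra hcon
  have hZ : ∀ Y : Subgroup G, (Y = A ∨ Y = B) → ∀ z ∈ Y, z ∈ center G → z = 1 := by
    intro Y hY z hz hzc
    by_contra h1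
    refine hcon ⟨zpowers z, normal_zpowers_of_mem_center hzc, by rwa [Ne, zpowers_eq_bot], ?_⟩
    rcases hY with rfl | rfl
    · exact Or.inl (zpowers_le.2 hz)
    · exact Or.inr (zpowers_le.2 hz)
  have hK := isMulCommutative_commutator_of_facIn h
  set K := commutator G with hKdef
  have hK0 : K ≠ ⊥ := by
    intro e
    have h1 : center G = ⊤ := (commutator_eq_bot_iff_center_eq_top G).1 e
    have h2 : ∀ Y : Subgroup G, (Y = A ∨ Y = B) → Y ≤ ⊥ := fun Y hY z hz =>
      hZ Y hY z hz (h1 ▸ mem_top z)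
    exact top_ne_bot (le_bot_iff.1 (h.le_sup.trans (sup_le (h2 A (Or.inl rfl)) (h2 B (Or.inr rfl)))))
  set X := (A ⊔ K) ⊓ (B ⊔ K) with hX
  have hKX : K ≤ X := le_inf le_sup_right le_sup_right
  have hXn : X.Normal := Normal.of_commutator_le G hKX
  have hf := h.factorizer K
  have hA₁ : A ⊓ (B ⊔ K) ≤ X := inf_le_inf_right _ le_sup_left
  have hB₁ : B ⊓ (A ⊔ K) ≤ X := le_inf inf_le_right (inf_le_left.trans le_sup_left)
  have hA₁c := H1.isMulCommutative_of_le (inf_le_left : A ⊓ (B ⊔ K) ≤ A) hA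
  have hB₁c := H1.isMulCommutative_of_le (inf_le_left : B ⊓ (A ⊔ K) ≤ B) hB
  have hnil : Group.IsNilpotent X := isNilpotent_of_triple (K := K.subgroupOf X)
    (isNilpotent_subgroupOf (H1.isNilpotent_of_isMulCommutative hA₁c) X)
    (isNilpotent_subgroupOf (H1.isNilpotent_of_isMulCommutative hB₁c) X)
    (isNilpotent_subgroupOf (H1.isNilpotent_of_isMulCommutative hK) X) (hf.subgroupOf hA₁)
    (by rw [← subgroupOf_sup hA₁ hKX, inf_sup_sup_eq, subgroupOf_self])
    (by rw [← subgroupOf_sup hB₁ hKX, inf_sup_sup_eq, inf_comm, subgroupOf_self])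
  have key : ∀ Y W : Subgroup G, (Y = A ∨ Y = B) → (W = A ∨ W = B) → IsMulCommutative Y →
      IsMulCommutative W → FacIn Y W ⊤ →
      ∀ a ∈ Y, a ∈ X ⊓ centralizer (X : Set G) → a = 1 := by
    intro Y W hY hW hYc hWc hYW a ha haX
    by_contra h1
    refine hcon ⟨normalClosure {a}, inferInstance, fun e => h1 ?_, ?_⟩
    · exact mem_bot.1 (e ▸ subset_normalClosure rfl)
    · have hle : normalClosure {a} ≤ Y := by
        rw [normalClosure, closure_le]
        intro y hy
        obtain ⟨b, hb, hc⟩ := Group.mem_conjugatesOfSet_iff.1 hy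
        obtain ⟨g, rfl⟩ := isConj_iff.1 hc
        rw [Set.mem_singleton_iff.1 hb]
        have hYK : (Y ⊔ K).Normal := Normal.of_commutator_le G le_sup_right
        have h2 : a ∈ centralizer ((Y ⊔ K : Subgroup G) : Set G) := by
          rw [H1.centralizer_sup]
          exact ⟨le_centralizer Y ha, H1.centralizer_anti hKX haX.2⟩
        have h3 := (inferInstance : (centralizer ((Y ⊔ K : Subgroup G) : Set G)).Normal).conj_mem
          a h2 g
        obtain ⟨a', ha', b', hb', e⟩ := hYW (g * a * g⁻¹) trivial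
        have h4 : b' ∈ center G := by
          rw [← centralizer_univ, ← coe_top]
          refine H1.centralizer_anti hYW.le_sup ?_
          rw [H1.centralizer_sup]
          refine ⟨?_, le_centralizer W hb'⟩
          have := mul_mem (inv_mem (le_centralizer Y ha')) (H1.centralizer_anti le_sup_left h3)
          rwa [e, inv_mul_cancel_left] at this
        rw [e, hZ W hW b' hb' h4, mul_one]
        exact ha'
      rcases hY with rfl | rfl
      · exact Or.inl hle
      · exact Or.inr hle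
  obtain ⟨⟨z, hz⟩, hz1⟩ := (ne_bot_iff_exists_ne_one).1
    (H1.inf_centralizer_ne_bot_of_isNilpotent hnil le_rfl le_normalizer
      fun e => hK0 (le_bot_iff.1 (e ▸ hKX)))
  obtain ⟨a, ha, b, hb, e⟩ := exists_center_mul_of_facIn hf hB₁ hz
  have h1 := key A B (Or.inl rfl) (Or.inr rfl) hA hB h a ha.1.1
    ⟨hA₁ ha.1, ha.2⟩
  have h2 := key B A (Or.inr rfl) (Or.inl rfl) hB hA h.symm b hb.1.1
    ⟨hB₁ hb.1, hb.2⟩
  exact hz1 (Subtype.ext (show z = 1 by rw [e, h1, h2, mul_one]))

/-- Huppert: a finite product of two cyclic groups is supersolvable. -/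
theorem isSupersolvable_of_cyclic_mul [Finite G] {A B : Subgroup G} [IsCyclic A] [IsCyclic B]
    (h : FacIn A B ⊤) : IsSupersolvable G := by
  refine isSupersolvable_of_class (fun X _ _ => ∃ A B : Subgroup X, IsCyclic A ∧ IsCyclic B ∧
    FacIn A B ⊤) ?_ ?_ G ⟨A, B, ‹_›, ‹_›, h⟩
  · rintro X _ _ N _ ⟨A, B, h1, h2, h3⟩
    exact ⟨_, _, isCyclic_of_surjective _ ((QuotientGroup.mk' N).subgroupMap_surjective A),
      isCyclic_of_surjective _ ((QuotientGroup.mk' N).subgroupMap_surjective B),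
      h3.map_top (QuotientGroup.mk'_surjective N)⟩
  · rintro X _ _ hX ⟨A, B, h1, h2, h3⟩
    obtain ⟨N, hN, h0, hle⟩ := exists_normal_le_of_abelian_mul h3
    have : IsCyclic N := hle.elim (fun e => isCyclic_of_le e) fun e => isCyclic_of_le e
    obtain ⟨g, rfl⟩ := N.isCyclic_iff_exists_zpowers_eq_top.1 this
    exact ⟨g, by rwa [Ne, zpowers_eq_bot] at h0, hN⟩

theorem commutator_commutator_eq_bot_of_facIn {A B L : Subgroup G} [IsMulCommutative A]
    [IsMulCommutative B] (h : FacIn A B L) (hA : A ≤ L) : ⁅⁅L, L⁆, ⁅L, L⁆⁆ = ⊥ := by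
  have := isMulCommutative_commutator_of_facIn (h.subgroupOf hA)
  have h1 := congrArg (Subgroup.map L.subtype) (commutator_self_eq_bot_iff.2 this)
  rwa [Subgroup.map_commutator, map_subtype_commutator, Subgroup.map_bot] at h1

/-- In `G = A B` with `A` abelian, a nontrivial subgroup `D` with `[B, B] ≤ D ≤ Z(B)` meets a
metabelian normal subgroup. -/
theorem exists_metabelian_normal [Finite G] [Group.IsSolvable G] {A B D : Subgroup G}
    [IsMulCommutative A] (h : FacIn A B ⊤) (hD : ⁅B, B⁆ ≤ D) (hDB : D ≤ centralizer (B : Set G))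
    (h0 : D ≠ ⊥) : ∃ N : Subgroup G, N.Normal ∧ N ⊓ D ≠ ⊥ ∧ ⁅⁅N, N⁆, ⁅N, N⁆⁆ = ⊥ := by
  obtain ⟨M, -, ⟨hMn, hMD⟩, hmax⟩ := H1.exists_maximal_ge
    (P := fun M : Subgroup G => M.Normal ∧ M ⊓ D = ⊥) (H := ⊥) ⟨inferInstance, bot_inf_eq D⟩
  have hq := QuotientGroup.mk'_surjective M
  have hnt : (⊤ : Subgroup (G ⧸ M)) ≠ ⊥ := by
    rw [← map_top_of_surjective _ hq, Ne, H1.map_mk'_eq_bot_iff]
    exact fun e => h0 (by rwa [top_le_iff.1 e, top_inf_eq] at hMD)
  obtain ⟨V, p, -, -, hVn, hV0, hVe, hmin⟩ :=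
    H1.exists_minimal_normal_elementary_le (⊤ : Subgroup (G ⧸ M)) hnt inferInstance
  set f := QuotientGroup.mk' M with hf
  set N := V.comap f with hN
  have hMN : M ≤ N := fun x hx => by
    rw [hN, mem_comap, hf, QuotientGroup.mk'_apply, (QuotientGroup.eq_one_iff x).2 hx]
    exact V.one_mem
  have hND : N ⊓ D ≠ ⊥ := fun e => hV0 (by
    rw [← map_comap_eq_self_of_surjective hq V, H1.map_mk'_eq_bot_iff]
    exact (hmax N ⟨hVn.comap f, e⟩ hMN).le)
  refine ⟨N, hVn.comap f, hND, ?_⟩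
  obtain ⟨⟨b, hb⟩, hb1⟩ := (ne_bot_iff_exists_ne_one).1 hND
  have hfb : f b ≠ 1 := fun e => hb1 (Subtype.ext (mem_bot.1
    (hMD ▸ (⟨(QuotientGroup.eq_one_iff b).1 e, hb.2⟩ : b ∈ M ⊓ D))))
  have hA := H1.isMulCommutative_iff.1 ‹IsMulCommutative A›
  have hV := H1.isMulCommutative_iff.1 hVe.1
  have hcl : normalClosure {f b} = V := (hmin _ inferInstance
    (normalClosure_le_normal (Set.singleton_subset_iff.2 hb.1))).resolve_left
      fun e => hfb (mem_bot.1 (e ▸ subset_normalClosure rfl))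
  have key : ∀ y ∈ B ⊓ (A ⊔ N), ∃ a ∈ A, ∃ n ∈ N, a * n = y ∧ ∀ v ∈ V, f a * v = v * f a := by
    intro y hy
    obtain ⟨a, ha, n, hn, e⟩ := mem_sup_of_normal_right.1 hy.2
    refine ⟨a, ha, n, hn, e, ?_⟩
    have h1 : f a * f b = f b * f a := by
      have h2 : f y * f b = f b * f y := by
        rw [← map_mul, ← map_mul, mem_centralizer_iff.1 (hDB hb.2) y hy.1]
      rw [← e, map_mul, mul_assoc, hV _ hn _ hb.1, ← mul_assoc, ← mul_assoc] at h2
      exact mul_right_cancel h2
    have h3 : V ≤ centralizer {f a} := by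
      rw [← hcl, normalClosure, closure_le]
      intro y hy
      obtain ⟨c, hc, hc'⟩ := Group.mem_conjugatesOfSet_iff.1 hy
      obtain ⟨g, rfl⟩ := isConj_iff.1 hc'
      obtain ⟨g, rfl⟩ := hq g
      obtain ⟨a', ha', b', hb', rfl⟩ := h g trivial
      rw [Set.mem_singleton_iff.1 hc]
      have h4 : f (a' * b') * f b * (f (a' * b'))⁻¹ = f a' * f b * (f a')⁻¹ := by
        rw [← map_mul, mul_assoc, mem_centralizer_iff.1 (hDB hb.2) b' hb', map_mul, map_mul,
          map_mul]
        group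
      have h5 : f a' ∈ centralizer {f a} := mem_centralizer_singleton_iff.2 (by
        rw [← map_mul, ← map_mul, hA _ ha' _ ha])
      rw [h4]
      exact mul_mem (mul_mem h5 (mem_centralizer_singleton_iff.2 h1.symm)) (inv_mem h5)
    exact fun v hv => (mem_centralizer_singleton_iff.1 (h3 hv)).symm
  have hB₂ : IsMulCommutative (B ⊓ (A ⊔ N) : Subgroup G) := by
    rw [H1.isMulCommutative_iff]
    intro y hy z hz
    rw [← commutatorElement_eq_one_iff_mul_comm, ← mem_bot, ← hMD]
    refine ⟨?_, hD (commutator_mem_commutator hy.1 hz.1)⟩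
    obtain ⟨a, ha, n, hn, rfl, h1⟩ := key y hy
    obtain ⟨a', ha', n', hn', rfl, h2⟩ := key z hz
    apply (QuotientGroup.eq_one_iff _).1
    change f _ = 1
    rw [map_commutatorElement, commutatorElement_eq_one_iff_mul_comm, map_mul, map_mul]
    have h3 : f a * f a' = f a' * f a := by rw [← map_mul, ← map_mul, hA _ ha _ ha']
    calc f a * f n * (f a' * f n') = f a * (f n * f a') * f n' := by group
      _ = (f a * f a') * (f n * f n') := by rw [← h2 _ hn]; group
      _ = f a' * (f a * f n') * f n := by rw [h3, hV _ hn _ hn']; group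
      _ = _ := by rw [h1 _ hn']; group
  have := commutator_commutator_eq_bot_of_facIn (h.inf_of_le (H := A ⊔ N) le_sup_left le_top)
    le_sup_left
  rw [eq_bot_iff, ← this]
  exact commutator_mono (commutator_mono le_sup_right le_sup_right)
    (commutator_mono le_sup_right le_sup_right)

theorem derivedSeries_eq_bot_of_abelian_mul_class_two (n : ℕ) :
    ∀ (G : Type u) [Group G] [Finite G] (A B : Subgroup G), IsMulCommutative A →
      ⁅B, B⁆ ≤ centralizer (B : Set G) → FacIn A B ⊤ →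
      (Nat.card (⁅B, B⁆ : Subgroup G)).primeFactorsList.length ≤ n →
      derivedSeries G (2 * (1 + n)) = ⊥ := by
  induction n with
  | zero =>
    intro G _ _ A B hA hB h hn
    have h1 : ⁅B, B⁆ = ⊥ := by
      rw [Nat.le_zero, List.length_eq_zero_iff, Nat.primeFactorsList_eq_nil] at hn
      exact card_eq_one.1 (hn.resolve_left Nat.card_pos.ne')
    have := commutator_self_eq_bot_iff.1 h1
    exact derivedSeries_two_of_facIn h
  | succ n ih =>
    intro G _ _ A B hA hB h hn
    by_cases h0 : ⁅B, B⁆ = ⊥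
    · have h1 := ih G A B hA hB h (by simp [h0])
      rw [show 2 * (1 + (n + 1)) = 2 * (1 + n) + 1 + 1 by ring, derivedSeries_succ,
        derivedSeries_succ, h1]
      simp
    have := isSolvable_of_nilpotent_mul G A B (H1.isNilpotent_of_isMulCommutative hA)
      (H1.isNilpotent_of_commutator_le_centralizer hB) h
    obtain ⟨N, hN, h1, h2⟩ := exists_metabelian_normal h le_rfl hB h0
    have hq := QuotientGroup.mk'_surjective N
    have h3 := ih (G ⧸ N) (A.map (QuotientGroup.mk' N)) (B.map (QuotientGroup.mk' N))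
      inferInstance (by
        rw [← Subgroup.map_commutator]
        rintro _ ⟨x, hx, rfl⟩
        rw [mem_centralizer_iff]
        rintro _ ⟨y, hy, rfl⟩
        rw [← map_mul, ← map_mul, mem_centralizer_iff.1 (hB hx) y hy]) (h.map_top hq) (by
        rw [← Subgroup.map_commutator]
        have h4 := H1.card_map_mul_card_inf_ker (QuotientGroup.mk' N) ⁅B, B⁆
        rw [QuotientGroup.ker_mk'] at h4
        rw [← h4, (Nat.perm_primeFactorsList_mul Nat.card_pos.ne' Nat.card_pos.ne').length_eq,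
          List.length_append] at hn
        have h5 : (Nat.card (N ⊓ ⁅B, B⁆ : Subgroup G)).primeFactorsList.length ≠ 0 := by
          rw [Ne, List.length_eq_zero_iff, Nat.primeFactorsList_eq_nil]
          exact fun e => e.elim Nat.card_pos.ne' fun e => h1 (card_eq_one.1 e)
        omega)
    rw [← map_derivedSeries_eq hq, H1.map_mk'_eq_bot_iff] at h3
    rw [show 2 * (1 + (n + 1)) = 2 * (1 + n) + 1 + 1 by ring, derivedSeries_succ,
      derivedSeries_succ, eq_bot_iff, ← h2]
    exact commutator_mono (commutator_mono h3 h3) (commutator_mono h3 h3)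

end H2
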