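import Cfsg.Agent.H2.LS0
import Cfsg.Agent.H1.GFitting

/-! Assembly of the theorem on involution centralisers with a 2-component of type `L₃(3)`. -/

set_option autoImplicit false

namespace H2.LS
open Cfsg Subgroup

universe u v
theorem Base.swap {G : Type u} [Group G] {b : Bool} {z t u v w f : G} (B : Base true b z t u v w f) :
    Base true b z t u v w (t * f) := by
  have c : ∀ {x : G}, x * t = t * x → f * x = x * f → t * f * x = x * (t * f) := fun a b => by
    rw [mul_assoc, b, ← mul_assoc, ← a, mul_assoc]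
  have cm : ∀ g x y : G, g * (x * y) * g⁻¹ = g * x * g⁻¹ * (g * y * g⁻¹) := fun _ _ _ => by group
  refine { B with
    f2 := by rw [mul_assoc, ← mul_assoc f, B.tf, mul_assoc, ← mul_assoc t, B.t2, one_mul, B.f2]
    zf := c B.zt.symm B.zf, tf := c rfl B.tf, fu := c B.tu B.fu, fv := c B.tv B.fv
    fw := by rw [mul_assoc, B.fw, ← mul_assoc, ← mul_assoc, cond_true, B.zt, mul_assoc z, ← B.tw]; simp only [mul_assoc]
    f1 := nofun
    r1 := B.r1.imp fun g k => ⟨k.1, k.2.1, k.2.2.1, by rw [cm, k.1, k.2.2.2]⟩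
    r3 := B.r3.imp fun g k => ⟨k.1, k.2.1, k.2.2.1, fun e => ?_⟩
    lam := B.lam.imp fun M k => ⟨k.1, k.2.1, k.2.2.1, k.2.2.2.1, k.2.2.2.2.1, fun e => ⟨(k.2.2.2.2.2 e).2, by
      rw [← mul_assoc, B.t2, one_mul]; exact (k.2.2.2.2.2 e).1⟩⟩ }
  rw [← mul_assoc (u * v), mul_assoc u v t, B.tv, ← mul_assoc u, B.tu, mul_assoc t, mul_assoc t, cm, k.1, k.2.2.2 e]

theorem fin (k1 : K1.{u, v}) (k2 : K2.{u, v}) (k3 : K3.{u}) (k4 : K4.{u}) (M : MAIN.{u}) {G : Type u} [Group G] [Finite G]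
    (hF : IsSimpleGroup ↥(generalizedFittingSubgroup G)) (hF' : ¬ IsMulCommutative ↥(generalizedFittingSubgroup G))
    (t : G) (ht : orderOf t = 2) (L : Subgroup ↥(centralizer ({t} : Set G))) (hL : IsPComponent 2 L)
    {K : Type v} [Field K] [Fintype K] (h3 : Fintype.card K = 3)
    (hX : Nonempty ((↥L ⧸ oddCore ↥L) ≃* Matrix.ProjectiveSpecialLinearGroup (Fin 3) K))
    (hc : ∀ P : Subgroup ↥(centralizer ({t} : Set G)), IsPGroup 2 ↥P →
      (∀ g ∈ P, ∀ l ∈ L, ∃ o ∈ oddCore ↥L, g * (l : ↥(centralizer ({t} : Set G))) * g⁻¹ = l * o) → IsCyclic ↥P) :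
    ¬ 2 ^ 11 ∣ Nat.card ↥(generalizedFittingSubgroup G) := by
  refine (k1 G hF hF' t ht L hL K h3 hX hc).elim id fun ⟨t', Y, _, q, X, et, R, j⟩ => ?_
  have := R.nm
  obtain ⟨h, z, u, v, w, f, a, c, D⟩ := k2 Y X K h3 j
  have e := subgroupOfEquivOfLe (le_sup_left : generalizedFittingSubgroup G ≤ Gm t)
  set F := (generalizedFittingSubgroup G).subgroupOf (Gm t)
  have tt : t' * t' = 1 := by rw [← sq, ← R.ht, pow_orderOf_eq_one]
  have ix : ∀ g : Gm t, g ∈ F ∨ g * t' ∈ F := fun g => by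
    obtain ⟨x, hx, y, ⟨n, rfl⟩, j⟩ := mem_sup_of_normal_left.1 g.2
    have tt : t * t = 1 := et ▸ congrArg Subtype.val tt
    simp only [F, mem_subgroupOf, coe_mul, ← j, et]
    obtain ⟨n, rfl | rfl⟩ := n.even_or_odd'
    · exact .inl (by rwa [zpow_mul, zpow_two, tt, one_zpow, mul_one])
    · exact .inr (by rwa [zpow_add_one, zpow_mul, zpow_two, tt, one_zpow, one_mul, mul_assoc, tt, mul_one])
  have sq : ∀ g : Gm t, g * g ∈ F := fun g => (ix g).elim (fun k => mul_mem k k) fun k => by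
    have := mul_mem k (Normal.conj_mem inferInstance _ k t')
    rwa [mul_assoc t', mul_inv_cancel_right, mul_assoc, ← mul_assoc t', tt, one_mul] at this
  have C : centralizer (X : Set Y) = zpowers (q (tc t')) := by
    by_cases k : t' ∈ F
    · have : F = ⊤ := eq_top_iff.2 fun g _ => (ix g).elim id (mul_mem_cancel_right k).1
      have i : IsSimpleGroup F := e.isSimpleGroup
      rw [this] at i
      exact k3 _ topEquiv.symm.isSimpleGroup t' Y q X R h z u v w f a c D
    have := Finite.of_surjective q R.sj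
    have m : q (tc t') ∈ centralizer (X : Set Y) := fun y _ => by
      obtain ⟨y, rfl⟩ := R.sj y
      rw [← map_mul, ← map_mul]
      exact congrArg q (Subtype.ext (mem_centralizer_singleton_iff.1 y.2))
    have := R.cy
    obtain ⟨γ, hγ⟩ := IsCyclic.exists_monoid_generator (α := centralizer (X : Set Y))
    obtain ⟨n, hn⟩ := hγ ⟨_, m⟩
    rcases n.even_or_odd with ⟨n, rfl⟩ | o
    · obtain ⟨r, hr⟩ := R.sj (γ ^ n : centralizer (X : Set Y))
      have a : (r * r)⁻¹ * tc t' ∈ q.ker := by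
        rw [MonoidHom.mem_ker, map_mul, map_inv, map_mul, hr, ← coe_mul, ← pow_add, show γ ^ (n + n) = _ from hn,
          inv_mul_cancel]
      obtain ⟨i, hi⟩ := R.od
      have b : ((r * r)⁻¹ * tc t') ^ (2 * i + 1) = 1 := hi ▸ congrArg Subtype.val (pow_card_eq_one' (x := (⟨_, a⟩ : q.ker)))
      rw [pow_succ, pow_mul, mul_eq_one_iff_eq_inv, pow_two] at b
      have d : (((r * r)⁻¹ * tc t' : centralizer {t'}) : Gm t) ∈ F :=
        inv_mem_iff.1 (by rw [← coe_inv, ← b]; exact pow_mem (sq _) i)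
      exact (k ((mul_mem_cancel_left (inv_mem (sq r))).1 d)).elim
    · refine le_antisymm (fun y hy => ?_) (zpowers_le.2 m)
      obtain ⟨l, hl⟩ := hγ ⟨y, hy⟩
      obtain ⟨i, hi⟩ := (IsPGroup.iff_orderOf.1 R.p2) γ
      obtain ⟨s, hs⟩ : γ ∈ zpowers (γ ^ n) :=
        mem_zpowers_pow_iff.2 (hi ▸ Nat.Coprime.pow_right _ (Nat.coprime_two_right.2 o))
      rw [show γ ^ n = _ from hn] at hs
      rw [← show (γ : Y) ^ l = y from congrArg Subtype.val hl]
      exact pow_mem (mem_zpowers_iff.2 ⟨s, congrArg Subtype.val hs⟩) l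
  obtain ⟨b, z, u, v, w, f, B⟩ := k4 _ t' Y q X R h z u v w f a c D C
  rw [← Nat.card_congr e.toEquiv]
  by_cases k : f ∈ F
  · exact M _ F e.isSimpleGroup h b z t' u v w f ix B fun _ => k
  · obtain rfl : h = true := by_contra fun j => k (B.f1 (Bool.eq_false_iff.2 j) ▸ one_mem F)
    exact M _ F e.isSimpleGroup _ b z t' u v w _ ix B.swap fun _ => B.tf ▸ (ix f).resolve_left k

end H2.LS
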