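import Cfsg.Agent.H2.Factor
import Cfsg.Agent.H3.Focal
import Cfsg.Agent.H1.Subnormal

/-!
Sylow components of nilpotent subgroups, and a lemma on centralizers of `O_r`.
-/

set_option autoImplicit false

namespace H2

open Subgroup Cfsg
open scoped Pointwise commutatorElement

universe u v

variable {G : Type u} [Group G]

/-- `O_p(A)` as a subgroup of `G`. -/
abbrev sy (p : ℕ) (A : Subgroup G) : Subgroup G := (pCore p A).map A.subtype

/-- `O_{p'}(A)` as a subgroup of `G`. -/
abbrev sy' (p : ℕ) (A : Subgroup G) : Subgroup G := (pPrimeCore p A).map A.subtype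

theorem sy_le (p : ℕ) (A : Subgroup G) : sy p A ≤ A := map_subtype_le _

theorem sy'_le (p : ℕ) (A : Subgroup G) : sy' p A ≤ A := map_subtype_le _

/-- A subgroup of order prime to the index of a normal subgroup lies in it. -/
theorem le_of_coprime_relIndex {U C L : Subgroup G} (hUL : U ≤ L)
    (hn : L ≤ normalizer (C : Set G)) (h : (Nat.card U).Coprime (C.relIndex L)) : U ≤ C := by
  have := normal_subgroupOf_of_le_normalizer hn
  rw [← relIndex_eq_one]
  refine Nat.eq_one_of_dvd_coprimes h (relIndex_dvd_card _ _) ?_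
  rw [← relIndex_subgroupOf hUL]
  exact relIndex_dvd_index_of_normal _ _

variable [Finite G] {p : ℕ} [hp : Fact p.Prime] {A U : Subgroup G}

omit hp in
theorem le_sy (hA : Group.IsNilpotent A) (h : U ≤ A) (hU : IsPGroup p U) : U ≤ sy p A :=
  H1.le_pCoreOf_of_subnormal h (H1.isSubnormal_of_isNilpotent hA _) hU

omit hp in
theorem le_sy' (hA : Group.IsNilpotent A) (h : U ≤ A) (hU : (Nat.card U).Coprime p) :
    U ≤ sy' p A :=
  H1.le_pPrimeCoreOf_of_subnormal h (H1.isSubnormal_of_isNilpotent hA _) hU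

theorem not_dvd_relIndex_sy (hA : Group.IsNilpotent A) : ¬ p ∣ (sy p A).relIndex A := by
  have := H1.isNilpotent_iff_pCore.1 hA p hp.out
  rwa [relIndex, H1.map_subtype_subgroupOf]

theorem isPiHallOf_sy (hA : Group.IsNilpotent A) : IsPiHallOf {p} (sy p A) A :=
  isPiHallOf_singleton_iff.2 ⟨sy_le p A, H1.pCoreOf_isPGroup A, not_dvd_relIndex_sy hA⟩

theorem sy_ne_bot (hA : Group.IsNilpotent A) (h : p ∣ Nat.card A) : sy p A ≠ ⊥ := fun e =>
  not_dvd_relIndex_sy (p := p) hA (by rwa [e, relIndex_bot_left])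

theorem le_centralizer_of_nilpotent {V : Subgroup G} (hA : Group.IsNilpotent A) (hU : U ≤ A)
    (hV : V ≤ A) (hUp : IsPGroup p U) (hVp : (Nat.card V).Coprime p) :
    V ≤ centralizer (U : Set G) :=
  H1.le_centralizer_of_commutator_eq_bot (H1.commutator_eq_bot_of_isNilpotent_of_coprime hA hV hU
    (coprime_card_of_isPGroup hUp hVp))

theorem coprime_card_sy {q : ℕ} [Fact q.Prime] (h : q ≠ p) (A : Subgroup G) :
    (Nat.card (sy q A)).Coprime p :=
  H1.coprime_card_of_isPGroup_of_ne (H1.pCoreOf_isPGroup A) h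

theorem sy_le_sy' {q : ℕ} [Fact q.Prime] (hA : Group.IsNilpotent A) (h : q ≠ p) :
    sy q A ≤ sy' p A := le_sy' hA (sy_le q A) (coprime_card_sy h A)

theorem isPiHallOf_sy' (hA : Group.IsNilpotent A) : IsPiHallOf {p}ᶜ (sy' p A) A := by
  refine isPiHallOf_iff.2 ⟨sy'_le p A, (piNum_compl_singleton_iff hp.out).2
    (H1.pPrimeCoreOf_coprime A), fun q hq hqp hd => ?_⟩
  have : Fact q.Prime := ⟨hq⟩
  exact not_dvd_relIndex_sy (p := q) hA (hd.trans (relIndex_dvd_of_le_left A (sy_le_sy' hA hqp)))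

theorem sylow_map_eq_sy (hA : Group.IsNilpotent A) (P : Sylow p A) :
    (P : Subgroup A).map A.subtype = sy p A := by
  rw [sy, H1.pCore_eq_sylow_of_normal P (H1.isNilpotent_iff_sylow_normal.1 hA p hp P)]

omit [Finite G] hp in
theorem isPGroup_zpowers_of_prime {x : G} (hx : orderOf x = p) : IsPGroup p (zpowers x) :=
  IsPGroup.of_card (n := 1) (by rw [Nat.card_zpowers, hx, pow_one])

/-- If a Sylow `p`-subgroup of a solvable group centralizes `O_{p'}`, then
`C(O_p) ≤ O_p O_{p'}`. -/
theorem centralizer_pCore_le_sup [Group.IsSolvable G] {R : Subgroup G} (hR : IsPGroup p R)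
    (hR' : ¬ p ∣ R.index) (h : pPrimeCore p G ≤ centralizer (R : Set G)) :
    centralizer (pCore p G : Set G) ≤ pPrimeCore p G ⊔ pCore p G := by
  set N := pPrimeCore p G with hN
  set W := (pCore p (G ⧸ N)).comap (QuotientGroup.mk' N) with hW
  have hs := QuotientGroup.mk'_surjective N
  have hNW : N ≤ W := fun x hx => by
    rw [hW, mem_comap, QuotientGroup.mk'_apply, (QuotientGroup.eq_one_iff x).2 hx]
    exact one_mem _
  obtain ⟨S, rfl⟩ := H1.exists_sylow_of_not_dvd_index hR hR'
  have h1 : W = N ⊔ ((S : Subgroup G) ⊓ W) := by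
    rw [← H1.sup_inf_assoc_of_le_normalizer' le_normalizer_of_normal hNW, eq_comm, inf_eq_right,
      sup_comm, ← H1.comap_map_mk']
    exact comap_mono (H1.pCore_le_sylow (S.mapSurjective hs))
  have h2 : (S : Subgroup G) ⊓ W ≤ pCore p G := by
    refine H1.le_pCore_of_subnormal (H1.isSubnormal_of_le_normalizer inf_le_right ?_
      (Normal.isSubnormal inferInstance)) (hR.to_le inf_le_left)
    conv_lhs => rw [h1]
    exact sup_le (le_normalizer_of_le_centralizer (h.trans (H1.centralizer_anti inf_le_left)))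
      le_normalizer
  have h3 : W ≤ N ⊔ pCore p G := h1.le.trans (sup_le_sup_left h2 _)
  refine le_trans (fun x hx => ?_) h3
  apply H1.centralizer_pCore_le_of_isSolvable inferInstance H1.pPrimeCore_quotient_pPrimeCore
  have h4 : pCore p (G ⧸ N) ≤ (pCore p G).map (QuotientGroup.mk' N) := by
    rw [← map_comap_eq_self_of_surjective hs (pCore p (G ⧸ N)), H1.map_mk'_le_map_mk'_iff,
      sup_comm]
    exact h3
  refine H1.centralizer_anti h4 (mem_centralizer_iff.2 ?_)
  rintro _ ⟨y, hy, rfl⟩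
  rw [← map_mul, ← map_mul, mem_centralizer_iff.1 hx y hy]

theorem inf_centralizer_sy_le_sup {L R : Subgroup G} (hL : Group.IsSolvable L) (hRL : R ≤ L)
    (hR : IsPGroup p R) (hR' : ¬ p ∣ R.relIndex L) (h : sy' p L ≤ centralizer (R : Set G)) :
    L ⊓ centralizer (sy p L : Set G) ≤ sy' p L ⊔ sy p L := by
  have := centralizer_pCore_le_sup (G := L) (R := R.subgroupOf L) hR.comap_subtype hR' (by
    rw [H1.centralizer_subgroupOf hRL, ← H1.map_subtype_le_iff]
    exact h)
  rw [← H1.map_subtype_centralizer, ← Subgroup.map_sup]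
  exact map_mono this

theorem le_sy_of_le_sup {L : Subgroup G} (h : U ≤ sy' p L ⊔ sy p L) (hU : IsPGroup p U) :
    U ≤ sy p L := by
  have hle : sy' p L ⊔ sy p L ≤ L := sup_le (sy'_le p L) (sy_le p L)
  refine le_of_coprime_relIndex h (hle.trans (H1.le_normalizer_pCoreOf L)) ?_
  rw [sup_comm, relIndex_sup_left_of_le_normalizer ((sy'_le p L).trans
    (H1.le_normalizer_pCoreOf L))]
  exact (H1.coprime_card_of_isPGroup hU (H1.pPrimeCoreOf_coprime L)).coprime_dvd_right
    (relIndex_dvd_card _ _)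

theorem le_sy'_of_le_sup {L : Subgroup G} (h : U ≤ sy' p L ⊔ sy p L)
    (hU : (Nat.card U).Coprime p) : U ≤ sy' p L := by
  have hle : sy' p L ⊔ sy p L ≤ L := sup_le (sy'_le p L) (sy_le p L)
  refine le_of_coprime_relIndex h (hle.trans (H1.le_normalizer_pPrimeCoreOf L)) ?_
  rw [relIndex_sup_left_of_le_normalizer ((sy_le p L).trans (H1.le_normalizer_pPrimeCoreOf L))]
  exact (coprime_card_of_isPGroup (H1.pCoreOf_isPGroup L) hU).coprime_dvd_right
    (relIndex_dvd_card _ _)

omit [Finite G] hp in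
theorem FacIn.index_eq_card {B : Subgroup G} (h : FacIn A B ⊤)
    (hc : (Nat.card A).Coprime (Nat.card B)) : B.index = Nat.card A := by
  rw [h.index_eq, ← inf_relIndex_right, inf_comm, (disjoint_of_coprime_natCard hc).eq_bot, relIndex_bot_left]

/-- The Sylow components of nilpotent factors multiply to a Sylow subgroup. -/
theorem FacIn.sy_sup_sy {B : Subgroup G} (h : FacIn A B ⊤) (hA : Group.IsNilpotent A)
    (hB : Group.IsNilpotent B) : IsPiHall {p} (sy p A ⊔ sy p B) ∧ Permutes (sy p A) (sy p B) :=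
  h.exists_hall_of_normal (dPi_singleton p G) (isPiHallOf_sy hA) (isPiHallOf_sy hB)
    (H1.le_normalizer_pCoreOf A) (H1.le_normalizer_pCoreOf B)

omit hp in
/-- Kegel: a triple factorization `G = A B = A K = B K` by nilpotent subgroups with `K` normal
forces `G` to be nilpotent. -/
theorem isNilpotent_of_triple {B K : Subgroup G} [K.Normal] (hA : Group.IsNilpotent A)
    (hB : Group.IsNilpotent B) (hK : Group.IsNilpotent K) (h : FacIn A B ⊤) (hAK : A ⊔ K = ⊤)
    (hBK : B ⊔ K = ⊤) : Group.IsNilpotent G := by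
  rw [H1.isNilpotent_iff_pCore]
  intro p hp
  have : Fact p.Prime := ⟨hp⟩
  have hKn := H1.pCoreOf_normal (p := p) K
  obtain ⟨hR, -⟩ := h.sy_sup_sy (p := p) hA hB
  have hRp := isPGroup_of_piNum_singleton (isPiHall_iff.1 hR).1
  have key : ∀ X : Subgroup G, Group.IsNilpotent X → X ⊔ K = ⊤ → sy p X ≤ sy p A ⊔ sy p B →
      X ≤ normalizer ((sy p A ⊔ sy p B : Subgroup G) : Set G) := fun X hX hXK hle => by
    have hf : FacIn X K ⊤ := by
      rw [← hXK, sup_comm]
      exact (facIn_sup_of_le_normalizer le_normalizer_of_normal).symm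
    have h1 := (hf.sy_sup_sy (p := p) hX hK).1
    have h2 : sy p K ≤ sy p A ⊔ sy p B := le_of_isPiHallOf_of_le_normalizer
      (isPiHallOf_top.2 hR) le_top (piNum_of_isPGroup (H1.pCoreOf_isPGroup K) rfl)
      le_normalizer_of_normal
    rw [IsPiHall.eq_of_le h1 (sup_le hle h2) (isPiHall_iff.1 hR).1]
    exact le_normalizer_sup (H1.le_normalizer_pCoreOf X) le_normalizer_of_normal
  have hn : (sy p A ⊔ sy p B).Normal := H1.normal_of_top_le_normalizer
    (h.le_sup.trans (sup_le (key A hA hAK le_sup_left) (key B hB hBK le_sup_right)))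
  exact fun hd => (isPiHall_iff.1 hR).2 p hp rfl (hd.trans (index_dvd_of_le (H1.le_pCore hn hRp)))

end H2
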