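import Cfsg.Agent.H8.OW3

/-! Ovals in planes of odd order: involutions. -/

set_option autoImplicit false
set_option linter.unusedSectionVars false

namespace H2.Ov

open Subgroup MulAction Cfsg H19 H8.PG

universe u v w

theorem ncard_mod {α : Type*} [Finite α] {p : ℕ} (hp : p.Prime) {X : Set α} {f : α → α}
    (hX : ∀ x ∈ X, f x ∈ X) (hf : ∀ x, f^[p] x = x) :
    X.ncard ≡ {x | x ∈ X ∧ f x = x}.ncard [MOD p] := by
  classical
  have := Fact.mk hp
  have := Fintype.ofFinite X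
  let φ : Function.End X := fun x => ⟨f x, hX x x.2⟩
  have h1 : ∀ n (x : X), ((φ ^ n) x : α) = f^[n] x := fun n => by
    induction n with
    | zero => intro x; rfl
    | succ n ih => intro x; rw [pow_succ, Function.iterate_succ_apply]; exact ih (φ x)
  have h2 := Equiv.Perm.card_fixedPoints_modEq (f := φ) (p := p) (n := 1)
    (funext fun x => Subtype.ext (by rw [pow_one, h1, hf]; rfl))
  rw [← Nat.card_eq_fintype_card, ← Nat.card_eq_fintype_card, Nat.card_coe_set_eq,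
    Nat.card_coe_set_eq, ← Set.ncard_image_of_injective _ Subtype.val_injective] at h2
  convert h2
  ext x
  exact ⟨fun h => ⟨⟨x, h.1⟩, Subtype.ext h.2, rfl⟩, fun ⟨y, h, e⟩ =>
    e ▸ ⟨y.2, congrArg Subtype.val h⟩⟩

theorem pair_le {α : Type*} (a b : α) : ({a, b} : Set α).ncard ≤ 2 :=
  (Set.ncard_insert_le _ _).trans (by rw [Set.ncard_singleton])

variable {P : Type v} {L : Type w} {G : Type u} [Group G] [MulAction G P] [MulAction G L]
  {inc : P → L → Prop} {n : ℕ}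

theorem smul_mod {Ω : Type*} [MulAction G Ω] [Finite Ω] {p : ℕ} (hp : p.Prime) {X : Set Ω} {g : G}
    (hg : g ^ p = 1) (hX : ∀ x ∈ X, g • x ∈ X) :
    X.ncard ≡ {x | x ∈ X ∧ g • x = x}.ncard [MOD p] :=
  ncard_mod hp hX fun x => by rw [smul_iterate, hg]; exact one_smul _ _

theorem mem_FP_zp {Ω : Type*} [MulAction G Ω] {g : G} {x : Ω} :
    x ∈ FP Ω (zpowers g) ↔ g • x = x :=
  ⟨fun h => h g (mem_zpowers g), fun h _ ha => (zpowers_le.2 (show g ∈ stabilizer G x from h)) ha⟩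

/-- the subplane fixed by `g` -/
abbrev Sub (inc : P → L → Prop) (g : G) (k : ℕ) : Prop :=
  PA N(zpowers g) (fun (p : FP P (zpowers g)) (l : FP L (zpowers g)) => inc p l) k

variable [Finite P] [Finite L]

theorem sub_cl (h : PA G inc n) [Finite G] {g : G} {k : ℕ} (hk : Sub inc g k) {l : L}
    (hl : g • l = l) : {p | g • p = p ∧ inc p l}.ncard = k + 1 := by
  have := (h.ord_sub hk ⟨l, mem_FP_zp.2 hl⟩).1
  simpa only [mem_FP_zp] using this

theorem sub_cp (h : PA G inc n) [Finite G] {g : G} {k : ℕ} (hk : Sub inc g k) {p : P}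
    (hp : g • p = p) : {l | g • l = l ∧ inc p l}.ncard = k + 1 := by
  have := (h.dual.ord_sub hk.dual ⟨p, mem_FP_zp.2 hp⟩).1
  simpa only [mem_FP_zp] using this

theorem inv_cases (h : PA G inc n) [Finite G] (hn : Odd n) {g : G} (h2 : ∀ p : P, g • g • p = p)
    (h1 : ∃ p : P, g • p ≠ p) :
    (∃ c a, ¬ inc c a ∧ g ∈ Kb G inc a ∧ g ∈ Kb G (fun l p => inc p l) c) ∨
      ∃ k, n = k ^ 2 ∧ Sub inc g k := by
  by_cases hc : Cfg inc {p | g • p = p} {l | g • l = l}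
  swap
  · exact Or.inl (h.homol hn h2 hc)
  obtain ⟨k, hk⟩ := h.exists_sub (A := zpowers g)
    (hc.mono (fun p hp => mem_FP_zp.2 hp) fun p hp => mem_FP_zp.2 hp)
  obtain ⟨p, hp⟩ := h1
  obtain ⟨l, l1, l2⟩ := h.inv_line h2 hp
  refine Or.inr ⟨k, ?_, hk⟩
  have e := (h.ord_sub hk ⟨l, mem_FP_zp.2 l2⟩).2
  simp only [mem_FP_zp] at e
  rw [← e, h.card_fix_off h2 l2 l1 hp]

theorem fixl (h : PA G inc n) [Finite G] (hn : Odd n) {g : G} (h2 : ∀ p : P, g • g • p = p)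
    (h1 : ∃ p : P, g • p ≠ p) :
    ∃ k, {l : L | g • l = l}.ncard = n + k + 1 ∧ (k = 1 ∨ n = k ^ 2) := by
  rcases inv_cases h hn h2 h1 with ⟨c, a, h3, h4, h5⟩ | ⟨k, e, hk⟩
  · refine ⟨1, ?_, Or.inl rfl⟩
    have h1' : ∃ l : L, g • l ≠ l := by
      by_contra! hh
      obtain ⟨p, hp⟩ := h1
      exact hp (h.dual.triv_dual hh p)
    have : {l : L | g • l = l} = insert a {l | inc c l} := Set.ext fun l =>
      ⟨fun hl => (h.dual.fix_cases h5 h4 h1' hl).symm, fun hl => hl.elim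
        (fun e => e ▸ h.ax_fix h4) fun e => h5 l e⟩
    rw [this, Set.ncard_insert_of_notMem (s := {l | inc c l}) h3, h.cp]
  · refine ⟨k, ?_, Or.inr e⟩
    have := hk.dual.card_P
    rw [e, ← this, ← Nat.card_coe_set_eq]
    exact Nat.card_congr (Equiv.subtypeEquivRight fun l => mem_FP_zp.symm)

/-- an oval invariant under a group of collineations acting evenly on it -/
structure OV (G : Type u) [Group G] [MulAction G P] [MulAction G L] (inc : P → L → Prop) (n : ℕ)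
    (O : Set P) : Prop where
  pa : PA G inc n
  odd : Odd n
  card : O.ncard = n + 1
  arc : ∀ {l p q r}, p ∈ O → q ∈ O → r ∈ O → inc p l → inc q l → inc r l → p = q ∨ p = r ∨ q = r
  inv : ∀ (g : G) {p}, p ∈ O → g • p ∈ O
  faith : ∀ g : G, (∀ p : P, g • p = p) → g = 1
  even : ∀ g : G, g * g = 1 → {p | p ∈ O ∧ g • p = p}.ncard ≡ n + 1 [MOD 4]

/-- tangent -/
def Tg (inc : P → L → Prop) (O : Set P) (l : L) (x : P) : Prop :=
  inc x l ∧ ∀ y ∈ O, inc y l → y = x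

/-- involutory homology -/
structure Hm (inc : P → L → Prop) (d : G) (c : P) (a : L) : Prop where
  nca : ¬ inc c a
  ax : d ∈ Kb G inc a
  ce : d ∈ Kb G (fun l p => inc p l) c
  sq : d * d = 1
  ne : d ≠ 1

/-- the set of homologies -/
def DD (G : Type u) [Group G] [MulAction G P] [MulAction G L] (inc : P → L → Prop) : Set G :=
  {d | ∃ c a, Hm inc d c a}

theorem sq_smul {Ω : Type*} [MulAction G Ω] {g : G} (hg : g * g = 1) (x : Ω) : g • g • x = x := by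
  rw [← mul_smul, hg, one_smul]

theorem comm_smul {Ω : Type*} [MulAction G Ω] {g k : G} (e : g * k = k * g) {x : Ω}
    (hx : k • x = x) : k • g • x = g • x := by
  rw [← mul_smul, ← e, mul_smul, hx]

namespace OV

variable {O : Set P} (h : OV G inc n O) {x y z c c' : P} {l m a a' : L} {d e f g : G}
include h

theorem three : 3 ≤ n := by
  have := h.pa.two
  obtain ⟨k, hk⟩ := h.odd
  omega

theorem line_le (l : L) : {y | y ∈ O ∧ inc y l}.ncard ≤ 2 := by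
  by_contra! hh
  obtain ⟨p, hp, q, hq, r, hr, e1, e2, e3⟩ := (Set.two_lt_ncard (Set.toFinite _)).1 hh
  rcases h.arc hp.1 hq.1 hr.1 hp.2 hq.2 hr.2 with e | e | e
  exacts [e1 e, e2 e, e3 e]

theorem exists_off (l : L) : ∃ y ∈ O, ¬ inc y l := by
  by_contra! hh
  have := h.line_le l
  rw [show {y | y ∈ O ∧ inc y l} = O from Set.ext fun y => ⟨And.left, fun hy => ⟨hy, hh y hy⟩⟩,
    h.card] at this
  have := h.three
  omega

theorem tg_card (hx : x ∈ O) : {l | Tg inc O l x}.ncard = 1 := by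
  have e := dcount_eq {y | y ∈ O ∧ y ≠ x} {l | inc x l ∧ ¬ Tg inc O l x} inc (m := 1) (n := 1)
    (fun y hy => by
      obtain ⟨m, m1, m2⟩ := h.pa.join hy.2
      exact Set.ncard_eq_one.2 ⟨m, Set.eq_singleton_iff_unique_mem.2
        ⟨⟨⟨m2, fun t => hy.2 (t.2 y hy.1 m1)⟩, m1⟩, fun b hb =>
          h.pa.eq_line hy.2 hb.2 hb.1.1 m1 m2⟩⟩)
    fun m hm => by
      have := hm.2
      simp only [Tg, hm.1, true_and, not_forall] at this
      obtain ⟨y, y1, y2, y3⟩ := this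
      exact Set.ncard_eq_one.2 ⟨y, Set.eq_singleton_iff_unique_mem.2 ⟨⟨⟨y1, y3⟩, y2⟩, fun b hb =>
        ((h.arc hb.1.1 y1 hx hb.2 y2 hm.1).resolve_right fun e => e.elim hb.1.2 y3)⟩⟩
  have e1 := Set.ncard_sdiff_singleton_add_one hx
  have e2 := Set.ncard_inter_add_ncard_sdiff_eq_ncard {l | inc x l} {l | Tg inc O l x}
  rw [h.pa.cp, Set.inter_eq_right.2 fun l hl => hl.1] at e2
  rw [h.card] at e1
  change (O \ {x}).ncard * 1 = ({l | inc x l} \ {l | Tg inc O l x}).ncard * 1 at e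
  omega

theorem exists_tg (hx : x ∈ O) : ∃ l, Tg inc O l x := by
  obtain ⟨l, hl⟩ := Set.ncard_eq_one.1 (h.tg_card hx)
  exact ⟨l, (hl ▸ Set.mem_singleton l : l ∈ {l | Tg inc O l x})⟩

theorem tg_uniq (hx : x ∈ O) (h1 : Tg inc O l x) (h2 : Tg inc O m x) : l = m := by
  obtain ⟨b, hb⟩ := Set.ncard_eq_one.1 (h.tg_card hx)
  have e1 : l ∈ ({b} : Set L) := hb ▸ h1
  have e2 : m ∈ ({b} : Set L) := hb ▸ h2
  exact e1.trans e2.symm

theorem tg_smul (g : G) (h1 : Tg inc O l x) : Tg inc O (g • l) (g • x) :=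
  ⟨h.pa.inv g h1.1, fun y hy e => by
    rw [← h1.2 (g⁻¹ • y) (h.inv _ hy) (h.pa.inv' g (by rwa [smul_inv_smul])), smul_inv_smul]⟩

theorem tg_fix (hx : x ∈ O) (h1 : Tg inc O l x) (e : g • x = x) : g • l = l :=
  h.tg_uniq hx (e ▸ h.tg_smul g h1) h1

theorem fix_meet (hx : x ∈ O) (hl : inc x l) (hg : ∀ y ∈ O, inc y l → g • y = y) : g • l = l := by
  by_cases t : Tg inc O l x
  · exact h.tg_fix hx t (hg x hx hl)
  simp only [Tg, hl, true_and, not_forall] at t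
  obtain ⟨y, y1, y2, y3⟩ := t
  exact h.pa.fix_line y3 (hg y y1 y2) (hg x hx hl) y2 hl

theorem faithO (hg : ∀ y ∈ O, g • y = y) : g = 1 := by
  refine h.faith g fun p => ?_
  by_cases hp : p ∈ O
  · exact hg p hp
  obtain ⟨l⟩ := h.pa.dual.neP
  obtain ⟨x, hx, -⟩ := h.exists_off l
  obtain ⟨l, l1, l2⟩ := h.pa.join (show p ≠ x from fun e => hp (e ▸ hx))
  obtain ⟨y, hy, y1⟩ := h.exists_off l
  obtain ⟨m, m1, m2⟩ := h.pa.join (show p ≠ y from fun e => hp (e ▸ hy))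
  exact h.pa.fix_pt (l := l) (m := m) (fun e => y1 (e ▸ m2)) (h.fix_meet hx l2 fun z hz _ => hg z hz)
    (h.fix_meet hy m2 fun z hz _ => hg z hz) l1 m1

theorem moves (h1 : g ≠ 1) : ∃ p : P, g • p ≠ p := by
  by_contra! hh
  exact h1 (h.faith g hh)

theorem cases (k : Hm inc d c a) (e : d • x = x) : inc x a ∨ x = c :=
  h.pa.fix_cases k.ax k.ce (h.moves k.ne) e

theorem ce_fix (k : Hm inc d c a) : d • c = c := h.pa.dual.ax_fix k.ce

theorem cO (k : Hm inc d c a) : c ∉ O := fun hc => by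
  refine k.ne (h.faithO fun y hy => ?_)
  by_cases e : y = c
  · exact e ▸ h.ce_fix k
  obtain ⟨l, l1, l2⟩ := h.pa.join e
  rcases h.arc hc hy (h.inv d hy) l2 l1 (k.ce l l2 ▸ h.pa.inv d l1) with e' | e' | e'
  · exact (e e'.symm).elim
  · exact (e (smul_left_cancel d (e'.symm.trans (h.ce_fix k).symm))).elim
  · exact e'.symm

theorem fix_ax (k : Hm inc d c a) (hy : y ∈ O) (e : d • y = y) : inc y a :=
  (h.cases k e).resolve_right fun e => h.cO k (e ▸ hy)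

theorem tg_iff (k : Hm inc d c a) (hy : y ∈ O) (m1 : inc y m) (m2 : inc c m) :
    d • y = y ↔ Tg inc O m y := by
  refine ⟨fun e => ⟨m1, fun z hz z1 => ?_⟩, fun t => t.2 _ (h.inv d hy) (k.ce m m2 ▸ h.pa.inv d m1)⟩
  by_contra hne
  have : d • z = z := by
    rcases h.arc hy hz (h.inv d hz) m1 z1 (k.ce m m2 ▸ h.pa.inv d z1) with e' | e' | e'
    · exact (hne e'.symm).elim
    · exact (hne (smul_left_cancel d (e'.symm.trans e.symm))).elim
    · exact e'.symm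
  exact k.nca (h.pa.eq_line hne z1 m1 (h.fix_ax k hz this) (h.fix_ax k hy e) ▸ m2)

theorem fix_tg (k : Hm inc d c a) (hy : y ∈ O) (e : d • y = y) (t : Tg inc O l y) : inc c l := by
  obtain ⟨m, m1, m2⟩ := h.pa.join (show y ≠ c from fun e => h.cO k (e ▸ hy))
  exact h.tg_uniq hy ((h.tg_iff k hy m1 m2).1 e) t ▸ m2

theorem col (k : Hm inc d c a) (e : d • y ≠ y) (l1 : inc y l) (l2 : inc (d • y) l) : inc c l := by
  obtain ⟨m, m1, m2⟩ := h.pa.join (show y ≠ c from fun e' => e (e' ▸ h.ce_fix k))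
  exact h.pa.eq_line e (k.ce m m2 ▸ h.pa.inv d m1) m1 l2 l1 ▸ m2

theorem eq_of_ce (k : Hm inc d c a) (k' : Hm inc e c a') : d = e := by
  have : e⁻¹ * d = 1 := h.faithO fun y hy => by
    obtain ⟨m, m1, m2⟩ := h.pa.join (show y ≠ c from fun e => h.cO k (e ▸ hy))
    rw [mul_smul, inv_smul_eq_iff]
    by_cases t : Tg inc O m y
    · rw [(h.tg_iff k hy m1 m2).2 t, (h.tg_iff k' hy m1 m2).2 t]
    rcases h.arc hy (h.inv d hy) (h.inv e hy) m1 (k.ce m m2 ▸ h.pa.inv d m1)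
      (k'.ce m m2 ▸ h.pa.inv e m1) with e' | e' | e'
    · exact (t ((h.tg_iff k hy m1 m2).1 e'.symm)).elim
    · exact (t ((h.tg_iff k' hy m1 m2).1 e'.symm)).elim
    · exact e'
  exact (inv_mul_eq_one.1 this).symm

theorem J (k : Hm inc d c a) (g : G) : Hm inc (g * d * g⁻¹) (g • c) (g • a) :=
  ⟨fun e => k.nca (h.pa.inv' g e), h.pa.ax_conj g k.ax, h.pa.dual.ax_conj g k.ce, by
    rw [conj_mul, k.sq]; simp, fun e => k.ne (by simpa using e)⟩

theorem ce_uniq (k : Hm inc d c a) (k' : Hm inc d c' a') : c = c' := by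
  by_contra hne
  exact k.ne (h.faith d (h.pa.two_ce hne k.ce k'.ce))

theorem ax_uniq (k : Hm inc d c a) (k' : Hm inc d c' a') : a = a' := by
  by_contra hne
  exact k.ne (h.faith d (h.pa.dual.triv_dual (h.pa.dual.two_ce hne k.ax k'.ax)))

theorem comm_ce (k : Hm inc d c a) (e : g * d = d * g) : g • c = c :=
  h.ce_uniq (by simpa [e] using h.J k g) k

theorem comm_ax (k : Hm inc d c a) (e : g * d = d * g) : g • a = a :=
  h.ax_uniq (by simpa [e] using h.J k g) k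

theorem comm_of_ce (k : Hm inc d c a) (e : g • c = c) : g * d = d * g :=
  mul_inv_eq_iff_eq_mul.1 (h.eq_of_ce (e ▸ h.J k g) k)

theorem ce_ne (k : Hm inc d c a) (k' : Hm inc e c' a') (hne : d ≠ e) : c ≠ c' := fun e' =>
  hne (h.eq_of_ce k (e' ▸ k'))

theorem ce_inc (k : Hm inc d c a) (k' : Hm inc e c' a') (hne : d ≠ e) (hc : d * e = e * d) :
    inc c a' :=
  (h.cases k' (h.comm_ce k hc.symm)).resolve_right (h.ce_ne k k' hne)

theorem ax_ne (k : Hm inc d c a) (k' : Hm inc e c' a') (hne : d ≠ e) (hc : d * e = e * d) :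
    a ≠ a' := fun e' => k.nca (e' ▸ h.ce_inc k k' hne hc)

theorem no_common (hd : d ∈ DD G inc) (he : e ∈ DD G inc) (hne : d ≠ e) (hc : d * e = e * d)
    (hy : y ∈ O) (e1 : d • y = y) (e2 : e • y = y) : False := by
  obtain ⟨c, a, k⟩ := hd
  obtain ⟨c', a', k'⟩ := he
  obtain ⟨t, ht⟩ := h.exists_tg hy
  refine h.cO k (h.pa.eq_pt (l := t) (m := a') (fun e => k'.nca (e ▸ h.fix_tg k' hy e2 ht))
    (h.fix_tg k hy e1 ht) ht.1 (h.ce_inc k k' hne hc) (h.fix_ax k' hy e2) ▸ hy)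

variable [Finite G]

theorem inv_cases' (h2 : g * g = 1) (h1 : g ≠ 1) :
    g ∈ DD G inc ∨ ∃ k, n = k ^ 2 ∧ Sub inc g k :=
  (inv_cases h.pa h.odd (sq_smul h2) (h.moves h1)).imp_left fun ⟨c, a, h3, h4, h5⟩ =>
    ⟨c, a, h3, h4, h5, h2, h1⟩

theorem mul_DD (hd : d ∈ DD G inc) (he : e ∈ DD G inc) (hne : d ≠ e) (hc : d * e = e * d) :
    d * e ∈ DD G inc := by
  obtain ⟨c, a, k⟩ := hd
  obtain ⟨c', a', k'⟩ := he
  refine (h.inv_cases' (by rw [mul_assoc, ← mul_assoc e, ← hc, mul_assoc, k'.sq, mul_one, k.sq])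
    fun e' => hne (by rw [eq_inv_of_mul_eq_one_left e', inv_eq_of_mul_eq_one_left k'.sq])).resolve_right ?_
  rintro ⟨r, -, hr⟩
  have e1 := sub_cl h.pa hr (l := a) (by rw [mul_smul, h.comm_ax k hc.symm, h.pa.ax_fix k.ax])
  obtain ⟨z, z1, z2⟩ := h.pa.meet (h.ax_ne k k' hne hc)
  have : {p | (d * e) • p = p ∧ inc p a} ⊆ {c', z} := fun p hp => by
    have e2 : e • p = p := by
      have := hp.1
      rwa [hc, mul_smul, k.ax p hp.2] at this
    exact (h.cases k' e2).symm.imp_right fun e3 => h.pa.eq_pt (h.ax_ne k k' hne hc) hp.2 z1 e3 z2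
  have e2 := (Set.ncard_le_ncard this).trans (pair_le c' z)
  have := hr.two
  omega

theorem third_DD (hd : d ∈ DD G inc) (he : e ∈ DD G inc) (hf : f ∈ DD G inc) (hne : d ≠ e)
    (hc : d * e = e * d) (c1 : f * d = d * f) (c2 : f * e = e * f) : f = d ∨ f = e ∨ f = d * e := by
  by_contra! hh
  obtain ⟨c3, a3, k3⟩ := h.mul_DD hd he hne hc
  obtain ⟨c, a, k⟩ := hd
  obtain ⟨c', a', k'⟩ := he
  obtain ⟨c2', a2, k2⟩ := hf
  refine h.ce_ne k2 k3 hh.2.2 (h.pa.eq_pt (h.ax_ne k k' hne hc) (h.ce_inc k2 k hh.1 c1)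
    (h.ce_inc k3 k (fun e' => k'.ne (by simpa using e')) (by rw [mul_assoc, ← hc]))
    (h.ce_inc k2 k' hh.2.1 c2) (h.ce_inc k3 k' (fun e' => k.ne (by simpa using e'))
      (by rw [← mul_assoc, ← hc])))

theorem fix_le (hd : d ∈ DD G inc) : {y | y ∈ O ∧ d • y = y}.ncard ≤ 2 := by
  obtain ⟨c, a, k⟩ := hd
  refine le_trans (Set.ncard_le_ncard ?_) (h.line_le a)
  exact fun y hy => ⟨hy.1, h.fix_ax k hy.1 hy.2⟩

theorem fix_one (hd : d ∈ DD G inc) (hn : n % 4 = 1) : {y | y ∈ O ∧ d • y = y}.ncard = 2 := by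
  have := h.fix_le hd
  obtain ⟨c, a, k⟩ := hd
  have e := h.even d k.sq
  unfold Nat.ModEq at e
  omega

theorem fix_three (hd : d ∈ DD G inc) (hn : n % 4 ≠ 1) (hy : y ∈ O) : d • y ≠ y := fun e' => by
  have := h.fix_le hd
  obtain ⟨c, a, k⟩ := hd
  have e := h.even d k.sq
  have := (Set.ncard_pos (s := {y | y ∈ O ∧ d • y = y})).2 ⟨y, hy, e'⟩
  obtain ⟨r, hr⟩ := h.odd
  unfold Nat.ModEq at e
  omega

theorem baer_fix (h2 : g * g = 1) {k : ℕ} (e : n = k ^ 2) (hk : Sub inc g k) :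
    {y | y ∈ O ∧ g • y = y}.ncard = k + 1 ∧ k % 4 = 1 := by
  have ev := h.even g h2
  have ko : Odd k := (Nat.odd_pow_iff two_ne_zero).1 (e ▸ h.odd)
  have n4 : n % 4 = 1 := by
    obtain ⟨r, rfl⟩ := ko
    rw [e, show (2 * r + 1) ^ 2 = 4 * (r ^ 2 + r) + 1 by ring]
    omega
  unfold Nat.ModEq at ev
  obtain ⟨x, hx, x1⟩ := (Set.ncard_pos (s := {y | y ∈ O ∧ g • y = y})).1 (by omega)
  obtain ⟨t, ht⟩ := h.exists_tg hx
  have e1 := dcount_eq {y | (y ∈ O ∧ g • y = y) ∧ y ≠ x} {l | (g • l = l ∧ inc x l) ∧ l ≠ t} inc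
    (m := 1) (n := 1) (fun y hy => by
      obtain ⟨m, m1, m2⟩ := h.pa.join hy.2
      exact Set.ncard_eq_one.2 ⟨m, Set.eq_singleton_iff_unique_mem.2
        ⟨⟨⟨⟨h.pa.fix_line hy.2 hy.1.2 x1 m1 m2, m2⟩, fun e => hy.2 (ht.2 y hy.1.1 (e ▸ m1))⟩, m1⟩,
          fun b hb => h.pa.eq_line hy.2 hb.2 hb.1.1.2 m1 m2⟩⟩)
    fun m hm => by
      have : ¬ Tg inc O m x := fun t' => hm.2 (h.tg_uniq hx t' ht)
      simp only [Tg, hm.1.2, true_and, not_forall] at this
      obtain ⟨y, y1, y2, y3⟩ := this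
      refine Set.ncard_eq_one.2 ⟨y, Set.eq_singleton_iff_unique_mem.2 ⟨⟨⟨⟨y1, ?_⟩, y3⟩, y2⟩,
        fun b hb => ((h.arc hb.1.1.1 y1 hx hb.2 y2 hm.1.2).resolve_right
          fun e => e.elim hb.1.2 y3)⟩⟩
      rcases h.arc hx y1 (h.inv g y1) hm.1.2 y2 (hm.1.1 ▸ h.pa.inv g y2) with e' | e' | e'
      · exact (y3 e'.symm).elim
      · exact (y3 (smul_left_cancel g (e'.symm.trans x1.symm))).elim
      · exact e'.symm
  have e2 := Set.ncard_sdiff_singleton_add_one (s := {y | y ∈ O ∧ g • y = y}) ⟨hx, x1⟩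
  have e3 := Set.ncard_sdiff_singleton_add_one (s := {l | g • l = l ∧ inc x l})
    ⟨h.tg_fix hx ht x1, ht.1⟩
  rw [sub_cp h.pa hk x1] at e3
  change ({y | y ∈ O ∧ g • y = y} \ {x}).ncard * 1 =
    ({l | g • l = l ∧ inc x l} \ {t}).ncard * 1 at e1
  omega

end OV

end H2.Ov
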