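import Cfsg.Agent.H2.OV1

/-! Ovals in planes of odd order: four-groups and products of homologies. -/

set_option autoImplicit false
set_option linter.unusedSectionVars false

namespace H2.Ov

open Subgroup MulAction Cfsg H19 H8.PG

universe u v w

variable {P : Type v} {L : Type w} {G : Type u} [Group G] [MulAction G P] [MulAction G L]
  {inc : P → L → Prop} {n : ℕ} [Finite P] [Finite L] [Finite G]

theorem fix_of_mul {Ω : Type*} [MulAction G Ω] {g k : G} {x : Ω} (e1 : g • x = x)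
    (e2 : (g * k) • x = x) : k • x = x :=
  smul_left_cancel g (by rw [← mul_smul, e2, e1])

theorem odd_fix {Ω : Type*} [MulAction G Ω] [Finite Ω] {X : Set Ω} (hX : X.ncard ≤ 2) {g : G}
    (ho : Odd (orderOf g)) (hg : ∀ x ∈ X, g • x ∈ X) {x : Ω} (hx : x ∈ X) : g • x = x := by
  refine mem_of_pow (H := stabilizer G x) (a := 2) (b := orderOf g) ?_
    (by rw [pow_orderOf_eq_one]; exact one_mem _) (Nat.coprime_two_left.2 ho)
  rw [mem_stabilizer_iff, sq, mul_smul]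
  by_contra hne
  have e : g • x ≠ x := fun e => hne (by rw [e, e])
  exact absurd hX (not_le.2 ((Set.two_lt_ncard (Set.toFinite _)).2 ⟨x, hx, _, hg x hx, _,
    hg _ (hg x hx), e.symm, Ne.symm hne, fun e' => e (smul_left_cancel g e').symm⟩))

theorem eq_of_two {Ω : Type*} [Finite Ω] {X : Set Ω} (hX : X.ncard ≤ 2) {x y z : Ω} (hx : x ∈ X)
    (hy : y ∈ X) (hz : z ∈ X) (h1 : y ≠ x) (h2 : z ≠ x) : y = z := by
  by_contra hne
  exact absurd hX (not_le.2 ((Set.two_lt_ncard (Set.toFinite _)).2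
    ⟨x, hx, y, hy, z, hz, h1.symm, h2.symm, hne⟩))

namespace OV

variable {O : Set P} (h : OV G inc n O) {x y z c c' : P} {l m a a' : L} {d e f g s t : G}
include h

theorem vline (t2 : t * t = 1) (hc : s * t = t * s) (e1 : s • x = x) (e2 : t • x ≠ x) :
    ∃ l, inc x l ∧ s • l = l ∧ t • l = l := by
  obtain ⟨l, l1, l2⟩ := h.pa.join e2
  exact ⟨l, l2, h.pa.fix_line e2 (comm_smul hc.symm e1) e1 l1 l2,
    h.pa.eq_line e2 (h.pa.inv t l2) (sq_smul t2 x ▸ h.pa.inv t l1) l1 l2⟩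

theorem count (s2 : s * s = 1) (t2 : t * t = 1) (hc : s * t = t * s) {k : ℕ}
    (c1 : {y | y ∈ O ∧ s • y = y}.ncard = k + 1) (c2 : {y | y ∈ O ∧ t • y = y}.ncard = k + 1)
    (c3 : {y | y ∈ O ∧ (s * t) • y = y}.ncard = k + 1) :
    3 * k + 1 ≤ 2 * {l : L | s • l = l ∧ t • l = l}.ncard := by
  set F := {y | y ∈ O ∧ s • y = y ∧ t • y = y}
  set X1 := {y | y ∈ O ∧ s • y = y} \ F
  set X2 := {y | y ∈ O ∧ t • y = y} \ F
  set X3 := {y | y ∈ O ∧ (s * t) • y = y} \ F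
  have a1 : X1.ncard + F.ncard = k + 1 := by
    rw [← c1]; exact Set.ncard_sdiff_add_ncard_of_subset fun y hy => ⟨hy.1, hy.2.1⟩
  have a2 : X2.ncard + F.ncard = k + 1 := by
    rw [← c2]; exact Set.ncard_sdiff_add_ncard_of_subset fun y hy => ⟨hy.1, hy.2.2⟩
  have a3 : X3.ncard + F.ncard = k + 1 := by
    rw [← c3]
    exact Set.ncard_sdiff_add_ncard_of_subset fun y hy => ⟨hy.1, by rw [mul_smul, hy.2.2, hy.2.1]⟩
  have a4 : (X1 ∪ X2 ∪ X3).ncard = X1.ncard + X2.ncard + X3.ncard := by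
    rw [Set.ncard_union_eq, Set.ncard_union_eq]
    · exact Set.disjoint_left.2 fun y y1 y2 => y1.2 ⟨y1.1.1, y1.1.2, y2.1.2⟩
    · refine Set.disjoint_left.2 fun y y1 y2 => y1.elim (fun y1 => y1.2 ⟨y1.1.1, y1.1.2,
        fix_of_mul y1.1.2 y2.1.2⟩) fun y1 => y1.2 ⟨y1.1.1, fix_of_mul y1.1.2 (hc ▸ y2.1.2), y1.1.2⟩
  set L1 := {l : L | (s • l = l ∧ t • l = l) ∧ ¬ ∃ y ∈ F, inc y l}
  set L2 := {l : L | (s • l = l ∧ t • l = l) ∧ ∃ y ∈ F, inc y l}
  have b : L1.ncard + L2.ncard = {l : L | s • l = l ∧ t • l = l}.ncard := by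
    rw [← Set.ncard_union_eq (Set.disjoint_left.2 fun l l1 l2 => l1.2 l2.2)]
    congr 1
    exact Set.ext fun l => ⟨fun hl => hl.elim And.left And.left, fun hl => by
      by_cases e : ∃ y ∈ F, inc y l
      exacts [Or.inr ⟨hl, e⟩, Or.inl ⟨hl, e⟩]⟩
  have two : ∀ (X : Set P) (l : L), X ⊆ O → {y | y ∈ X ∧ inc y l}.ncard ≤ 2 := fun X l hX => by
    refine le_trans (Set.ncard_le_ncard ?_) (h.line_le l)
    exact fun y hy => ⟨hX hy.1, hy.2⟩
  have nF : ∀ x ∈ O, x ∉ F → ∀ l, inc x l → s • l = l → t • l = l → l ∈ L1 :=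
    fun x hx hF l l1 l2 l3 => ⟨⟨l2, l3⟩, fun ⟨y, hy, y1⟩ => by
      have k : ∀ v : G, v • l = l → v • y = y → v • x = x := fun v v1 v2 => by
        rcases h.arc hx hy.1 (h.inv v hx) l1 y1 (v1 ▸ h.pa.inv v l1) with e | e | e
        · exact e ▸ v2
        · exact e.symm
        · exact (hF (smul_left_cancel v (v2.trans e) ▸ hy)).elim
      exact hF ⟨hx, k s l2 hy.2.1, k t l3 hy.2.2⟩⟩
  have d1 := dcount (X1 ∪ X2 ∪ X3) L1 inc (m := 1) (n := 2) (fun x hx => by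
      refine (Set.ncard_pos (Set.toFinite _)).2 ?_
      rcases hx with (hx | hx) | hx
      · obtain ⟨l, l1, l2, l3⟩ := h.vline t2 hc hx.1.2 fun e => hx.2 ⟨hx.1.1, hx.1.2, e⟩
        exact ⟨l, nF x hx.1.1 hx.2 l l1 l2 l3, l1⟩
      · obtain ⟨l, l1, l2, l3⟩ := h.vline s2 hc.symm hx.1.2 fun e => hx.2 ⟨hx.1.1, e, hx.1.2⟩
        exact ⟨l, nF x hx.1.1 hx.2 l l1 l3 l2, l1⟩
      · obtain ⟨l, l1, l2, l3⟩ := h.vline s2 (by rw [mul_assoc, hc]) hx.1.2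
          fun e => hx.2 ⟨hx.1.1, e, fix_of_mul e hx.1.2⟩
        exact ⟨l, nF x hx.1.1 hx.2 l l1 l3 (fix_of_mul l3 l2), l1⟩)
    fun l _ => two _ l fun y hy => hy.elim (fun hy => hy.elim (fun hy => hy.1.1) fun hy => hy.1.1)
      fun hy => hy.1.1
  have d2 := dcount F L2 inc (m := F.ncard) (n := 2) (fun y hy => by
      obtain ⟨b, hb⟩ := h.exists_tg hy.1
      have d3 := dcount (F \ {y}) ({l | l ∈ L2 ∧ inc y l} \ {b}) inc (m := 1) (n := 1)
        (fun z hz => by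
          obtain ⟨l, l1, l2⟩ := h.pa.join hz.2
          exact (Set.ncard_pos (Set.toFinite _)).2 ⟨l, ⟨⟨⟨⟨h.pa.fix_line hz.2 hz.1.2.1 hy.2.1 l1 l2,
            h.pa.fix_line hz.2 hz.1.2.2 hy.2.2 l1 l2⟩, y, hy, l2⟩, l2⟩,
            fun e => hz.2 (hb.2 z hz.1.1 (e ▸ l1))⟩, l1⟩)
        fun l hl => (Set.ncard_le_one (Set.toFinite _)).2 fun p hp q hq =>
          (h.arc hp.1.1.1 hq.1.1.1 hy.1 hp.2 hq.2 hl.1.2).resolve_right
            fun e => e.elim hp.1.2 hq.1.2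
      have e1 := Set.ncard_sdiff_singleton_add_one hy
      have e2 := Set.ncard_sdiff_singleton_add_one (s := {l | l ∈ L2 ∧ inc y l})
        ⟨⟨⟨h.tg_fix hy.1 hb hy.2.1, h.tg_fix hy.1 hb hy.2.2⟩, y, hy, hb.1⟩, hb.1⟩
      omega)
    fun l _ => two _ l fun y hy => hy.1
  rw [a4] at d1
  generalize F.ncard = f at *
  rcases f with _ | _ | f
  · omega
  · omega
  · nlinarith

/-- every four-group contains a homology -/
theorem four (s2 : s * s = 1) (t2 : t * t = 1) (s1 : s ≠ 1) (t1 : t ≠ 1) (hne : s ≠ t)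
    (hc : s * t = t * s) : s ∈ DD G inc ∨ t ∈ DD G inc ∨ s * t ∈ DD G inc := by
  by_contra! hh
  have r2 : s * t * (s * t) = 1 := by rw [mul_assoc, ← mul_assoc t, ← hc, mul_assoc, t2, mul_one, s2]
  obtain ⟨k, e, hk⟩ := (h.inv_cases' s2 s1).resolve_left hh.1
  obtain ⟨k2, e2, hk2⟩ := (h.inv_cases' t2 t1).resolve_left hh.2.1
  obtain ⟨k3, e3, hk3⟩ := (h.inv_cases' r2 fun e' => hne (by
    rw [eq_inv_of_mul_eq_one_left e', inv_eq_of_mul_eq_one_left t2])).resolve_left hh.2.2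
  obtain rfl : k2 = k := Nat.pow_left_injective two_ne_zero (e2.symm.trans e)
  obtain rfl : k3 = k2 := Nat.pow_left_injective two_ne_zero (e3.symm.trans e)
  obtain ⟨c1, c4⟩ := h.baer_fix s2 e hk
  have c2 := (h.baer_fix t2 e hk2).1
  have c3 := (h.baer_fix r2 e hk3).1
  let τ : N(zpowers s) := ⟨t, cent1_le_norm_zpowers s (mem_cent1.2 hc.symm)⟩
  by_cases h1 : ∃ p : FP P (zpowers s), τ • p ≠ p
  · obtain ⟨r, r1, r2⟩ := fixl hk (Nat.odd_iff.2 (by omega)) (g := τ)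
      (fun p => Subtype.ext (sq_smul t2 p.1)) h1
    have e4 := (ncard_FP (zpowers s) fun l : L => t • l = l).symm
    simp only [mem_FP_zp] at e4
    have e5 := h.count s2 t2 hc c1 c2 c3
    have e6 : {l : FP L (zpowers s) | τ • l = l} = {l : FP L (zpowers s) | t • l.1 = l} :=
      Set.ext fun l => Subtype.ext_iff
    rw [e4, ← e6, r1] at e5
    have := hk.two
    rcases r2 with rfl | rfl
    · omega
    · obtain _ | _ | _ | r := r
      · omega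
      · omega
      · omega
      · nlinarith
  push Not at h1
  have q1 : {y | y ∈ O ∧ s • y = y} = {y | y ∈ O ∧ t • y = y} :=
    Set.eq_of_subset_of_ncard_le (fun y hy => ⟨hy.1, congrArg Subtype.val
      (h1 ⟨y, mem_FP_zp.2 hy.2⟩)⟩) (by rw [c1, c2])
  have q2 : {y | y ∈ O ∧ s • y = y} = {y | y ∈ O ∧ (s * t) • y = y} :=
    Set.eq_of_subset_of_ncard_le (fun y hy => ⟨hy.1, by
      rw [mul_smul, (q1 ▸ hy : y ∈ {y | y ∈ O ∧ t • y = y}).2, hy.2]⟩) (by rw [c1, c3])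
  refine s1 (h.faithO fun x hx => ?_)
  by_contra hs
  obtain ⟨l, l1, l2⟩ := h.pa.inv_line (sq_smul s2) hs
  have l3 : t • l = l := congrArg Subtype.val (hk.triv_dual h1 ⟨l, mem_FP_zp.2 l2⟩)
  rcases h.arc hx (h.inv s hx) (h.inv t hx) l1 (l2 ▸ h.pa.inv s l1) (l3 ▸ h.pa.inv t l1)
    with e' | e' | e'
  · exact hs e'.symm
  · exact hs (q1 ▸ ⟨hx, e'.symm⟩ : x ∈ {y | y ∈ O ∧ s • y = y}).2
  · exact hs (q2 ▸ ⟨hx, by rw [mul_smul, ← e', sq_smul s2]⟩ : x ∈ {y | y ∈ O ∧ s • y = y}).2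

/-- the index two subgroup meeting the homologies in one element -/
theorem idx (hd : d ∈ DD G inc) (he : e ∈ DD G inc) (hne : d ≠ e) (hc : d * e = e * d)
    {T : Subgroup G} (hT : PG 2 T) (h1 : T ≤ C[d]) (h2 : T ≤ C[e]) :
    ∃ M : Subgroup G, M.relIndex T ∣ 2 ∧ ∀ f ∈ T, f ∈ M → f ∈ DD G inc → f = d := by
  obtain ⟨Y, y1, y2, y3⟩ : ∃ Y : Set P, ¬ 4 ∣ Y.ncard ∧ (∀ g ∈ T, ∀ y ∈ Y, g • y ∈ Y) ∧
      ∀ y ∈ Y, ∀ f ∈ T, f • y = y → f ∈ DD G inc → f = d := by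
    by_cases hn : n % 4 = 1
    · refine ⟨{y | y ∈ O ∧ d • y = y}, by rw [h.fix_one hd hn]; norm_num, fun g hg y hy =>
        ⟨h.inv g hy.1, comm_smul (mem_cent1.1 (h1 hg)) hy.2⟩, fun y hy f hf f1 f2 => ?_⟩
      by_contra hfd
      exact h.no_common f2 hd hfd (mem_cent1.1 (h1 hf)) hy.1 f1 hy.2
    obtain ⟨c, a, k⟩ := hd
    obtain ⟨c', a', k'⟩ := he
    obtain ⟨z, z1, z2⟩ := h.pa.meet (h.ax_ne k k' hne hc)
    have ca := h.ce_inc k' k hne.symm hc.symm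
    refine ⟨{y | inc y a ∧ e • y ≠ y}, ?_, fun g hg y hy => ⟨h.comm_ax k (mem_cent1.1 (h1 hg)) ▸
      h.pa.inv g hy.1, fun e' => hy.2 (smul_left_cancel g (by
        rw [← mul_smul, mem_cent1.1 (h2 hg), mul_smul, e']))⟩, fun y hy f hf f1 f2 => ?_⟩
    · have : {y | inc y a ∧ e • y ≠ y} = {y | inc y a} \ {c', z} := Set.ext fun y =>
        and_congr_right fun hy => not_congr ⟨fun e' => (h.cases k' e').symm.imp_right fun e3 =>
          h.pa.eq_pt (h.ax_ne k k' hne hc) hy z1 e3 z2, fun e' => e'.elim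
            (fun e' => e' ▸ h.ce_fix k') fun e' => e' ▸ k'.ax z z2⟩
      have e1 := Set.ncard_sdiff_add_ncard_of_subset (s := {c', z}) (t := {y | inc y a})
        (Set.pair_subset ca z1)
      rw [h.pa.cl, Set.ncard_pair fun e' : c' = z => k'.nca (e' ▸ z2)] at e1
      obtain ⟨r, hr⟩ := h.odd
      rw [this]
      omega
    · rcases h.third_DD ⟨c, a, k⟩ ⟨c', a', k'⟩ f2 hne hc (mem_cent1.1 (h1 hf))
        (mem_cent1.1 (h2 hf)) with e' | e' | e'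
      · exact e'
      · exact (hy.2 (e' ▸ f1)).elim
      · exact (hy.2 (fix_of_mul (k.ax y hy.1) (e' ▸ f1))).elim
  have : ∃ y ∈ Y, ¬ 4 ∣ (orbit T y).ncard := by
    by_contra! hh
    exact y1 (dvd_ncard T Y y2 hh)
  obtain ⟨y, hy, y4⟩ := this
  refine ⟨stabilizer G y, ?_, fun f hf f1 => y3 y hy f hf f1⟩
  rw [ncard_orbit] at y4
  obtain ⟨r, hr⟩ := (hT.relIndex (stabilizer G y)).exists_pow (relIndex_ne_zero' _ _)
  rw [hr] at y4 ⊢
  obtain _ | _ | r := r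
  · norm_num
  · norm_num
  · exact (y4 ⟨2 ^ r, by ring⟩).elim

theorem sr_line (k : Hm inc d c a) (k' : Hm inc e c' a') (hne : d ≠ e) (l1 : inc c l)
    (l2 : inc c' l) (hy : (d * e) • y = y) : inc y l ∨ inc y a ∧ inc y a' := by
  have e1 : e • y = d • y := smul_left_cancel d (by rw [← mul_smul, hy, sq_smul k.sq])
  by_cases e2 : d • y = y
  · exact (h.cases k e2).elim (fun e3 => (h.cases k' (e1.trans e2)).elim (fun e4 => Or.inr ⟨e3, e4⟩)
      fun e4 => Or.inl (e4 ▸ l2)) fun e3 => Or.inl (e3 ▸ l1)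
  obtain ⟨m, m1, m2⟩ := h.pa.join e2
  exact Or.inl (h.pa.eq_line (h.ce_ne k k' hne) (h.col k e2 m2 m1)
    (h.col k' (e1 ▸ e2) m2 (e1 ▸ m1)) l1 l2 ▸ m2)

theorem sr_le (hd : d ∈ DD G inc) (he : e ∈ DD G inc) (hne : d ≠ e) :
    {y | y ∈ O ∧ (d * e) • y = y}.ncard ≤ 2 := by
  obtain ⟨c, a, k⟩ := hd
  obtain ⟨c', a', k'⟩ := he
  obtain ⟨l, l1, l2⟩ := h.pa.join (h.ce_ne k k' hne)
  refine le_trans (Set.ncard_le_ncard fun y hy => ?_) (h.line_le l)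
  refine ⟨hy.1, (h.sr_line k k' hne l1 l2 hy.2).elim id fun e => ?_⟩
  obtain ⟨t, ht⟩ := h.exists_tg hy.1
  exact h.pa.eq_line (h.ce_ne k k' hne) (h.fix_tg k hy.1 (k.ax y e.1) ht)
    (h.fix_tg k' hy.1 (k'.ax y e.2) ht) l1 l2 ▸ ht.1

theorem sr_uniq (hd : d ∈ DD G inc) (he : e ∈ DD G inc) {p : ℕ} (hp : p.Prime) (p2 : p ≠ 2)
    (ho : orderOf (d * e) = p) (h0 : ∀ y ∈ O, (d * e) • y ≠ y) (e1 : (d * e) • y = y)
    (e2 : (d * e) • z = z) : y = z := by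
  obtain ⟨c, a, k⟩ := hd
  obtain ⟨c', a', k'⟩ := he
  have hne : d ≠ e := fun e' => hp.one_lt.ne' (by rw [← ho, ← e', k.sq, orderOf_one])
  have po : Odd (orderOf (d * e)) := ho ▸ hp.odd_of_ne_two p2
  have xp : (d * e) ^ p = 1 := ho ▸ pow_orderOf_eq_one _
  obtain ⟨l, l1, l2⟩ := h.pa.join (h.ce_ne k k' hne)
  have aa : a ≠ a' := fun e' => by
    obtain ⟨w, hw⟩ := h.pa.exists_ce (mul_mem k.ax (e' ▸ k'.ax))
    obtain ⟨u, hu, -⟩ := h.exists_off l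
    by_cases e3 : u = w
    · exact h0 u hu (e3 ▸ h.pa.dual.ax_fix hw)
    obtain ⟨m, m1, m2⟩ := h.pa.join e3
    exact h0 u hu (odd_fix (h.line_le m) po (fun x hx => ⟨h.inv _ hx.1, hw m m2 ▸ h.pa.inv _ hx.2⟩)
      ⟨hu, m1⟩)
  have n1 : n + 1 ≡ 0 [MOD p] := by
    have := smul_mod hp xp (X := O) fun x hx => h.inv _ hx
    rwa [h.card, show {x | x ∈ O ∧ (d * e) • x = x} = ∅ from
      Set.eq_empty_of_forall_notMem fun x hx => h0 x hx.1 hx.2, Set.ncard_empty] at this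
  have ln : ∀ m : L, (d * e) • m = m → p ∣ {x | inc x m ∧ (d * e) • x = x}.ncard := fun m hm => by
    have := smul_mod hp xp (X := {x | inc x m}) fun x hx => hm ▸ h.pa.inv _ hx
    rw [h.pa.cl] at this
    exact Nat.modEq_zero_iff_dvd.1 (this.symm.trans n1)
  have key : ∀ y z : P, (d * e) • y = y → (d * e) • z = z → y ≠ z → inc y l := fun y z e1 e2 e3 => by
    obtain ⟨m, m1, m2⟩ := h.pa.join e3
    have h3 : 2 < {x | inc x m ∧ (d * e) • x = x}.ncard :=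
      (lt_of_le_of_ne hp.two_le p2.symm).trans_le (Nat.le_of_dvd ((Set.ncard_pos
        (Set.toFinite _)).2 ⟨y, m1, e1⟩) (ln m (h.pa.fix_line e3 e1 e2 m1 m2)))
    obtain ⟨u, hu, v, hv, w, hw, f1, f2, f3⟩ := (Set.two_lt_ncard (Set.toFinite _)).1 h3
    have k2 : ∀ {u v : P}, inc u m → inc v m → inc u l → inc v l → u ≠ v → inc y l :=
      fun u1 v1 u2 v2 f => h.pa.eq_line f u1 v1 u2 v2 ▸ m1
    have k3 : ∀ {u v : P}, inc u a ∧ inc u a' → inc v a ∧ inc v a' → u = v :=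
      fun u1 v1 => h.pa.eq_pt aa u1.1 v1.1 u1.2 v1.2
    rcases h.sr_line k k' hne l1 l2 hu.2 with g1 | g1 <;>
      rcases h.sr_line k k' hne l1 l2 hv.2 with g2 | g2 <;>
      rcases h.sr_line k k' hne l1 l2 hw.2 with g3 | g3
    exacts [k2 hu.1 hv.1 g1 g2 f1, k2 hu.1 hv.1 g1 g2 f1, k2 hu.1 hw.1 g1 g3 f2,
      (f3 (k3 g2 g3)).elim, k2 hv.1 hw.1 g2 g3 f3, (f2 (k3 g1 g3)).elim, (f1 (k3 g1 g2)).elim,
      (f1 (k3 g1 g2)).elim]
  by_contra hyz
  have t1 := smul_mod hp xp (X := (Set.univ : Set P)) fun _ _ => trivial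
  have t2 := ln l (by rw [mul_smul, k'.ce l l2, k.ce l l1])
  rw [show {x | inc x l ∧ (d * e) • x = x} = {x | x ∈ Set.univ ∧ (d * e) • x = x} from
    Set.ext fun x => ⟨fun hx => ⟨trivial, hx.2⟩, fun hx => ⟨by
      by_cases e3 : x = y
      exacts [e3 ▸ key y z e1 e2 hyz, key x y hx.2 e1 e3], hx.2⟩⟩] at t2
  rw [Set.ncard_univ, h.pa.card_P] at t1
  have t3 := Nat.modEq_zero_iff_dvd.1 (t1.trans (Nat.modEq_zero_iff_dvd.2 t2))
  rw [show n ^ 2 + n + 1 = (n + 1) * n + 1 by ring] at t3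
  exact hp.one_lt.ne' (Nat.dvd_one.1
    ((Nat.dvd_add_right ((Nat.modEq_zero_iff_dvd.1 n1).mul_right n)).1 t3))

/-- a product of two homologies of odd prime order centralizes no four-group of homologies -/
theorem critK (hd : d ∈ DD G inc) (he : e ∈ DD G inc) {p : ℕ} (hp : p.Prime) (p2 : p ≠ 2)
    (ho : orderOf (d * e) = p) (hs : s ∈ DD G inc) (ht : t ∈ DD G inc) (hne : s ≠ t)
    (hc : s * t = t * s) (c1 : d * e * s = s * (d * e)) (c2 : d * e * t = t * (d * e)) : False := by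
  have po : Odd (orderOf (d * e)) := ho ▸ hp.odd_of_ne_two p2
  have le := h.sr_le hd he fun e' => by
    obtain ⟨c, a, k⟩ := hd
    exact hp.one_lt.ne' (by rw [← ho, ← e', k.sq, orderOf_one])
  by_cases hn : n % 4 = 1
  · have k : ∀ s ∈ DD G inc, d * e * s = s * (d * e) →
        {y | y ∈ O ∧ s • y = y} ⊆ {y | y ∈ O ∧ (d * e) • y = y} := fun s hs c1 y hy =>
      ⟨hy.1, odd_fix (h.fix_le hs) po (fun x hx => ⟨h.inv _ hx.1, comm_smul c1 hx.2⟩) hy⟩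
    have := (Set.ncard_le_ncard (Set.union_subset (k s hs c1) (k t ht c2))).trans le
    rw [Set.ncard_union_eq (Set.disjoint_left.2 fun y y1 y2 =>
      h.no_common hs ht hne hc y1.1 y1.2 y2.2), h.fix_one hs hn, h.fix_one ht hn] at this
    omega
  by_cases h0 : ∀ y ∈ O, (d * e) • y ≠ y
  · obtain ⟨c, a, k⟩ := hs
    obtain ⟨c', a', k'⟩ := ht
    exact h.ce_ne k k' hne (h.sr_uniq hd he hp p2 ho h0 (h.comm_ce k c1) (h.comm_ce k' c2))
  push Not at h0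
  obtain ⟨y, hy, y1⟩ := h0
  have := eq_of_two le ⟨hy, y1⟩ ⟨h.inv s hy, comm_smul c1.symm y1⟩ ⟨h.inv t hy, comm_smul c2.symm y1⟩
    (h.fix_three hs hn hy) (h.fix_three ht hn hy)
  obtain ⟨c, a, k⟩ := id hs
  exact h.fix_three (h.mul_DD hs ht hne hc) hn hy (by rw [mul_smul, ← this, sq_smul k.sq])

/-- exclusion of `p² : D₈` acting as on a plane over a finite field -/
theorem critN {j x : G} {p : ℕ} (hp : p.Prime) (p2 : p ≠ 2) (ho : orderOf x = p)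
    (h1 : j * j ∈ DD G inc) (h2 : j * j * x ∈ DD G inc) (ht : t ∈ DD G inc)
    (c1 : j * t * j⁻¹ = t * (j * j)) (c2 : x * t = t * x)
    (c3 : x * (j * x * j⁻¹) = j * x * j⁻¹ * x) : False := by
  obtain ⟨c, a, k⟩ := id h1
  obtain ⟨c', a', k'⟩ := id h2
  obtain ⟨ct, b, kt⟩ := id ht
  have ex : j * j * (j * j * x) = x := by rw [← mul_assoc, k.sq, one_mul]
  have hne : j * j ≠ j * j * x := fun e => hp.one_lt.ne' (by
    rw [← ho, left_eq_mul.1 e, orderOf_one])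
  have le := h.sr_le h1 h2 hne
  rw [ex] at le
  have c4 : j * j * t = t * (j * j) := by
    have e := (h.J kt j).sq
    rw [c1] at e
    rw [← inv_eq_of_mul_eq_one_left e, mul_inv_rev, inv_eq_of_mul_eq_one_left k.sq,
      inv_eq_of_mul_eq_one_left kt.sq]
  have jF : ∀ y ∈ {y | y ∈ O ∧ x • y = y}, j⁻¹ • y ∈ {y | y ∈ O ∧ x • y = y} := fun y hy => by
    refine ⟨h.inv _ hy.1, ?_⟩
    have := odd_fix le (g := j * x * j⁻¹) (by
      rw [← MulAut.conj_apply, MulEquiv.orderOf_eq, ho]; exact hp.odd_of_ne_two p2)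
      (fun z hz => ⟨h.inv _ hz.1, comm_smul c3.symm hz.2⟩) hy
    rwa [mul_smul, mul_smul, smul_eq_iff_eq_inv_smul] at this
  by_cases h0 : ∀ y ∈ O, x • y ≠ y
  · have u := fun {y z : P} => h.sr_uniq (y := y) (z := z) h1 h2 hp p2 (ex.symm ▸ ho) (ex.symm ▸ h0)
    rw [ex] at u
    have e1 := h.comm_ce kt c2
    have e2 : (j * x * j⁻¹) • ct = ct := u (comm_smul c3.symm e1) e1
    rw [mul_smul, mul_smul, smul_eq_iff_eq_inv_smul] at e2
    have e3 := h.comm_of_ce kt (inv_smul_eq_iff.1 (u e2 e1)).symm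
    rw [e3, mul_inv_cancel_right] at c1
    exact k.ne (left_eq_mul.1 c1)
  push Not at h0
  obtain ⟨y, hy, y1⟩ := h0
  have hF : ∀ y ∈ {y | y ∈ O ∧ x • y = y}, (j * j) • y = y := fun y hy => by
    rw [mul_smul, smul_eq_iff_eq_inv_smul, smul_eq_iff_eq_inv_smul]
    by_contra e
    have e' : j⁻¹ • y ≠ y := fun e' => e (by rw [e', e'])
    exact e' (smul_left_cancel j⁻¹ (eq_of_two le hy (jF _ (jF y hy)) (jF y hy) (Ne.symm e) e'))
  have ty : t • y ∈ {y | y ∈ O ∧ x • y = y} := ⟨h.inv t hy, comm_smul c2.symm y1⟩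
  have tn : t • y ≠ y := h.no_common h1 ht (fun e => kt.ne (by
    rw [← e, k.sq] at c1
    rw [← e, ← c1]; group)) c4 hy (hF y ⟨hy, y1⟩)
  obtain ⟨l, hl⟩ := h.exists_tg hy
  obtain ⟨m, hm⟩ := h.exists_tg ty.1
  have lm : l ≠ m := fun e => tn (hl.2 _ ty.1 (e ▸ hm.1))
  refine h.ce_ne k k' hne (h.pa.eq_pt lm (h.fix_tg k hy (hF y ⟨hy, y1⟩) hl)
    (h.fix_tg k' hy (by rw [mul_smul, y1, hF y ⟨hy, y1⟩]) hl) (h.fix_tg k ty.1 (hF _ ty) hm)
    (h.fix_tg k' ty.1 (by rw [mul_smul, ty.2, hF _ ty]) hm))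

end OV

end H2.Ov
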