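import Cfsg.Agent.H2.OV3

/-! A normal set of involutions behaving like the homologies preserving an oval, II. -/

set_option autoImplicit false
set_option linter.unusedSectionVars false

namespace H2.Ov

open Subgroup MulAction Cfsg H19 H8.PG

universe u

variable {G : Type u} [Group G] [Finite G] {D : Set G}
  {a b c c' d e f g h r s t u v w x y z τ : G} {M S T U W : Subgroup G}

/-- an involution of `S` outside `D` -/
structure Bv (D : Set G) (S : Subgroup G) (b : G) : Prop where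
  mem : b ∈ S
  sq : b * b = 1
  ne : b ≠ 1
  nD : b ∉ D

theorem cmt (h : a * b * a⁻¹ = b) : a * b = b * a := mul_inv_eq_iff_eq_mul.1 h

theorem cmt' (h : a * b = b * a) : a * b * a⁻¹ = b := mul_inv_eq_iff_eq_mul.2 h

theorem cmJ (h : a * (s⁻¹ * b * s⁻¹⁻¹) = s⁻¹ * b * s⁻¹⁻¹ * a) :
    s * a * s⁻¹ * b = b * (s * a * s⁻¹) :=
  calc _ = s * (a * (s⁻¹ * b * s⁻¹⁻¹)) * s⁻¹ := by group
    _ = _ := by rw [h]; group

theorem Bv.J (k : HD D) (hb : Bv D S b) (hg : g * b * g⁻¹ ∈ S) : Bv D S (g * b * g⁻¹) :=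
  ⟨hg, conj_sq hb.sq g, mt conj_eq_one_iff.1 hb.ne, fun e => hb.nD (k.conj' e)⟩

theorem Bv.mul (k : HD D) (hb : Bv D S b) (ha : Bv D S a) (hc : b * a = a * b) :
    b * a = 1 ∨ b * a ∈ D := by
  by_cases e : b = a
  · exact Or.inl (e ▸ hb.sq)
  · exact Or.inr (((k.four hb.sq ha.sq hb.ne ha.ne e hc).resolve_left hb.nD).resolve_left ha.nD)

theorem Bv.mulD (k : HD D) (hb : Bv D S b) (hd : d ∈ D) (dS : d ∈ S) (hc : b * d = d * b) :
    Bv D S (b * d) :=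
  ⟨mul_mem hb.mem dS, sq_mul2 hb.sq (k.sq hd) hc, fun e => hb.nD (by
    rwa [eq_inv_of_mul_eq_one_left e, inv2 (k.sq hd)]), fun e => hb.nD (by
    simpa only [mul_assoc, k.sq hd, mul_one] using k.mul e hd (fun e => hb.ne (mul_eq_right.1 e))
      (by rw [mul_assoc, ← mul_assoc d, ← hc, mul_assoc]))⟩

theorem Cp.quat (k : Cp D d e T U) : (∀ x ∈ T, ∀ y ∈ T, x * y = y * x) ∨
    ∃ t ∈ U, ∃ u ∈ U, t * t ≠ 1 ∧ t * t * (t * t) = 1 ∧ u * u = t * t ∧ t * u * (t * u) ≠ 1 := by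
  have : Fact (Nat.Prime 2) := ⟨Nat.prime_two⟩
  have hU := (k.pg.of_le k.le).isPGroup
  have o : ∀ x : U, orderOf x = 2 → x.1 * x.1 = 1 ∧ x.1 ≠ 1 := fun x hx =>
    ⟨congrArg Subtype.val (show x * x = 1 by rw [← pow_two, ← hx, pow_orderOf_eq_one]), fun e => by
      rw [show x = 1 from Subtype.ext e] at hx; simp at hx⟩
  rcases H4.cyclic_or_quaternion hU (H4.isCyclic_of_unique hU fun x y hx hy => by
    rw [Subtype.ext (k.uq x.2 y.2 (o x hx).1 (o y hy).1 (o x hx).2 (o y hy).2)]) with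
    hc | ⟨-, n, hn, ⟨φ⟩⟩
  · refine Or.inl fun x hx y hy => ?_
    obtain ⟨v, v1, v2⟩ := k.dec x hx
    obtain ⟨w, w1, w2⟩ := k.dec y hy
    have := mul_comm_of_comm (comm_of_cyclic hc) v2 w2
    rw [← mul_assoc (v * x), k.vc w1 (k.le v2), mul_assoc w, mul_assoc w, ← mul_assoc y,
      k.vc v1 hy, mul_assoc v, mul_assoc v] at this
    exact mul_left_cancel (mul_left_cancel this)
  obtain ⟨n, rfl⟩ : ∃ m, n = m + 1 := ⟨n - 1, by omega⟩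
  have n1 : (QuaternionGroup.a (2 ^ (n + 1) : ℕ) : QuaternionGroup (2 ^ (n + 1))) ≠ 1 := fun e => by
    have := (ZMod.natCast_eq_zero_iff _ _).1 (QuaternionGroup.a.inj e)
    exact absurd (Nat.le_of_dvd (by positivity) this) (by have : 0 < 2 ^ (n + 1) := by positivity
                                                          omega)
  have k1 : ∀ x : QuaternionGroup (2 ^ (n + 1)), x * x = QuaternionGroup.a (2 ^ (n + 1) : ℕ) →
      (φ.symm x).1 * (φ.symm x).1 = φ.symm (QuaternionGroup.a (2 ^ (n + 1) : ℕ)) := fun x hx => by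
    rw [← coe_mul, ← map_mul, hx]
  have k2 : (φ.symm (QuaternionGroup.a (2 ^ (n + 1) : ℕ))).1 ≠ 1 := fun e =>
    n1 (φ.symm.map_eq_one_iff.1 (Subtype.ext e))
  have k3 : ∀ i, (QuaternionGroup.xa i : QuaternionGroup (2 ^ (n + 1))) * QuaternionGroup.xa i =
      QuaternionGroup.a (2 ^ (n + 1) : ℕ) := fun i => by rw [← pow_two, QuaternionGroup.xa_sq]
  refine Or.inr ⟨_, (φ.symm (QuaternionGroup.xa 0)).2, _, (φ.symm (QuaternionGroup.a (2 ^ n : ℕ))).2,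
    by rwa [k1 _ (k3 0)], ?_, ?_, ?_⟩
  · rw [← pow_two, ← pow_two, ← pow_mul, ← coe_pow, ← map_pow, QuaternionGroup.xa_pow_four, map_one, coe_one]
  · rw [k1 _ (k3 0), k1]
    rw [QuaternionGroup.a_mul_a, ← Nat.cast_add, pow_succ, mul_two]
  · rwa [← coe_mul, ← map_mul, QuaternionGroup.xa_mul_a, k1 _ (k3 _)]

namespace WS

variable (k : WS D S h τ c)
include k

theorem t2 : τ * τ = 1 := k.hd.sq k.τD
theorem h2 : h * h = 1 := k.hd.sq k.hD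
theorem h1 : h ≠ 1 := k.hd.ne k.hD
theorem τh : τ ≠ h := ((k.DS τ k.τS).2 (k.t2 ▸ one_mem _)).2
theorem pc : PiE {2} c := k.syl.pi.elt k.cS
theorem c1 : c ≠ 1 := fun e => k.h1 (by simpa [e] using k.hc)
theorem CS : zpowers c ≤ S := zpowers_le.2 k.cS
theorem ch (hs : s ∈ S) : s * h = h * s := mem_cent1.1 (k.hZ hs)

theorem Y (hx : x ∈ zpowers c) : τ * x ∈ S ∧ τ * x ∈ D ∧ τ * x ≠ h :=
  have := mul_mem k.τS (k.CS hx)
  ⟨this, (k.DS _ this).2 (by rwa [can2 k.t2])⟩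

theorem Y' (hf : f ∈ S) (fD : f ∈ D) (f1 : f ≠ h) : ∃ x ∈ zpowers c, f = τ * x :=
  ⟨_, (k.DS f hf).1 ⟨fD, f1⟩, (can2 k.t2 f).symm⟩

theorem C2 (hx : x ∈ zpowers c) (x2 : x * x = 1) : x = 1 ∨ x = h :=
  or_iff_not_imp_left.2 fun x1 =>
    ((zp_two x2 (zp_mem k.pc k.hc k.h2 hx x1)).resolve_left k.h1).symm

theorem cτ (hx : x ∈ zpowers c) : x * τ * x⁻¹ = τ * (x * x)⁻¹ := by
  rw [mul_inv_rev, conj_sq_inv (zp_inv k.inv (inv_mem hx)), inv_inv]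

theorem JY (hf : f ∈ S) (fD : f ∈ D) (f1 : f ≠ h) (hs : s ∈ S) :
    ∃ x ∈ zpowers c, s * f * s⁻¹ = τ * x :=
  k.Y' (mul_mem (mul_mem hs hf) (inv_mem hs)) (k.hd.conj fD s) fun e => f1 (by
    rw [mul_inv_eq_iff_eq_mul, ← k.ch hs] at e
    exact mul_left_cancel e)

theorem nC : S ≤ N(zpowers c) := fun s hs => mem_norm_of_cj_le (by
  obtain ⟨x, hx, e1⟩ := k.JY k.τS k.τD k.τh hs
  obtain ⟨y, hy, e2⟩ := k.JY (k.Y (mem_zpowers c)).1 (k.Y (mem_zpowers c)).2.1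
    (k.Y (mem_zpowers c)).2.2 hs
  rw [← conj_mul, e1, mul_assoc, mul_right_inj, ← eq_inv_mul_iff_mul_eq] at e2
  rw [cj_zpowers, zpowers_le, e2]
  exact mul_mem (inv_mem hx) hy)

theorem JC (hs : s ∈ S) (hx : x ∈ zpowers c) : s * x * s⁻¹ ∈ zpowers c :=
  conj_mem_of_norm (k.nC hs) hx

theorem regen (e : zpowers c' = zpowers c) : WS D S h τ c' :=
  have := e ▸ mem_zpowers c'
  ⟨k.hd, k.syl, k.hD, k.hS, k.hZ, k.τS, k.τD, k.CS this, zp_inv k.inv this, e ▸ k.hc, e ▸ k.DS⟩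

theorem shift (hx : x ∈ zpowers c) : WS D S h (τ * x) c :=
  ⟨k.hd, k.syl, k.hD, k.hS, k.hZ, (k.Y hx).1, (k.Y hx).2.1, k.cS, by
    rw [← k.inv, mul_assoc τ, zp_comm hx (mem_zpowers c)]; group, k.hc, fun f hf => by
    rw [k.DS f hf, show τ * x * f = τ * x * τ⁻¹ * (τ * f) by group, zp_inv k.inv hx,
      mul_mem_cancel_left (inv_mem hx)]⟩

theorem shift' (hf : f ∈ S) (fD : f ∈ D) (f1 : f ≠ h) : WS D S h f c := by
  obtain ⟨x, hx, rfl⟩ := k.Y' hf fD f1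
  exact k.shift hx

theorem DW (hf : f ∈ S) (fD : f = 1 ∨ f ∈ D) : f ∈ zpowers c ⊔ zpowers τ := by
  rcases fD with rfl | fD
  · exact one_mem _
  by_cases e : f = h
  · exact mem_sup_left (e ▸ k.hc)
  · exact (mem_W k.inv k.t2).2 (Or.inr ((k.DS f hf).1 ⟨fD, e⟩))

theorem WD (hw : w ∈ zpowers c ⊔ zpowers τ) (w2 : w * w = 1) : w = 1 ∨ w ∈ D :=
  ((mem_W k.inv k.t2).1 hw).elim (fun e => (k.C2 e w2).imp_right fun e : w = h => e ▸ k.hD)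
    fun e => Or.inr (can2 k.t2 w ▸ (k.Y e).2.1)

theorem nW : S ≤ N(zpowers c ⊔ zpowers τ) := fun s hs => mem_norm_of_cj_le (by
  rw [cj_sup, cj_of_mem_norm (k.nC hs), cj_zpowers]
  exact sup_le le_sup_left (zpowers_le.2 (k.DW (mul_mem (mul_mem hs k.τS) (inv_mem hs))
    (Or.inr (k.hd.conj k.τD s)))))

theorem cp : ∃ U, Cp D h τ (S ⊓ C[τ]) U := k.hd.cpS k.syl.pi k.hD k.hS k.hZ k.τS k.τD k.τh

theorem cenT (hx : x ∈ S ⊓ C[τ]) (x2 : x * x = 1) (hy : y ∈ S ⊓ C[τ]) : y * x = x * y :=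
  let ⟨_, hU⟩ := k.cp
  hU.cen hx x2 hy

theorem sqh (hy : y ∈ S) (e : y * τ = τ * y) : y * y ≠ h := fun e' =>
  let ⟨_, hU⟩ := k.cp
  hU.nD _ (e' ▸ hU.sq y ⟨hy, mem_cent1.2 e⟩) k.hD

theorem cenD (z1 : z * τ = τ * z) (z2 : z * c = c * z) (hf : f ∈ S) (fD : f ∈ D) :
    z * f = f * z := by
  by_cases e : f = h
  · exact zp_cen z2 (e ▸ k.hc)
  obtain ⟨x, hx, rfl⟩ := k.Y' hf fD e
  rw [← mul_assoc, z1, mul_assoc, zp_cen z2 hx, mul_assoc]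

theorem cenJ (z1 : z * τ = τ * z) (z2 : z * c = c * z) (hs : s ∈ S) :
    s * z * s⁻¹ * τ = τ * (s * z * s⁻¹) ∧ s * z * s⁻¹ * c = c * (s * z * s⁻¹) :=
  ⟨cmJ (k.cenD z1 z2 (mul_mem (mul_mem (inv_mem hs) k.τS) (inv_mem (inv_mem hs)))
    (k.hd.conj k.τD _)), cmJ (zp_cen z2 (k.JC (inv_mem hs) (mem_zpowers c)))⟩

theorem inW (hb : Bv D S b) (ha : Bv D S a) (hc : b * a = a * b) :
    b⁻¹ * a ∈ zpowers c ⊔ zpowers τ := by
  rw [inv2 hb.sq]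
  exact k.DW (mul_mem hb.mem ha.mem) (hb.mul k.hd ha hc)

theorem nsq (hy : y ∈ zpowers c) : c ≠ y * y := zp_nsq k.pc k.c1 hy

theorem fixτ (hs : s ∈ S) (hy : y ∈ zpowers c) (e : s * τ * s⁻¹ = τ * (y * y)) :
    y * s ∈ S ⊓ C[τ] :=
  ⟨mul_mem (k.CS hy) hs, mem_cent1.2 (cmt (by
    rw [show y * s * τ * (y * s)⁻¹ = y * (s * τ * s⁻¹) * y⁻¹ by group, e,
      conj_sq_inv (zp_inv k.inv hy)]; group))⟩

theorem dich : (∀ s ∈ S, ∃ y ∈ zpowers c, y * s ∈ S ⊓ C[τ]) ∨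
    ∃ s ∈ S, ∃ c', WS D S h τ c' ∧ s * τ * s⁻¹ = τ * c' := by
  refine or_iff_not_imp_right.2 fun hh s hs => ?_
  obtain ⟨x, hx, e⟩ := k.JY k.τS k.τD k.τh hs
  obtain ⟨y, hy, rfl | rfl⟩ := zp_par hx
  · exact ⟨y, hy, k.fixτ hs hy e⟩
  · exact (hh ⟨s, hs, _, k.regen (zp_gen k.pc k.c1 hy), e⟩).elim

theorem dich2 (hs : s ∈ S) (es : s * τ * s⁻¹ = τ * c) (ha : a ∈ S) :
    ∃ y ∈ zpowers c, y * a ∈ S ⊓ C[τ] ∨ y * (s⁻¹ * a) ∈ S ⊓ C[τ] := by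
  obtain ⟨x, hx, e⟩ := k.JY k.τS k.τD k.τh ha
  obtain ⟨y, hy, rfl | rfl⟩ := zp_par hx
  · exact ⟨y, hy, Or.inl (k.fixτ ha hy e)⟩
  · refine ⟨_, k.JC (inv_mem hs) hy, Or.inr (k.fixτ (mul_mem (inv_mem hs) ha)
      (k.JC (inv_mem hs) hy) ?_)⟩
    rw [show s⁻¹ * a * τ * (s⁻¹ * a)⁻¹ = s⁻¹ * (a * τ * a⁻¹) * s by group, e, ← mul_assoc τ, ← es]
    group

theorem nstar (es : s * τ * s⁻¹ = τ * c) (hy : y ∈ zpowers c) : y * s ∉ C[τ] := fun e => by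
  have : s * τ * s⁻¹ = y⁻¹ * τ * y⁻¹⁻¹ := by
    conv_rhs => rw [← cmt' (mem_cent1.1 e)]
    group
  rw [es, ← conj_sq_inv (zp_inv k.inv hy)] at this
  exact k.nsq hy (mul_left_cancel this)

theorem sqs (hs : s ∈ S) (es : s * τ * s⁻¹ = τ * c) : ∃ y ∈ zpowers c, y * (s * s) ∈ S ⊓ C[τ] := by
  obtain ⟨y, hy, e⟩ := k.dich2 hs es (mul_mem hs hs)
  exact ⟨y, hy, e.resolve_right fun e => k.nstar es hy (by simpa using e.2)⟩

theorem rho (c2 : c * c ≠ 1) : ∃ r ∈ zpowers c, r * r = h := by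
  obtain ⟨i, hi⟩ := zp_mem k.pc k.hc k.h2 (mul_mem (mem_zpowers c) (mem_zpowers c)) c2
  exact ⟨c ^ i, zpow_mem (mem_zpowers c) i, by rw [← (Commute.refl c).mul_zpow]; exact hi⟩

theorem rτ (hr : r ∈ zpowers c) (r2 : r * r = h) : r * τ * r⁻¹ = τ * h := by
  rw [k.cτ hr, r2, inv2 k.h2]

theorem cen_r (hr : r ∈ zpowers c) (r2 : r * r = h) (ht : t ∈ S) (t1 : t * r = r * t)
    (t2 : t * t * c = c * (t * t)) : t * c * t⁻¹ = c ∨ t * c * t⁻¹ = c * h := by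
  have hx := mul_mem (inv_mem (mem_zpowers c)) (k.JC ht (mem_zpowers c))
  have e : t * (c⁻¹ * (t * c * t⁻¹)) * t⁻¹ = (c⁻¹ * (t * c * t⁻¹))⁻¹ := by
    calc _ = t * c⁻¹ * t⁻¹ * (t * t * c) * (t * t)⁻¹ := by group
      _ = _ := by rw [t2]; group
  refine (k.C2 hx ?_).imp (fun e => (inv_mul_eq_one.1 e).symm) fun e => inv_mul_eq_iff_eq_mul.1 e
  rcases zp_total k.pc hx hr with e' | e'
  · rw [cmt' (zp_cen t1 e')] at e
    exact mul_eq_one_iff_eq_inv.2 e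
  · have := zp_inv e e'
    rw [cmt' t1] at this
    exact (k.h1 (r2 ▸ mul_eq_one_iff_eq_inv.2 this)).elim

theorem c_eq (c2 : c * c = 1) : c = h := (k.C2 (mem_zpowers c) c2).resolve_left k.c1

theorem vr (hr : r ∈ zpowers c) (r2 : r * r = h) (hv : Vq h τ v) (e : r * v * r⁻¹ = v) :
    v = 1 ∨ v = h := by
  rcases hv with rfl | rfl | rfl | rfl
  · exact Or.inl rfl
  · exact Or.inr rfl
  · exact (k.h1 (mul_eq_left.1 (k.rτ hr r2 ▸ e))).elim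
  · rw [← conj_mul, k.rτ hr r2, cmt' (k.ch (k.CS hr)), mul_right_inj] at e
    exact (k.h1 (mul_eq_left.1 e)).elim

theorem exB (hU : Cp D h τ (S ⊓ C[τ]) U) (hb : b ∈ U) (b2 : b * b = 1) (b1 : b ≠ 1) :
    ∃ v, Vq h τ v ∧ Bv D S (b * v) ∧ b * v * τ = τ * (b * v) ∧ b * v * c = c * (b * v) := by
  have bT := hU.le hb
  have B : Bv D S b := ⟨bT.1, b2, b1, hU.nD b hb⟩
  have bτ : b * τ = τ * b := mem_cent1.1 bT.2
  by_cases c2 : c * c = 1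
  · exact ⟨1, Or.inl rfl, by simpa using B, by simpa using bτ, by
      simpa [k.c_eq c2] using k.ch bT.1⟩
  obtain ⟨r, hr, r2⟩ := k.rho c2
  have rS := k.CS hr
  have fin : ∀ b, Bv D S b → r * b * r⁻¹ = b → b * τ = τ * b → b * c = c * b := fun b B e e' => by
    refine (k.cen_r hr r2 B.mem (cmt e).symm (by simp [B.sq])).elim cmt fun e2 => ?_
    refine ((k.shift (mem_zpowers c)).sqh (mul_mem B.mem rS) (cmt ?_) ?_).elim
    · calc _ = b * (r * τ * r⁻¹) * b⁻¹ * (b * (r * c * r⁻¹) * b⁻¹) := by group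
        _ = _ := by
          rw [k.rτ hr r2, cmt' (zp_comm hr (mem_zpowers c)), e2, ← conj_mul, cmt' e',
            cmt' (k.ch B.mem), k.ch k.cS, mul_assoc, can2 k.h2]
    · rw [mul_assoc, ← mul_assoc r, cmt e, mul_assoc, can2 B.sq, r2]
  have B1 := B.J k.hd (mul_mem (mul_mem rS bT.1) (inv_mem rS))
  obtain ⟨v, v1, v2⟩ := hU.nD_eq hb b2 b1 ⟨B1.mem, mem_cent1.2 (cmJ (by
    rw [k.cτ (inv_mem hr), ← mul_inv_rev, r2, inv_inv, ← mul_assoc, bτ, mul_assoc, k.ch bT.1,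
      mul_assoc]))⟩ B1.sq B1.ne B1.nD
  have v3 : r * v * r⁻¹ = v := by
    have : r * (r * b * r⁻¹) * r⁻¹ = b := by
      calc _ = r * r * b * (r * r)⁻¹ := by group
        _ = b := by rw [r2, cmt' (k.ch bT.1).symm]
    rw [v2, ← conj_mul, v2, ← mul_assoc, mul_eq_right, mul_eq_one_iff_eq_inv,
      inv2 (hU.vsq v1)] at this
    exact this
  rcases k.vr hr r2 v1 v3 with rfl | rfl
  · rw [one_mul] at v2
    exact ⟨1, v1, by simpa using B, by simpa using bτ, by simpa using fin b B v2 bτ⟩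
  · have B2 := B.mulD k.hd k.τD k.τS bτ
    have e : b * τ * τ = τ * (b * τ) := by rw [← mul_assoc, bτ]
    exact ⟨τ, Or.inr (Or.inr (Or.inl rfl)), B2, e, fin _ B2 (by
      rw [← conj_mul, v2, k.rτ hr r2, ← k.ch bT.1, k.ch k.τS, mul_assoc, can2 k.h2]) e⟩

theorem abel (NZ : ∀ z ∈ S, z * τ = τ * z → z * c = c * z → z * z = 1) :
    ∀ x ∈ S ⊓ C[τ], ∀ y ∈ S ⊓ C[τ], x * y = y * x := by
  obtain ⟨U, hU⟩ := k.cp
  refine hU.quat.resolve_right ?_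
  rintro ⟨t, ht, u, hu, t1, t2, u1, u2⟩
  have tT := hU.le ht
  have uT := hU.le hu
  by_cases c2 : c * c = 1
  · exact t1 (NZ t tT.1 (mem_cent1.1 tT.2) (k.c_eq c2 ▸ k.ch tT.1))
  obtain ⟨r, hr, r2⟩ := k.rho c2
  obtain ⟨v, v1, -, -, v4⟩ := k.exB hU (mul_mem ht ht) t2 t1
  have sw : ∀ {w t}, Vq h τ w → t ∈ S ⊓ C[τ] → w * t * (w * t) = t * t := fun {w t} w1 ht => by
    rw [mul_assoc, ← mul_assoc t w, hU.vc w1 ht, mul_assoc, can2 (hU.vsq w1)]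
  have key : ∀ a ∈ S ⊓ C[τ], a * a = t * t → ∃ w, Vq h τ w ∧ w * a * c * (w * a)⁻¹ = c * h := by
    intro a ha a2
    obtain ⟨w, w1, w2⟩ : ∃ w, Vq h τ w ∧ w * a * r = r * (w * a) := by
      have x1 := k.JC ha.1 hr
      rcases k.C2 (mul_mem x1 (inv_mem hr)) (by
        rw [mul_assoc, ← mul_assoc r⁻¹, ← zp_comm x1 (inv_mem hr), mul_assoc _ r⁻¹,
          ← mul_assoc _ _ (r⁻¹ * r⁻¹), conj_mul, ← mul_inv_rev, r2, cmt' (k.ch ha.1), mul_inv_cancel]) with e | e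
      · exact ⟨1, Or.inl rfl, by rw [one_mul]; exact cmt (mul_inv_eq_one.1 e)⟩
      · refine ⟨τ, Or.inr (Or.inr (Or.inl rfl)), cmt ?_⟩
        rw [show τ * a * r * (τ * a)⁻¹ = τ * (a * r * a⁻¹) * τ⁻¹ by group, zp_inv k.inv x1,
          mul_inv_eq_iff_eq_mul.1 e, inv_eq_iff_mul_eq_one, mul_assoc, r2, k.h2]
    have m := mul_mem (hU.vT w1) ha
    have q : t * t * r = r * (t * t) := by
      rw [← a2, ← sw w1 ha, mul_assoc, w2, ← mul_assoc, w2, mul_assoc]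
    have q2 : t * t * c = c * (t * t) := by
      have : r * v * r⁻¹ = v := by
        have := cmt' (zp_cen v4 hr).symm
        rwa [← conj_mul, cmt' q.symm, mul_right_inj] at this
      rcases k.vr hr r2 v1 this with rfl | rfl
      · simpa using v4
      · rwa [mul_assoc _ v, ← k.ch k.cS, ← mul_assoc, ← mul_assoc c, mul_left_inj] at v4
    exact ⟨w, w1, (k.cen_r hr r2 m.1 w2 (by rwa [sw w1 ha, a2])).resolve_left fun e =>
      t1 (by rw [← a2, ← sw w1 ha]; exact NZ _ m.1 (mem_cent1.1 m.2) (cmt e))⟩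
  obtain ⟨w, w1, w2⟩ := key t tT rfl
  obtain ⟨w', w3, w4⟩ := key u uT u1
  have m := mul_mem (hU.vT w1) tT
  have m' := mul_mem (hU.vT w3) uT
  have := NZ _ (mul_mem m m').1 (mem_cent1.1 (mul_mem m m').2) (cmt (by
    rw [show w * t * (w' * u) * c * (w * t * (w' * u))⁻¹ =
      w * t * (w' * u * c * (w' * u)⁻¹) * (w * t)⁻¹ by group, w4, ← conj_mul, w2, cmt' (k.ch m.1),
      mul_assoc, k.h2, mul_one]))
  rw [show w * t * (w' * u) = w * (w' * (t * u)) by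
    rw [mul_assoc, ← mul_assoc t, hU.vc w3 tT, mul_assoc], sw w1 (mul_mem (hU.vT w3)
      (mul_mem tT uT)), sw w3 (mul_mem tT uT)] at this
  exact u2 this

end WS

end H2.Ov
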