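import Cfsg.Agent.H2.OV4

/-! A normal set of involutions behaving like the homologies preserving an oval, III. -/

set_option autoImplicit false
set_option linter.unusedSectionVars false

namespace H2.Ov

open Subgroup MulAction Cfsg H19 H8.PG

universe u

variable {G : Type u} [Group G] [Finite G] {D : Set G}
  {a b c c' d e f g h r s t u v w x y z τ : G} {M S T U W : Subgroup G}

theorem cm_symm (h : a * b * a⁻¹ * b⁻¹ ∈ W) : b * a * b⁻¹ * a⁻¹ ∈ W := by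
  simpa [mul_assoc] using inv_mem h

theorem cm_mul (hs : s ∈ N(W)) (h1 : s * b * s⁻¹ * b⁻¹ ∈ W) (h2 : a * b * a⁻¹ * b⁻¹ ∈ W) :
    s * a * b * (s * a)⁻¹ * b⁻¹ ∈ W := by
  simpa [mul_assoc] using mul_mem (conj_mem_of_norm hs h2) h1

theorem cm_mem (hw : w ∈ W) (hb : b ∈ N(W)) : w * b * w⁻¹ * b⁻¹ ∈ W := by
  simpa [mul_assoc] using mul_mem hw (conj_mem_of_norm hb (inv_mem hw))

theorem cm_all {X : Set G} (hn : S ≤ N(W)) (hX : ∀ x ∈ X, x ∈ S)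
    (h1 : ∀ a ∈ S, ∃ w ∈ W, ∃ x ∈ X, ∃ y ∈ X, a = w * (x * y))
    (h2 : ∀ x ∈ X, ∀ y ∈ X, x * y * x⁻¹ * y⁻¹ ∈ W) :
    ∀ a ∈ S, ∀ b ∈ S, a * b * a⁻¹ * b⁻¹ ∈ W := by
  have k : ∀ b ∈ S, (∀ x ∈ X, x * b * x⁻¹ * b⁻¹ ∈ W) → ∀ a ∈ S, a * b * a⁻¹ * b⁻¹ ∈ W :=
    fun b hb h a ha => by
      obtain ⟨w, hw, x, hx, y, hy, rfl⟩ := h1 a ha
      exact cm_mul (le_normalizer hw) (cm_mem hw (hn hb)) (cm_mul (hn (hX x hx)) (h x hx) (h y hy))
  exact fun a ha b hb => k b hb (fun x hx => cm_symm (k x (hX x hx) (fun y hy => h2 y hy x hx) b hb))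
    a ha

namespace WS

variable (k : WS D S h τ c)
include k

theorem sq_eq (hz : z ∈ S) (z1 : z * τ = τ * z) (z2 : z * c = c * z) (z3 : z * z * (z * z) = 1)
    (z4 : z * z ≠ 1) (hf : f ∈ S) (fD : f ∈ D) (f1 : f ≠ h) (hy : y ∈ S) (y1 : y * f = f * y)
    (y3 : y * y * (y * y) = 1) (y4 : y * y ≠ 1) : y * y = z * z :=
  let ⟨_, hU⟩ := (k.shift' hf fD f1).cp
  hU.uq (hU.sq y ⟨hy, mem_cent1.2 y1⟩) (hU.sq z ⟨hz, mem_cent1.2 (k.cenD z1 z2 hf fD)⟩) y3 z3 y4 z4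

variable [IsSimpleGroup G] (nc : ¬ IsMulCommutative G)
include nc

theorem caseI (hz : z ∈ S) (z1 : z * τ = τ * z) (z2 : z * c = c * z) : z * z = 1 := by
  by_contra z4
  wlog z3 : z * z * (z * z) = 1 generalizing z
  · obtain ⟨b, ⟨i, hi⟩, b2, b1⟩ := exists_inv (piG_zpowers.2 (k.syl.pi.elt (mul_mem hz hz)))
      (ne_bot_of_mem (mem_zpowers _) z4)
    have e : z ^ i * z ^ i = b := by rw [← (Commute.refl z).mul_zpow]; exact hi
    exact this (zpow_mem hz i) (Commute.zpow_left z1 i) (Commute.zpow_left z2 i) (e ▸ b1) (e ▸ b2)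
  obtain ⟨U, hU⟩ := k.cp
  have B : Bv D S (z * z) := ⟨mul_mem hz hz, z3, z4, hU.nD _ (hU.sq z ⟨hz, mem_cent1.2 z1⟩)⟩
  have cj2 : ∀ g, g * z * g⁻¹ ∈ S → ∀ f ∈ S, f ∈ D → f ≠ h → g * z * g⁻¹ * f = f * (g * z * g⁻¹) →
      g * (z * z) * g⁻¹ = z * z := fun g hg f hf fD f1 e => by
    rw [← conj_mul]
    exact k.sq_eq hz z1 z2 z3 z4 hf fD f1 hg e (by rw [conj_mul]; exact conj_sq z3 g)
      (by rw [conj_mul]; exact mt conj_eq_one_iff.1 z4)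
  have cZ : S ≤ C[z * z] := fun s hs => mem_cent1.2 (cmt (cj2 s
    (mul_mem (mul_mem hs hz) (inv_mem hs)) τ k.τS k.τD k.τh (k.cenJ z1 z2 hs).1))
  obtain ⟨g, g1, g2⟩ := zs nc k.syl B.mem z3 z4
  have B' := B.J k.hd g1
  have vD := (B.mul k.hd B' (mem_cent1.1 (cZ g1)).symm).resolve_left fun e => g2 (by
    rw [eq_inv_of_mul_eq_one_right e, inv2 z3])
  have vS := mul_mem B.mem g1
  obtain ⟨f, hf, fD, f1, f2⟩ : ∃ f ∈ S, f ∈ D ∧ f ≠ h ∧ S ⊓ C[f] ≤ C[z * z * (g * (z * z) * g⁻¹)] := by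
    by_cases e : z * z * (g * (z * z) * g⁻¹) = h
    · exact ⟨τ, k.τS, k.τD, k.τh, e ▸ inf_le_left.trans k.hZ⟩
    · exact ⟨_, vS, vD, e, inf_le_right⟩
  have f3 : S ⊓ C[f] ≤ C[g * (z * z) * g⁻¹] := fun y hy => mem_cent1_symm.1
    ((mul_mem_cancel_left (mem_cent1_symm.1 (cZ hy.1))).1 (mem_cent1_symm.1 (f2 hy)))
  obtain ⟨q, q1, q2⟩ := ((k.syl.Jtop g).of_le (K := C[g * (z * z) * g⁻¹])
    (by rw [← cj_cent1]; exact cj_mono g cZ) le_top).scj_le f3 (k.syl.pi.infl _)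
  have m : ∀ y ∈ S ⊓ C[f], g⁻¹ * q * y * (g⁻¹ * q)⁻¹ ∈ S := fun y hy => by
    simpa [mul_assoc] using mem_cj.1 (q2 (conj_mem_cj.2 hy))
  have zT : z ∈ S ⊓ C[f] := ⟨hz, mem_cent1.2 (k.cenD z1 z2 hf fD)⟩
  have key : ∀ y ∈ S ⊓ C[f], y ∈ D → g⁻¹ * q * y * (g⁻¹ * q)⁻¹ = h := fun y hy yD => by
    by_contra hne
    have := cj2 _ (m z zT) _ (m y hy) (k.hd.conj yD _) hne (by
      rw [conj_mul, conj_mul, k.cenD z1 z2 hy.1 yD])
    refine g2 ((MulAut.conj (g⁻¹ * q)).injective ?_)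
    rw [MulAut.conj_apply, MulAut.conj_apply, this]
    calc _ = g⁻¹ * (q * (g * (z * z) * g⁻¹) * q⁻¹) * g := by group
      _ = _ := by rw [cmt' (mem_cent1.1 q1)]; group
  exact f1 ((MulAut.conj (g⁻¹ * q)).injective ((key f ⟨hf, mem_cent1_self f⟩ fD).trans
    (key h ⟨k.hS, mem_cent1.2 (k.ch hf).symm⟩ k.hD).symm))

omit nc in
theorem Ycj (hs : s ∈ S) (es : s * τ * s⁻¹ = τ * c) (hf : f ∈ S) (fD : f ∈ D) (f1 : f ≠ h) :
    ∃ a ∈ S, f = a * τ * a⁻¹ := by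
  obtain ⟨x, hx, rfl⟩ := k.Y' hf fD f1
  obtain ⟨y, hy, rfl | rfl⟩ := zp_par hx
  · exact ⟨y⁻¹, inv_mem (k.CS hy), conj_sq_inv (zp_inv k.inv hy)⟩
  · refine ⟨y⁻¹ * s, mul_mem (inv_mem (k.CS hy)) hs, ?_⟩
    rw [← mul_assoc, conj_sq_inv (zp_inv (k.shift (mem_zpowers c)).inv hy), ← es]; group

omit nc in
theorem ns2 (hs : s ∈ S) (es : s * τ * s⁻¹ = τ * c) (hx : x ∈ zpowers c) :
    s * (τ * x) * s⁻¹ ≠ τ * x := fun e => by
  obtain ⟨y, hy, rfl | rfl⟩ := zp_par hx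
  · rw [conj_sq_inv (zp_inv k.inv hy)] at e
    refine k.nstar es (mul_mem hy (k.JC hs (inv_mem hy))) (mem_cent1.2 (cmt ?_))
    calc _ = y * (s * (y⁻¹ * τ * y⁻¹⁻¹) * s⁻¹) * y⁻¹ := by group
      _ = τ := by rw [e]; group
  · rw [← mul_assoc τ, conj_sq_inv (zp_inv (k.shift (mem_zpowers c)).inv hy), ← es] at e
    refine k.nstar es (mul_mem (k.JC (inv_mem hs) hy) (inv_mem hy)) (mem_cent1.2 (cmt ?_))
    calc _ = s⁻¹ * y * (s * (y⁻¹ * (s * τ * s⁻¹) * y⁻¹⁻¹) * s⁻¹) * y⁻¹ * s := by group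
      _ = τ := by rw [e]; group

theorem caseII (hs : s ∈ S) (es : s * τ * s⁻¹ = τ * c) (B : Bv D S b) (b1 : b * τ = τ * b)
    (b2 : b * c = c * b) (b3 : s * b = b * s) : False := by
  have : Fact (Nat.Prime 2) := ⟨Nat.prime_two⟩
  have cZ : S ≤ C[b] := fun a ha => by
    have l : ∀ y ∈ zpowers c, y ∈ C[b] := fun y hy => mem_cent1.2 (zp_cen b2 hy).symm
    have l2 : S ⊓ C[τ] ≤ C[b] := fun y hy => mem_cent1.2 (k.cenT ⟨B.mem, mem_cent1.2 b1⟩ B.sq hy)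
    obtain ⟨y, hy, e | e⟩ := k.dich2 hs es ha
    · exact (mul_mem_cancel_left (l y hy)).1 (l2 e)
    · exact (mul_mem_cancel_left (inv_mem (mem_cent1.2 b3))).1
        ((mul_mem_cancel_left (l y hy)).1 (l2 e))
  have B' := B.mulD k.hd k.hD k.hS (k.ch B.mem)
  have nb : ¬ IsConj b (b * h) := fun e => by
    obtain ⟨g, hg⟩ := isConj_iff.1 e
    obtain ⟨R, rfl⟩ := k.syl.exists_sylow_top
    obtain ⟨n, n1, n2⟩ := H3.burnside_fusion_elt R (x := b) (g := g) (le_cent1_iff.1 cZ)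
      (hg ▸ mul_mem (le_cent1_iff.1 cZ) (le_cent1_iff.1 k.hZ))
    rw [hg] at n2
    have n3 : n * h * n⁻¹ = h := by
      by_contra hne
      have hc : n * h * n⁻¹ ∈ C((R : Subgroup G)) :=
        conj_mem_of_norm (norm_le_norm_cent _ n1) (le_cent1_iff.1 k.hZ)
      obtain ⟨a, ha, e⟩ := k.Ycj hs es (conj_mem_of_norm n1 k.hS) (k.hd.conj k.hD n) hne
      have e2 : n * h * n⁻¹ = τ := by
        have := cmt' (mem_cent.1 hc _ (inv_mem ha))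
        rw [← this, e]; group
      rw [e2] at hc
      rw [cmt' (mem_cent.1 hc s hs)] at es
      exact k.c1 (left_eq_mul.1 es)
    have := (normalIn_norm (R : Subgroup G)).subgroupOf
    have n4 : n ∈ C[b] := mem_of_pow (a := 2) (b := (R : Subgroup G).relIndex N((R : Subgroup G)))
      (mem_cent1.2 (cmt (by
        rw [sq, show n * n * b * (n * n)⁻¹ = n * (n * b * n⁻¹) * n⁻¹ by group, n2, ← conj_mul, n2, n3,
          mul_assoc, k.h2, mul_one])))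
      (cZ (pow_index_mem (H := (R : Subgroup G).subgroupOf N((R : Subgroup G))) ⟨n, n1⟩))
      ((Nat.Prime.coprime_iff_not_dvd Nat.prime_two).2
        ((k.syl.of_le le_normalizer le_top).not_dvd Nat.prime_two))
    rw [cmt' (mem_cent1.1 n4)] at n2
    exact k.h1 (left_eq_mul.1 n2)
  have key : ∀ a, Bv D S a → a = b ∨ a = b * h ∨ IsConj (b * τ) a := fun a A => by
    rcases B.mul k.hd A (mem_cent1.1 (cZ A.mem)).symm with e | e
    · exact Or.inl (by rw [eq_inv_of_mul_eq_one_right e, inv2 B.sq])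
    by_cases e2 : b * a = h
    · exact Or.inr (Or.inl (by rw [← e2, can2 B.sq]))
    obtain ⟨q, hq, e3⟩ := k.Ycj hs es (mul_mem B.mem A.mem) e e2
    exact Or.inr (Or.inr (isConj_iff.2 ⟨q, by
      rw [← conj_mul, ← e3, cmt' (mem_cent1.1 (cZ hq)), can2 B.sq]⟩))
  obtain ⟨g, g1, g2⟩ := zs nc k.syl B.mem B.sq B.ne
  obtain ⟨g', g3, g4⟩ := zs nc k.syl B'.mem B'.sq B'.ne
  have i1 : IsConj b (g * b * g⁻¹) := isConj_iff.2 ⟨g, rfl⟩
  have i2 : IsConj (b * h) (g' * (b * h) * g'⁻¹) := isConj_iff.2 ⟨g', rfl⟩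
  rcases key _ (B.J k.hd g1) with e | e | e
  · exact g2 e
  · exact nb (e ▸ i1)
  rcases key _ (B'.J k.hd g3) with e' | e' | e'
  · exact nb (e' ▸ i2).symm
  · exact g4 e'
  · exact nb ((i1.trans e.symm).trans (e'.trans i2.symm))

omit nc in
theorem calc3 (hs : s ∈ S) (es : s * τ * s⁻¹ = τ * c) (B : Bv D S b) (b1 : b * τ = τ * b)
    (b2 : b * c = c * b) (b3 : s * b * s⁻¹ = b * h) (ht : t ∈ S ⊓ C[τ])
    (ab : ∀ y ∈ S ⊓ C[τ], y * t = t * y) (hw : w ∈ zpowers c) : s * t * s⁻¹ ≠ w * b * t := by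
  intro e
  obtain ⟨y, hy, y1⟩ := k.sqs hs es
  have tτ := cmt' (mem_cent1.1 ht.2)
  have e1 : t * c * t⁻¹ = c * (w * w) := by
    have a1 : s * t * s⁻¹ * (τ * c) * (s * t * s⁻¹)⁻¹ = τ * c := by
      rw [← es]
      conv_rhs => rw [← tτ]
      group
    rw [e, show w * b * t * (τ * c) * (w * b * t)⁻¹ = w * (b * (t * τ * t⁻¹) * b⁻¹) * w⁻¹ *
      (w * (b * (t * c * t⁻¹) * b⁻¹) * w⁻¹) by group, tτ, cmt' b1, k.cτ hw,
      cmt' (zp_cen b2 (k.JC ht.1 (mem_zpowers c))), cmt' (zp_comm hw (k.JC ht.1 (mem_zpowers c))),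
      mul_assoc, mul_right_inj, inv_mul_eq_iff_eq_mul] at a1
    rw [a1, zp_comm (mul_mem hw hw) (mem_zpowers c)]
  have e2 : y * y = c * (s * c * s⁻¹) := by
    have a1 := cmt' (mem_cent1.1 y1.2)
    rw [show y * (s * s) * τ * (y * (s * s))⁻¹ = y * (s * (s * τ * s⁻¹) * s⁻¹) * y⁻¹ by group, es,
      ← conj_mul (b := s), es, mul_assoc τ, ← conj_mul (b := y), k.cτ hy, cmt' (zp_comm hy (mul_mem (mem_zpowers c)
        (k.JC hs (mem_zpowers c)))), mul_assoc, mul_eq_left, inv_mul_eq_one] at a1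
    exact a1
  have e3 : y⁻¹ * (t * y * t⁻¹) = s * w * s⁻¹ * w * h := by
    have a1 := cmt' (ab _ y1)
    rw [show y * (s * s) * t * (y * (s * s))⁻¹ = y * (s * (s * t * s⁻¹) * s⁻¹) * y⁻¹ by group, e,
      ← conj_mul (b := s), ← conj_mul (b := s), e, b3] at a1
    calc _ = y⁻¹ * (y * (s * w * s⁻¹ * (b * h) * (w * b * t)) * y⁻¹) * y * t⁻¹ := by rw [a1]; group
      _ = s * w * s⁻¹ * (b * (h * w) * b) := by group
      _ = _ := by
        rw [zp_cen b2 (mul_mem k.hc hw), mul_assoc _ b b, B.sq, mul_one, zp_comm k.hc hw,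
          mul_assoc _ w h]
  obtain ⟨i, rfl⟩ := hy
  obtain ⟨j, rfl⟩ := hw
  obtain ⟨l, hl⟩ := k.JC hs (mem_zpowers c)
  dsimp only at *
  rw [← conj_zpow, ← conj_zpow, e1, ← hl, ← zpow_add, ← zpow_one_add, ← zpow_mul, ← zpow_mul,
    ← zpow_neg, ← zpow_add, ← zpow_add] at e3
  rw [← hl, ← zpow_add, ← zpow_one_add] at e2
  have e4 := congrArg (· ^ j) e2
  simp only [← zpow_mul] at e4
  rw [show -i + (1 + (j + j)) * i = (i + i) * j by ring, e4,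
    show (1 + l) * j = l * j + j by ring] at e3
  exact k.h1 (left_eq_mul.1 e3)

theorem caseIII (hs : s ∈ S) (es : s * τ * s⁻¹ = τ * c) (B : Bv D S b) (b1 : b * τ = τ * b)
    (b2 : b * c = c * b) (b3 : s * b * s⁻¹ = b * h) (c2 : c * c ≠ 1) : False := by
  have NZ := fun z => k.caseI nc (z := z)
  have ab := k.abel NZ
  have bT : b ∈ S ⊓ C[τ] := ⟨B.mem, mem_cent1.2 b1⟩
  have l : ∀ y ∈ zpowers c, y ∈ C[b] := fun y hy => mem_cent1.2 (zp_cen b2 hy).symm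
  have l2 : S ⊓ C[τ] ≤ C[b] := fun y hy => mem_cent1.2 (ab _ hy _ bT)
  have ns : s ∉ C[b] := fun e => k.h1 (left_eq_mul.1 ((cmt' (mem_cent1.1 e)).symm.trans b3))
  have star : ∀ a ∈ S, a ∈ C[b] → ∃ y ∈ zpowers c, y * a ∈ S ⊓ C[τ] := fun a ha e => by
    obtain ⟨y, hy, e'⟩ := k.dich2 hs es ha
    exact ⟨y, hy, e'.resolve_right fun e' => ns (inv_mem_iff.1 ((mul_mem_cancel_right e).1
      ((mul_mem_cancel_left (l y hy)).1 (l2 e'))))⟩
  have cs : ∀ t ∈ S ⊓ C[τ], s * t * s⁻¹ * t⁻¹ ∈ zpowers c ⊔ zpowers τ := fun t ht => by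
    have m := mul_mem (mul_mem hs ht.1) (inv_mem hs)
    obtain ⟨y, hy, y1⟩ := star _ m (mem_cent1.2 (cmJ (by
      have : s⁻¹ * b * s⁻¹⁻¹ = b * h := by
        rw [← mul_left_inj h, mul_assoc b, k.h2, mul_one]
        conv_rhs => rw [show b = s⁻¹ * (s * b * s⁻¹) * s by group, b3]
        rw [inv_inv, mul_assoc _ s, k.ch hs]; group
      rw [this, ← mul_assoc, mem_cent1.1 (l2 ht), mul_assoc, k.ch ht.1, mul_assoc])))
    have uT := mul_mem y1 (inv_mem ht)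
    have uc : y * (s * t * s⁻¹) * t⁻¹ * c = c * (y * (s * t * s⁻¹) * t⁻¹) := by
      obtain ⟨i, hi⟩ := k.JC ht.1 (mem_zpowers c)
      obtain ⟨j, hj⟩ := k.JC (inv_mem hs) (mem_zpowers c)
      dsimp only at hi hj
      rw [← ab _ (inv_mem ht) _ y1]
      refine cmt ?_
      calc _ = t⁻¹ * (y * (s * (t * (s⁻¹ * c * s⁻¹⁻¹) * t⁻¹) * s⁻¹) * y⁻¹) * t := by group
        _ = t⁻¹ * (y * (s * (s⁻¹ * c * s⁻¹⁻¹) ^ i * s⁻¹) * y⁻¹) * t := by
          rw [← hj, ← conj_zpow, ← hi, ← zpow_mul, ← zpow_mul, mul_comm]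
        _ = t⁻¹ * (y * c ^ i * y⁻¹) * t := by rw [conj_zpow]; group
        _ = c := by rw [cmt' (zp_comm hy (zpow_mem (mem_zpowers c) i)), hi]; group
    have u2 := NZ _ uT.1 (mem_cent1.1 uT.2) uc
    rw [mul_assoc y] at uT uc u2
    refine (mul_mem_cancel_left (mem_sup_left hy)).1 (k.DW uT.1 ?_)
    by_contra! hh
    have vc : b * (y * (s * t * s⁻¹ * t⁻¹)) ∈ zpowers c := by
      have := k.inW B ⟨uT.1, u2, hh.1, hh.2⟩ (ab _ bT _ uT)
      rw [inv2 B.sq] at this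
      refine ((mem_W k.inv k.t2).1 this).resolve_right fun e => c2 ?_
      have e1 := (k.shift e).inv
      rw [can2 k.t2, cmt' (by rw [mul_assoc, uc, ← mul_assoc, b2, mul_assoc])] at e1
      exact mul_eq_one_iff_eq_inv.2 e1
    refine k.calc3 hs es B b1 b2 b3 ht (fun y hy => ab y hy t ht) (mul_mem (inv_mem hy) vc) ?_
    rw [mul_assoc y⁻¹, ← zp_cen b2 vc, can2 B.sq]; group
  obtain ⟨g, g1, g2⟩ := tr nc k.syl k.nW (cm_all (X := {x | x = s ∨ x ∈ S ⊓ C[τ]}) k.nW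
    (fun x hx => hx.elim (fun e => e ▸ hs) And.left) (fun a ha => by
      obtain ⟨y, hy, e | e⟩ := k.dich2 hs es ha
      · exact ⟨_, mem_sup_left (inv_mem hy), _, Or.inr e, 1, Or.inr (one_mem _), by group⟩
      · exact ⟨_, mem_sup_left (k.JC hs (inv_mem hy)), s, Or.inl rfl, _, Or.inr e, by group⟩)
    (by
      rintro x (rfl | hx) y (rfl | hy)
      · simp
      · exact cs y hy
      · exact cm_symm (cs x hx)
      · simp [ab x hx y hy])) B.mem (fun e => (k.WD e B.sq).elim B.ne B.nD) B.sq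
  have B' := B.J k.hd (g1 (conj_mem_cj.2 ⟨B.mem, mem_cent1_self b⟩))
  have nc' : b * (g * b * g⁻¹) ≠ g * b * g⁻¹ * b := fun e => g2 (k.inW B B' e)
  have nf : ∀ x ∈ zpowers c, τ * x ∉ C[g * b * g⁻¹] := fun x hx e => nc'
    ((k.shift hx).cenT ⟨B'.mem, mem_cent1_symm.1 e⟩ B'.sq ⟨B.mem, mem_cent1.2
      (k.cenD b1 b2 (k.Y hx).1 (k.Y hx).2.1)⟩)
  have i1 : (S ⊓ C[b]).relIndex S = 2 := by
    rw [inf_relIndex_left]
    refine relIindex_eq_two_iff'.2 ⟨s⁻¹, inv_mem hs, fun a ha => ?_⟩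
    by_cases e : a ∈ C[b]
    · exact Or.inr ⟨e, fun e' => ns (inv_mem_iff.1 ((mul_mem_cancel_right e).1 e'))⟩
    · obtain ⟨y, hy, e' | e'⟩ := k.dich2 hs es ha
      · exact (e ((mul_mem_cancel_left (l y hy)).1 (l2 e'))).elim
      · exact Or.inl ⟨(mul_mem_cancel_left (l y hy)).1 (l2 e'), e⟩
  have i2 : C[g * b * g⁻¹].relIndex S ∣ 2 := by
    have := card_mul_relIndex g1
    rw [card_cj, ← card_mul_relIndex (inf_le_left : S ⊓ C[b] ≤ S), i1] at this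
    rw [← Nat.eq_of_mul_eq_mul_left (card_pos _) this, ← cj_cent1]
    exact relIndex_dvd_left (cj_mono g inf_le_right) S
  have t1 : τ ∉ C[g * b * g⁻¹] := by simpa using nf 1 (one_mem _)
  have cM : zpowers c ≤ C[g * b * g⁻¹] := zpowers_le.2 (by
    simpa only [can2 k.t2] using mem2 i2 k.τS (k.Y (mem_zpowers c)).1 t1 (nf c (mem_zpowers c)))
  obtain ⟨x, hx, e⟩ := k.JY k.τS k.τD k.τh B'.mem
  have x2 : x * x = 1 := by
    have e2 : g * b * g⁻¹ * (τ * x) * (g * b * g⁻¹)⁻¹ = τ := by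
      rw [← e, inv2 B'.sq, mul_assoc _ τ, can2 B'.sq, mul_assoc τ, B'.sq, mul_one]
    rwa [← conj_mul, e, cmt' (mem_cent1.1 (cM hx)).symm, mul_assoc, mul_eq_left] at e2
  obtain ⟨r, hr, r2⟩ := k.rho c2
  rcases k.C2 hx x2 with rfl | rfl
  · exact t1 (mem_cent1.2 (cmt (by rwa [mul_one] at e)).symm)
  · refine nc' (mem_cent1.1 ((mul_mem_cancel_left (l r hr)).1 (l2 (k.fixτ B'.mem hr ?_)))).symm
    rwa [r2]

theorem noB' (A : Bv D S a) : False := by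
  have NZ := fun z => k.caseI nc (z := z)
  have ab := k.abel NZ
  obtain ⟨U, hU⟩ := k.cp
  have nW : ∀ a, Bv D S a → a ∉ zpowers c ⊔ zpowers τ := fun a A e => (k.WD e A.sq).elim A.ne A.nD
  have mem : ∀ {a g}, cj g (S ⊓ C[a]) ≤ S → a ∈ S → g * a * g⁻¹ ∈ S := fun g1 ha =>
    g1 (conj_mem_cj.2 ⟨ha, mem_cent1_self _⟩)
  by_cases hb : U = ⊥
  · have TW : S ⊓ C[τ] ≤ zpowers c ⊔ zpowers τ := fun y hy => by
      obtain ⟨v, v1, v2⟩ := hU.dec y hy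
      exact (mul_mem_cancel_left (k.DW (hU.vT v1).1 (hU.vD v1))).1 ((hb ▸ bot_le : U ≤ _) v2)
    obtain ⟨s, hs, es⟩ : ∃ s ∈ S, ∀ a ∈ S, a ∈ zpowers c ⊔ zpowers τ ∨
        s⁻¹ * a ∈ zpowers c ⊔ zpowers τ := by
      rcases k.dich with e | ⟨s, hs, c', k', es⟩
      · exact ⟨1, one_mem _, fun a ha => let ⟨y, hy, e'⟩ := e a ha
          Or.inl ((mul_mem_cancel_left (mem_sup_left hy)).1 (TW e'))⟩
      · refine ⟨s, hs, fun a ha => ?_⟩
        obtain ⟨y, hy, e'⟩ := k'.dich2 hs es ha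
        have := k.DW k.τS (Or.inr k.τD)
        have yW : y ∈ zpowers c ⊔ zpowers τ := (mul_mem_cancel_left this).1
          (k.DW (k'.Y hy).1 (Or.inr (k'.Y hy).2.1))
        exact e'.imp (fun e' => (mul_mem_cancel_left yW).1 (TW e'))
          fun e' => (mul_mem_cancel_left yW).1 (TW e')
    obtain ⟨g, g1, g2⟩ := tr nc k.syl k.nW (cm_all (X := {x | x = s ∨ x = 1}) k.nW
      (fun x hx => hx.elim (fun e => e ▸ hs) fun e => e ▸ one_mem _) (fun a ha => by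
        rcases es a ha with e | e
        · exact ⟨a, e, 1, Or.inr rfl, 1, Or.inr rfl, by group⟩
        · exact ⟨_, conj_mem_of_norm (k.nW hs) e, s, Or.inl rfl, 1, Or.inr rfl, by group⟩)
      (by rintro x (rfl | rfl) y (rfl | rfl) <;> simp)) A.mem (nW a A) A.sq
    have A' := A.J k.hd (mem g1 A.mem)
    refine g2 ?_
    simpa [mul_assoc] using mul_mem (inv_mem ((es a A.mem).resolve_left (nW a A)))
      ((es _ A'.mem).resolve_left (nW _ A'))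
  obtain ⟨b₀, p1, p2, p3⟩ := exists_inv (hU.pg.of_le hU.le) hb
  rcases k.dich with e | ⟨s, hs, c', k', es⟩
  · obtain ⟨v, -, B, b1, b2⟩ := k.exB hU p1 p2 p3
    obtain ⟨g, g1, g2⟩ := tr nc k.syl k.nW (cm_all (X := (S ⊓ C[τ] : Subgroup G)) k.nW
      (fun x hx => hx.1) (fun a ha => by
        obtain ⟨y, hy, e'⟩ := e a ha
        exact ⟨_, mem_sup_left (inv_mem hy), _, e', 1, one_mem _, by group⟩)
      fun x hx y hy => by simp [ab x hx y hy]) B.mem (nW _ B) B.sq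
    have B' := B.J k.hd (mem g1 B.mem)
    obtain ⟨y, hy, e'⟩ := e _ B'.mem
    have := ab _ ⟨B.mem, mem_cent1.2 b1⟩ _ e'
    rw [← mul_assoc, zp_cen b2 hy, mul_assoc, mul_assoc y, mul_right_inj] at this
    exact g2 (k.inW B B' this)
  obtain ⟨v, -, B, b1, b2⟩ := k'.exB hU p1 p2 p3
  generalize b₀ * v = b at B b1 b2
  have B' := B.J k.hd (mul_mem (mul_mem hs B.mem) (inv_mem hs))
  have j := k'.cenJ b1 b2 hs
  have bT : b ∈ S ⊓ C[τ] := ⟨B.mem, mem_cent1.2 b1⟩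
  have bT' : s * b * s⁻¹ ∈ S ⊓ C[τ] := ⟨B'.mem, mem_cent1.2 j.1⟩
  have nt : ∀ x ∈ zpowers c', b * (s * b * s⁻¹) ≠ τ * x := fun x hx e => by
    obtain ⟨y, hy, y1⟩ := k'.sqs hs es
    have e1 : s * (s * b * s⁻¹) * s⁻¹ = b := by
      have := cmt' (ab _ y1 _ bT)
      calc _ = y⁻¹ * (y * (s * s) * b * (y * (s * s))⁻¹) * y⁻¹⁻¹ := by group
        _ = b := by rw [this, cmt' (zp_cen b2 (inv_mem hy)).symm]
    have e2 : s * (τ * x) * s⁻¹ = τ * x := by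
      rw [← e, ← conj_mul, e1, ab _ bT _ bT']
    exact k'.ns2 hs es hx e2
  rcases B.mul k.hd B' (ab _ bT _ bT') with e | e
  · exact k'.caseII nc hs es B b1 b2 (cmt (by rw [eq_inv_of_mul_eq_one_right e, inv2 B.sq]))
  have b3 : s * b * s⁻¹ = b * h := by
    by_contra hne
    obtain ⟨x, hx, e'⟩ := k'.Y' (mul_mem B.mem B'.mem) e fun e' => hne (by rw [← e', can2 B.sq])
    exact nt x hx e'
  by_cases c2 : c' * c' = 1
  swap
  · exact k'.caseIII nc hs es B b1 b2 b3 c2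
  obtain rfl := k'.c_eq c2
  have B2 := B.mulD k.hd k.τD k.τS b1
  exact k'.caseII nc hs es B2 (by rw [← mul_assoc, b1]) (k.ch B2.mem) (cmt (by
    rw [← conj_mul, b3, es, k.ch k.τS, mul_assoc, can2 k.h2]))

theorem noB (a2 : a * a = 1) (a1 : a ≠ 1) : a ∈ D := by
  by_contra hn
  obtain ⟨g, -, hg⟩ := k.syl.scj_le (le_top (a := zpowers a)) (piG_zpowers.2 (pe2 a2))
  exact k.noB' nc ⟨hg (conj_mem_cj.2 (mem_zpowers a)), conj_sq a2 g, mt conj_eq_one_iff.1 a1,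
    fun e => hn (k.hd.conj' e)⟩

theorem TV (hy : y ∈ S ⊓ C[τ]) : Vq h τ y := by
  obtain ⟨U, hU⟩ := k.cp
  have : U = ⊥ := by
    by_contra hb
    obtain ⟨b, p1, p2, p3⟩ := exists_inv (hU.pg.of_le hU.le) hb
    exact hU.nD b p1 (k.noB nc p2 p3)
  obtain ⟨v, v1, v2⟩ := hU.dec y hy
  rw [this, mem_bot, mul_eq_one_iff_eq_inv, ← inv2 (hU.vsq v1), inv_inj] at v2
  exact v2 ▸ v1

theorem bicyc : ∃ x ∈ S, ∃ y ∈ S, ∀ g ∈ S, ∃ i j : ℤ, g = x ^ i * y ^ j := by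
  have fin : ∀ {c'}, WS D S h τ c' → ∀ x, zpowers c' ≤ zpowers x → ∀ q ∈ zpowers x, ∀ g,
      q * g ∈ S ⊓ C[τ] → ∃ i j : ℤ, g = x ^ i * τ ^ j := fun k' x l q hq g e => by
    have : ∃ p ∈ zpowers x, ∃ j : ℤ, q * g = p * τ ^ j := by
      rcases k.TV nc e with e | e | e | e
      exacts [⟨1, one_mem _, 0, by simp [e]⟩, ⟨h, l k'.hc, 0, by simp [e]⟩,
        ⟨1, one_mem _, 1, by simp [e]⟩, ⟨h, l k'.hc, 1, by simp [e]⟩]
    obtain ⟨p, hp, j, e'⟩ := this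
    obtain ⟨i, hi⟩ := mul_mem (inv_mem hq) hp
    exact ⟨i, j, by rw [show x ^ i = q⁻¹ * p from hi, mul_assoc, ← e', inv_mul_cancel_left]⟩
  rcases k.dich with e | ⟨s, hs, c', k', es⟩
  · exact ⟨c, k.cS, τ, k.τS, fun g hg => let ⟨y, hy, e'⟩ := e g hg; fin k c le_rfl y hy g e'⟩
  have fin2 : ∀ s ∈ S, ∀ c', WS D S h τ c' → s * τ * s⁻¹ = τ * c' → zpowers c' ≤ zpowers s →
      ∃ x ∈ S, ∃ y ∈ S, ∀ g ∈ S, ∃ i j : ℤ, g = x ^ i * y ^ j := fun s hs c' k' es l =>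
    ⟨s, hs, τ, k.τS, fun g hg => by
      obtain ⟨y, hy, e | e⟩ := k'.dich2 hs es hg
      · exact fin k' s l y (l hy) g e
      · exact fin k' s l _ (mul_mem (l hy) (inv_mem (mem_zpowers s))) g (by rwa [mul_assoc])⟩
  obtain ⟨y, hy, y1⟩ := k'.sqs hs es
  have s2 : s * s ∈ zpowers c' := by
    have nt : ∀ x ∈ zpowers c', s * s ≠ τ * x := fun x hx e => k'.ns2 hs es hx (by rw [← e]; group)
    rcases k.TV nc y1 with e | e | e | e
    · exact (mul_mem_cancel_left hy).1 (e ▸ one_mem _)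
    · exact (mul_mem_cancel_left hy).1 (e ▸ k'.hc)
    · refine (nt y hy ?_).elim
      rw [eq_inv_mul_iff_mul_eq.2 e, ← zp_inv k'.inv hy]; group
    · refine (nt _ (mul_mem hy k'.hc) ?_).elim
      rw [eq_inv_mul_iff_mul_eq.2 e, ← zp_inv k'.inv hy, ← k.ch k.τS]; group
  obtain ⟨q, hq, e | e⟩ := zp_par s2
  · refine fin2 (s * τ) (mul_mem hs k.τS) c' k' (by rw [← es]; group) ?_
    rw [← zp_gen k'.pc k'.c1 hq, ← e, ← zpowers_inv, zpowers_le]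
    convert mul_mem (mem_zpowers (s * τ)) (mem_zpowers (s * τ)) using 1
    rw [← zp_inv k'.inv (mul_mem (mem_zpowers c') s2), ← mul_assoc τ, ← es, inv2 k.t2]; group
  · refine fin2 s hs c' k' es ?_
    rw [← zp_gen k'.pc k'.c1 hq, ← e, zpowers_le]
    exact mul_mem (mem_zpowers s) (mem_zpowers s)

end WS

theorem HD.crit2 (k : HD D) (all : ∀ a : G, a * a = 1 → a ≠ 1 → a ∈ D) (hd : d ∈ D) (he : e ∈ D)
    (hne : d ≠ e) (hc : d * e = e * d) (hy : PiE {2} y) (c1 : y * d = d * y) (c2 : y * e = e * y) :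
    y * y = 1 := by
  have l1 : zpowers d ⊔ zpowers e ≤ C[y] := sup_le (zpowers_le.2 (mem_cent1.2 c1.symm))
    (zpowers_le.2 (mem_cent1.2 c2.symm))
  obtain ⟨U, hU⟩ := k.exists_cp (T := zpowers d ⊔ zpowers e ⊔ zpowers y) hd he hne
    (((piG_zpowers.2 (pe2 (k.sq hd))).sup (piG_zpowers.2 (pe2 (k.sq he))) ((zpowers_le.2
      (mem_cent1.2 hc.symm)).trans (cent1_le_norm_zpowers d))).sup' (piG_zpowers.2 hy)
      (l1.trans (cent1_le_norm_zpowers y)))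
    (mem_sup_left (mem_sup_left (mem_zpowers d))) (mem_sup_left (mem_sup_right (mem_zpowers e)))
    (sup_le (sup_le (zpowers_le.2 (mem_cent1_self d)) (zpowers_le.2 (mem_cent1.2 hc.symm)))
      (zpowers_le.2 (mem_cent1.2 c1)))
    (sup_le (sup_le (zpowers_le.2 (mem_cent1.2 hc)) (zpowers_le.2 (mem_cent1_self e)))
      (zpowers_le.2 (mem_cent1.2 c2)))
  by_contra hn
  obtain ⟨b, p1, p2, p3⟩ := exists_inv (hU.pg.of_le hU.le)
    (ne_bot_of_mem (hU.sq y (mem_sup_right (mem_zpowers y))) hn)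
  exact hU.nD b p1 (all b p2 p3)

end H2.Ov
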