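/-
S4578, chunk F6: bar weights (WJ, WD, DW).
-/
import Cfsg.Agent.H26.RB0

set_option autoImplicit false

namespace H2.RB
open Cfsg Finset Matrix Equiv H7.Sn H26.RB
open scoped Nat

/-- indicator of divisibility -/
def cc (p : ℕ) (a : ℤ) : ℤ := if (p : ℤ) ∣ a then 1 else 0

def ee (p : ℕ) {N : ℕ} (k : ℤ) (S : Fk N) : ℤ :=
  ∑ t ∈ S, (cc p (k + (t.1 + 1 : ℕ)) - cc p (k - (t.1 + 1 : ℕ)))

theorem cc_neg (p : ℕ) (a : ℤ) : cc p (-a) = cc p a := by simp [cc]

theorem cc_add {p : ℕ} {r : ℤ} (h : (p : ℤ) ∣ r) (a : ℤ) : cc p (a + r) = cc p a := by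
  simp only [cc, Int.dvd_iff_dvd_of_dvd_sub (show (p : ℤ) ∣ a + r - a by simpa using h)]

theorem cc_two {p : ℕ} (hp : Odd p) (a : ℤ) : cc p (a + a) = cc p a := by
  have : (p : ℤ) ∣ a + a ↔ (p : ℤ) ∣ a := by
    refine ⟨fun h => ?_, fun h => h.add h⟩
    have h2 : IsCoprime (p : ℤ) 2 := by
      have := Nat.isCoprime_iff_coprime.2 (Nat.coprime_two_right.2 hp)
      simpa using this
    exact h2.dvd_of_dvd_mul_left (by rwa [two_mul])
  simp only [cc, this]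

theorem neg_div {p : ℕ} (hp : Odd p) (a : ℤ) : (-a) / p = -(a / p) - 1 + cc p a := by
  have h0 : (0 : ℤ) < p := by exact_mod_cast hp.pos
  unfold cc
  split_ifs with h
  · rw [Int.neg_ediv_of_dvd h]; ring
  · rw [Int.neg_ediv, if_neg h, Int.sign_eq_one_of_pos h0]; ring

theorem ee_neg (p : ℕ) {N : ℕ} (k : ℤ) (S : Fk N) : ee p (-k) S = -ee p k S := by
  unfold ee
  rw [← sum_neg_distrib]
  refine sum_congr rfl fun t _ => ?_
  rw [← cc_neg p (-k + _), ← cc_neg p (-k - _), neg_sub, neg_add, neg_neg, sub_neg_eq_add,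
    ← sub_eq_add_neg, add_comm _ k, neg_sub]

theorem ee_add {p : ℕ} {r : ℤ} (h : (p : ℤ) ∣ r) {N : ℕ} (k : ℤ) (S : Fk N) :
    ee p (k + r) S = ee p k S := by
  refine sum_congr rfl fun t _ => ?_
  rw [add_right_comm, cc_add h, add_sub_right_comm, cc_add h]

theorem ee_ins (p : ℕ) {N : ℕ} (m : ℤ) {S : Fk N} {i : Fin N} (hi : i ∉ S) :
    ee p m (insert i S) = ee p m S + cc p (m + (i.1 + 1 : ℕ)) - cc p (m - (i.1 + 1 : ℕ)) := by
  unfold ee; rw [sum_insert hi]; ring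

theorem W_eq (p : ℕ) {N : ℕ} (S : Fk N) : W p S = ∑ s ∈ S, (((s.1 + 1 : ℕ) : ℤ) / p + ∑ t ∈ S,
    if t < s then cc p ((s.1 + 1 : ℕ) + (t.1 + 1 : ℕ)) - cc p ((s.1 + 1 : ℕ) - (t.1 + 1 : ℕ))
    else 0) := by
  unfold W cc
  simp only [sum_filter]

theorem W_ins (p : ℕ) {N : ℕ} {S : Fk N} {i : Fin N} (hi : i ∉ S) :
    W p (insert i S) = W p S + ((i.1 + 1 : ℕ) : ℤ) / p + ee p (i.1 + 1 : ℕ) S := by
  rw [W_eq, W_eq, sum_insert hi, sum_insert hi, if_neg (lt_irrefl i), zero_add]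
  simp only [sum_insert hi, sum_add_distrib]
  unfold ee
  have : ∀ t ∈ S, cc p (((i.1 + 1 : ℕ) : ℤ) + (t.1 + 1 : ℕ)) - cc p ((i.1 + 1 : ℕ) - (t.1 + 1 : ℕ)) =
      (if t < i then cc p ((i.1 + 1 : ℕ) + (t.1 + 1 : ℕ)) - cc p ((i.1 + 1 : ℕ) - (t.1 + 1 : ℕ))
        else 0) + if i < t then cc p ((t.1 + 1 : ℕ) + (i.1 + 1 : ℕ)) -
          cc p ((t.1 + 1 : ℕ) - (i.1 + 1 : ℕ)) else 0 := by
    intro t ht
    rcases lt_trichotomy t i with h | h | h
    · rw [if_pos h, if_neg h.not_gt, add_zero]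
    · exact absurd (h ▸ ht) hi
    · rw [if_neg h.not_gt, if_pos h, zero_add, add_comm ((t.1 + 1 : ℕ) : ℤ),
        ← cc_neg p (_ - ((i.1 + 1 : ℕ) : ℤ)), neg_sub]
  rw [sum_congr rfl this, sum_add_distrib]
  ring

theorem ph_step {p : ℕ} (hp : Odd p) {N : ℕ} {k : ℤ} {T S : Fk N} (h : ph N k T S ≠ 0) :
    W p T = W p S + k / p + ee p k S ∧ ∀ m, ee p m T = ee p m S + cc p (m + k) - cc p (m - k) := by
  unfold ph at h
  split_ifs at h with h1 h2 h3
  · simp only [cr, of_apply, ne_eq, ite_eq_right_iff, not_forall] at h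
    obtain ⟨⟨hi, rfl⟩, -⟩ := h
    have hk : (((⟨k.toNat - 1, by omega⟩ : Fin N).1 + 1 : ℕ) : ℤ) = k := by simp only; omega
    rw [W_ins p hi, hk]
    exact ⟨rfl, fun m => by rw [ee_ins p m hi, hk]⟩
  · subst h2
    have hT : T = S := by
      by_contra hne
      exact h (diagonal_apply_ne _ hne)
    subst hT
    have := ee_neg p 0 T
    rw [neg_zero] at this
    exact ⟨by simp; omega, fun m => by simp⟩
  · simp only [cr, Matrix.smul_apply, transpose_apply, of_apply, smul_eq_mul, ne_eq, mul_eq_zero, not_or,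
      ite_eq_right_iff, not_forall] at h
    obtain ⟨-, ⟨hi, rfl⟩, -⟩ := h
    have hk : (((⟨(-k).toNat - 1, by omega⟩ : Fin N).1 + 1 : ℕ) : ℤ) = -k := by simp only; omega
    refine ⟨?_, fun m => ?_⟩
    · rw [W_ins p hi, ee_ins p k hi, hk, neg_div hp, ee_neg, add_neg_cancel, sub_neg_eq_add,
        cc_two hp]
      simp only [cc, dvd_zero, if_true]
      ring
    · rw [ee_ins p m hi, hk, sub_neg_eq_add, ← sub_eq_add_neg]; ring
  · exact absurd rfl h

theorem wj : WJ := by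
  intro N p r T S hp hr h
  unfold bb at h
  rw [Matrix.sum_apply] at h
  obtain ⟨k, -, hk⟩ := exists_ne_zero_of_sum_ne_zero h
  rw [Matrix.smul_apply, smul_eq_mul, Matrix.mul_apply] at hk
  obtain ⟨U, -, hU⟩ := exists_ne_zero_of_sum_ne_zero (right_ne_zero_of_mul hk)
  obtain ⟨a1, -⟩ := ph_step hp (left_ne_zero_of_mul hU)
  obtain ⟨b1, b2⟩ := ph_step hp (right_ne_zero_of_mul hU)
  have e1 : ee p (-k - r) S = -ee p k S := by
    rw [show -k - r = -(k + r) by ring, ee_neg, ee_add hr]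
  have e2 : cc p (k + (-k - r)) = 1 := by
    rw [show k + (-k - r) = -r by ring, cc_neg, cc, if_pos hr]
  have e3 : cc p (k - (-k - r)) = cc p k := by
    rw [show k - (-k - r) = k + k + r by ring, cc_add hr, cc_two hp]
  have e4 : (-k - r) / p = -(k / p) - 1 + cc p k - r / p := by
    rw [Int.sub_ediv_of_dvd _ hr, neg_div hp]
  rw [a1, b2, b1, e1, e2, e3, e4]
  ring

/-! ### the degree -/

theorem vprod (p : ℕ) [Fact p.Prime] {ι : Type*} (s : Finset ι) (f : ι → ℚ) (h : ∀ i ∈ s, f i ≠ 0) :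
    padicValRat p (∏ i ∈ s, f i) = ∑ i ∈ s, padicValRat p (f i) := by
  classical
  induction s using Finset.induction_on with
  | empty => simp
  | insert a s ha ih =>
    rw [prod_insert ha, sum_insert ha, padicValRat.mul (h a (mem_insert_self a s))
      (prod_ne_zero_iff.2 fun i hi => h i (mem_insert_of_mem hi)),
      ih fun i hi => h i (mem_insert_of_mem hi)]

theorem cc_le (p : ℕ) [Fact p.Prime] {a : ℕ} (h : a ≠ 0) : cc p a ≤ padicValRat p (a : ℚ) := by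
  rw [padicValRat.of_nat]
  unfold cc
  split_ifs with h1
  · exact_mod_cast one_le_padicValNat_of_dvd h (Int.natCast_dvd_natCast.1 h1)
  · positivity

theorem cc_nn (p : ℕ) (a : ℤ) : 0 ≤ cc p a := by unfold cc; split_ifs <;> simp

theorem sum_cc (p a : ℕ) : ∑ u ∈ Ioc 0 a, cc p u = (a : ℤ) / p := by
  rw [← Int.natCast_div, ← Nat.Ioc_filter_dvd_card_eq_div, card_filter]
  simp [cc, Int.natCast_dvd_natCast]

theorem fact_v (p a : ℕ) [Fact p.Prime] :
    padicValRat p (a ! : ℚ) = ∑ u ∈ Ioc 0 a, padicValRat p (u : ℚ) := by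
  rw [← vprod p _ _ fun u hu => by exact_mod_cast (mem_Ioc.1 hu).1.ne', ← Nat.cast_prod]
  congr 2
  induction a with
  | zero => simp
  | succ a ih => rw [prod_Ioc_succ_top (Nat.zero_le a), ← ih, Nat.factorial_succ, mul_comm]

/-- the differences of a part and the smaller parts are distinct -/
theorem sum_diff {N : ℕ} (S : Fk N) (s : Fin N) (d : ℕ → ℤ) (hd : ∀ u, u ≠ 0 → 0 ≤ d u) :
    ∑ t ∈ S with t < s, d (s.1 - t.1) ≤ ∑ u ∈ Ioc 0 (s.1 + 1), d u := by
  rw [← sum_image (s := {t ∈ S | t < s}) (g := fun t : Fin N => s.1 - t.1) (f := d)]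
  · refine sum_le_sum_of_subset_of_nonneg (fun u hu => ?_) fun u hu _ => hd u (mem_Ioc.1 hu).1.ne'
    obtain ⟨t, ht, rfl⟩ := mem_image.1 hu
    have : t.1 < s.1 := (mem_filter.1 ht).2
    exact mem_Ioc.2 ⟨by omega, by omega⟩
  · intro t ht t' ht' h
    have h1 : t.1 < s.1 := (mem_filter.1 ht).2
    have h2 : t'.1 < s.1 := (mem_filter.1 ht').2
    exact Fin.ext (by simp only at h; omega)

theorem cast_diff {N : ℕ} {s t : Fin N} (h : t < s) :
    (((s.1 + 1 : ℕ) : ℤ) - (t.1 + 1 : ℕ)) = ((s.1 - t.1 : ℕ) : ℤ) := by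
  have : t.1 < s.1 := h
  omega

theorem W_eq' (p : ℕ) {N : ℕ} (S : Fk N) : W p S = ∑ s ∈ S, (((s.1 + 1 : ℕ) : ℤ) / p +
    (∑ t ∈ S with t < s, cc p ((s.1 + 1 + (t.1 + 1) : ℕ)) -
      ∑ t ∈ S with t < s, cc p ((s.1 - t.1 : ℕ)))) := by
  refine sum_congr rfl fun s _ => ?_
  rw [← sum_sub_distrib]
  refine congrArg _ (sum_congr rfl fun t ht => ?_)
  rw [cast_diff (mem_filter.1 ht).2, Nat.cast_add (s.1 + 1)]
  rfl

theorem W_nn (p : ℕ) {N : ℕ} (S : Fk N) : 0 ≤ W p S := by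
  rw [W_eq']
  refine sum_nonneg fun s _ => ?_
  have h1 := sum_diff S s (fun u => cc p u) fun u _ => cc_nn p u
  have h2 : 0 ≤ ∑ t ∈ S with t < s, cc p ((s.1 + 1 + (t.1 + 1) : ℕ)) :=
    sum_nonneg fun t _ => cc_nn p _
  rw [sum_cc] at h1
  linarith

/-- the enumeration of the parts -/
def en {N : ℕ} (S : Fk N) (i : Fin #S) : Fin N := S.orderEmbOfFin rfl i.rev

theorem en_lt {N : ℕ} (S : Fk N) {i j : Fin #S} : en S j < en S i ↔ i < j := by
  unfold en
  rw [(S.orderEmbOfFin rfl).lt_iff_lt, Fin.rev_lt_rev]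

theorem en_inj {N : ℕ} (S : Fk N) : Function.Injective (en S) :=
  (S.orderEmbOfFin rfl).injective.comp Fin.rev_injective

theorem en_im {N : ℕ} (S : Fk N) : univ.image (en S) = S := by
  refine eq_of_subset_of_card_le (fun s hs => ?_) ?_
  · obtain ⟨i, -, rfl⟩ := mem_image.1 hs
    exact S.orderEmbOfFin_mem rfl _
  · rw [card_image_of_injective _ (en_inj S), card_univ, Fintype.card_fin]

theorem prod_en {N : ℕ} (S : Fk N) {M : Type*} [CommMonoid M] (f : Fin N → M) :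
    ∏ s ∈ S, f s = ∏ i, f (en S i) := by
  rw [← prod_image (s := univ) (g := en S) (f := f) (en_inj S).injOn, en_im]

theorem deg_eq (deg : DEG) {N : ℕ} (S : Fk N) : (XS S (.replicate (wt S) 1) : ℚ) =
    (wt S)! * ∏ s ∈ S, ((((s.1 + 1)! : ℕ) : ℚ)⁻¹ * ∏ t ∈ S with t < s,
      (((s.1 - t.1 : ℕ) : ℚ) / ((s.1 + 1 + (t.1 + 1) : ℕ) : ℚ))) := by
  have hd : ∀ i, dec S i = ((en S i).1 : ℤ) + 1 := fun i => rfl
  rw [XS, deg N #S (wt S) (dec S) (fun i j h => by
      have : (en S j).1 < (en S i).1 := (en_lt S).2 h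
      rw [hd, hd]; omega)
    (fun i => by have := (en S i).2; rw [hd]; omega) (by
      have := prod_en S (M := Multiplicative ℤ) fun s => Multiplicative.ofAdd ((s.1 : ℤ) + 1)
      rw [← ofAdd_sum, ← ofAdd_sum] at this
      simp only [hd]
      rw [← Multiplicative.ofAdd.injective this, wt]
      simp), prod_en S]
  refine congrArg _ (prod_congr rfl fun i _ => ?_)
  rw [prod_filter, prod_filter, prod_en S]
  congr 1
  refine prod_congr rfl fun j _ => ?_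
  simp only [en_lt]
  split_ifs with h
  · have : (en S j).1 < (en S i).1 := (en_lt S).2 h
    rw [hd, hd, Nat.cast_sub this.le]
    push_cast
    congr 1
    ring
  · rfl

theorem wd (deg : DEG) : WD := by
  intro N p S hp
  have := Fact.mk hp
  have h1 : ∀ s : Fin N, ∀ t ∈ S.filter (· < s),
      ((s.1 - t.1 : ℕ) : ℚ) ≠ 0 ∧ ((s.1 + 1 + (t.1 + 1) : ℕ) : ℚ) ≠ 0 := fun s t ht => by
    have : t.1 < s.1 := (mem_filter.1 ht).2
    exact ⟨Nat.cast_ne_zero.2 (by omega), Nat.cast_ne_zero.2 (by omega)⟩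
  have h2 : ∀ a : ℕ, ((a ! : ℕ) : ℚ) ≠ 0 := fun a => Nat.cast_ne_zero.2 a.factorial_ne_zero
  have h3 : ∀ s : Fin N, ∏ t ∈ S with t < s,
      (((s.1 - t.1 : ℕ) : ℚ) / ((s.1 + 1 + (t.1 + 1) : ℕ) : ℚ)) ≠ 0 := fun s =>
    prod_ne_zero_iff.2 fun t ht => div_ne_zero (h1 s t ht).1 (h1 s t ht).2
  have h4 := fun s (_ : s ∈ S) => mul_ne_zero (inv_ne_zero (h2 (s.1 + 1))) (h3 s)
  have h5 := deg_eq deg S
  have h6 : XS S (.replicate (wt S) 1) ≠ 0 := by
    rw [← Int.cast_ne_zero (α := ℚ), h5]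
    exact mul_ne_zero (h2 _) (prod_ne_zero_iff.2 h4)
  refine ⟨W_nn p S, h6, ?_⟩
  have h7 := congrArg (padicValRat p) h5
  rw [padicValRat.mul (h2 _) (prod_ne_zero_iff.2 h4), vprod p _ _ h4, padicValRat.of_int,
    padicValRat.of_nat] at h7
  rw [Nat.factorization_def _ hp, Nat.factorization_def _ hp]
  change _ + ((padicValInt p _ : ℕ) : ℤ) ≤ _
  rw [h7, add_comm, add_assoc, add_le_iff_nonpos_right, W_eq', ← sum_add_distrib]
  refine sum_nonpos fun s _ => ?_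
  rw [padicValRat.mul (inv_ne_zero (h2 _)) (h3 s), padicValRat.inv, fact_v,
    vprod p _ _ fun t ht => div_ne_zero (h1 s t ht).1 (h1 s t ht).2,
    sum_congr rfl fun t ht => padicValRat.div (h1 s t ht).1 (h1 s t ht).2, sum_sub_distrib]
  have a1 := sum_diff S s (fun u => padicValRat p (u : ℚ) - cc p u) fun u hu =>
    sub_nonneg.2 (cc_le p hu)
  have a2 : ∑ t ∈ S with t < s, cc p ((s.1 + 1 + (t.1 + 1) : ℕ)) ≤
      ∑ t ∈ S with t < s, padicValRat p ((s.1 + 1 + (t.1 + 1) : ℕ) : ℚ) :=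
    sum_le_sum fun t _ => cc_le p (by omega)
  rw [sum_sub_distrib, sum_sub_distrib, sum_cc] at a1
  linarith

theorem dw (mn : MN) (wd : WD) (hom : HOM) : DW := by
  intro N p w S μ hp h2 hμ hS hw
  have key : ∀ (ρ ν : Multiset ℕ) (T : Fk N), (∀ r ∈ ρ, p ∣ r) → Od (ρ + ν) → XS T (ρ + ν) ≠ 0 →
      (ρ.sum : ℤ) ≤ p * W p T := by
    intro ρ ν
    induction ρ using Multiset.induction_on with
    | empty => exact fun T _ _ _ => by simpa using mul_nonneg (Int.natCast_nonneg p) (W_nn p T)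
    | cons r ρ ih =>
      intro T hρ ho hT
      rw [Multiset.cons_add] at ho hT
      have ho' : Od (ρ + ν) := fun k hk => ho k (Multiset.mem_cons_of_mem hk)
      have h1 := mn N r (ρ + ν) T (ho r (Multiset.mem_cons_self _ _)) ho'
      obtain ⟨U, -, hU⟩ := exists_ne_zero_of_sum_ne_zero
        (h1 ▸ mul_ne_zero (show (-4 : ℤ) ≠ 0 by decide) hT)
      have hr : (p : ℤ) ∣ r := Int.natCast_dvd_natCast.2 (hρ r (Multiset.mem_cons_self _ _))
      have h3 := wj N p r U T (hp.odd_of_ne_two h2) hr (left_ne_zero_of_mul hU)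
      have h4 := ih U (fun k hk => hρ k (Multiset.mem_cons_of_mem hk)) ho'
        (right_ne_zero_of_mul hU)
      rw [Multiset.sum_cons, ← h3, mul_add, Int.mul_ediv_cancel' hr]
      push_cast at h4 ⊢
      linarith
  have h1 := key (μ.filter (p ∣ ·)) (μ.filter (¬ p ∣ ·)) S (fun r hr => (Multiset.mem_filter.1 hr).2)
    (by rwa [Multiset.filter_add_not]) (by rwa [Multiset.filter_add_not])
  obtain ⟨-, h3, h4⟩ := wd N p S hp
  rw [hom N S μ hS] at h3 h4
  refine ⟨h3, ?_⟩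
  have h5 : (w : ℤ) ≤ W p S := le_of_mul_le_mul_left (le_trans (by exact_mod_cast hw) h1)
    (Int.natCast_pos.2 hp.pos)
  omega

end H2.RB
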