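/-
S4578, chunk G4: half-spin characters of the stabilizers of colourings.
-/
import Cfsg.Agent.H26.RB0

set_option autoImplicit false

namespace H2.RB
open Cfsg Finset Matrix Equiv H7.Sn H26.RB

section Half
variable {m ι : Type*} [Fintype m] [DecidableEq m] [DecidableEq ι]

theorem tr0 {X u : Matrix m m ℂ} (hu : u * u = 1) (h : X * u = -(u * X)) : X.trace = 0 := by
  have h1 : X.trace = -X.trace := by
    calc X.trace = (X * u * u).trace := by rw [mul_assoc, hu, mul_one]
      _ = (u * (X * u)).trace := trace_mul_comm _ _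
      _ = -X.trace := by rw [h, mul_neg, ← mul_assoc, hu, one_mul, trace_neg]
  linear_combination (1 / 2 : ℂ) * h1

omit [Fintype m] in
theorem two_mat : (2 : Matrix m m ℂ) = (2 : ℂ) • (1 : Matrix m m ℂ) := by
  rw [two_smul, one_add_one_eq_two]

theorem half (u : ι → Matrix m m ℂ) (r : ℕ) : ∀ s : Finset ι, #s = 2 * r →
    (∀ a ∈ s, u a * u a = 1) → (∀ a ∈ s, ∀ b ∈ s, a ≠ b → u a * u b = -(u b * u a)) →
    ∃ P : Matrix m m ℂ, P * P = P ∧ (∀ (A : Matrix m m ℂ) (ε : ℂ), ε * ε = 1 →
      (∀ a ∈ s, A * u a = ε • (u a * A)) → A * P = P * A) ∧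
      ∀ A : Matrix m m ℂ, (∀ a ∈ s, A * u a = u a * A) → 2 ^ r * (A * P).trace = A.trace := by
  induction r with
  | zero => exact fun s _ _ _ => ⟨1, by simp, fun A _ _ _ => by simp, fun A _ => by simp⟩
  | succ r ih =>
    intro s hs h1 h2
    obtain ⟨a, ha, b, hb, hab⟩ := one_lt_card.1 (show 1 < #s by omega)
    have hm : ∀ c ∈ (s.erase a).erase b, c ∈ s ∧ c ≠ a ∧ c ≠ b := fun c hc => by
      simp only [mem_erase] at hc; tauto
    obtain ⟨P, p1, p2, p3⟩ := ih ((s.erase a).erase b) (by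
      rw [card_erase_of_mem (mem_erase.2 ⟨hab.symm, hb⟩), card_erase_of_mem ha]; omega)
      (fun c hc => h1 c (hm c hc).1) fun c hc d hd => h2 c (hm c hc).1 d (hm d hd).1
    have qa : u a * P = P * u a := p2 _ (-1) (by simp) fun c hc => by
      rw [h2 a ha c (hm c hc).1 (hm c hc).2.1.symm, neg_one_smul]
    have qb : u b * P = P * u b := p2 _ (-1) (by simp) fun c hc => by
      rw [h2 b hb c (hm c hc).1 (hm c hc).2.2.symm, neg_one_smul]
    obtain ⟨w, hw⟩ : ∃ w, w = u a * u b := ⟨_, rfl⟩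
    have wa : w * u a = -(u a * w) := by rw [hw, mul_assoc, h2 b hb a ha hab.symm, mul_neg]
    have ww : w * w = -1 := by
      rw [hw, ← mul_assoc, ← hw, wa, hw, ← mul_assoc, h1 a ha, one_mul, neg_mul, h1 b hb]
    have wP : w * P = P * w := by rw [hw, mul_assoc, qb, ← mul_assoc, qa, mul_assoc]
    obtain ⟨Q, hQ⟩ : ∃ Q, Q = (2 : ℂ)⁻¹ • (1 + Complex.I • w) := ⟨_, rfl⟩
    have cQ : ∀ A : Matrix m m ℂ, A * w = w * A → A * Q = Q * A := fun A h => by
      simp only [hQ, mul_smul_comm, smul_mul_assoc, mul_add, add_mul, h, mul_one, one_mul]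
    have QQ : Q * Q = Q := by
      simp only [hQ, mul_smul_comm, smul_mul_assoc, mul_add, add_mul, mul_one, one_mul, ww, smul_add,
        smul_smul, smul_neg]
      have : (2 : ℂ)⁻¹ * Complex.I * (2⁻¹ * Complex.I) = -(2⁻¹ * 2⁻¹) := by
        linear_combination (2⁻¹ * 2⁻¹ : ℂ) * Complex.I_mul_I
      rw [this]
      module
    refine ⟨P * Q, ?_, fun A ε he h => ?_, fun A h => ?_⟩
    · rw [mul_assoc, ← mul_assoc Q, ← cQ P wP.symm, mul_assoc, QQ, ← mul_assoc, p1]
    · have : A * w = w * A := by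
        rw [hw, ← mul_assoc, h a ha, smul_mul_assoc, mul_assoc, h b hb, mul_smul_comm, smul_smul, he,
          one_smul, mul_assoc]
      rw [← mul_assoc, p2 A ε he fun c hc => h c (hm c hc).1, mul_assoc, cQ A this, mul_assoc]
    · have h0 : (A * P * w).trace = 0 := tr0 (h1 a ha) (by
        rw [mul_assoc, wa, mul_neg, ← mul_assoc, mul_assoc A, ← qa, ← mul_assoc A, h a ha]
        simp only [mul_assoc])
      rw [← p3 A fun c hc => h c (hm c hc).1, ← mul_assoc, hQ, mul_smul_comm, mul_add, mul_one,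
        mul_smul_comm, trace_smul, trace_add, trace_smul, h0, pow_succ]
      simp only [smul_eq_mul]
      ring

theorem char_idem {G : Type*} [Group G] (ρ : G →* Matrix m m ℂ) (P : Matrix m m ℂ) (hP : P * P = P)
    (hc : ∀ g, ρ g * P = P * ρ g) : IsCharacter G fun g => (ρ g * P).trace := by
  have := H5.isCharacter_trace_comp_idempotent
    ((Matrix.toLinAlgEquiv' (R := ℂ) (n := m)).toMonoidHom.comp ρ) (toLin' P)
    (by rw [← toLin'_mul, hP]) fun g => by
      change toLin' P ∘ₗ toLin' (ρ g) = toLin' (ρ g) ∘ₗ toLin' P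
      rw [← toLin'_mul, ← toLin'_mul, hc]
  convert this using 2 with g
  change _ = LinearMap.trace ℂ _ (toLin' (ρ g) ∘ₗ toLin' P)
  rw [← toLin'_mul, trace_toLin'_eq]

end Half

/-- the invariant vectors -/
noncomputable def uu {n l : ℕ} (f : Fin n → Fin l) :
    Fin l ⊕ Option (Fin n) → Matrix (Fk n) (Fk n) ℂ
  | .inl c => ((√(#{i | f i = c} : ℝ) : ℝ) : ℂ)⁻¹ • ∑ i with f i = c, gam (.inl i)
  | .inr o => gam (.inr o)

theorem uu_rel (gm : GAM) {n l : ℕ} (f : Fin n → Fin l) (a b : Fin l ⊕ Option (Fin n))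
    (ha : ∀ c, a = .inl c → c ∈ univ.image f) :
    uu f a * uu f b + uu f b * uu f a = if a = b then 2 else 0 := by
  have h := (gm n).1
  rcases a with c | o <;> rcases b with d | o'
  · simp only [uu, smul_mul_smul_comm, sum_mul_sum, Sum.inl.injEq]
    rw [mul_comm (_ : ℂ)⁻¹, ← smul_add, sum_comm (s := {i | f i = d}), ← sum_add_distrib]
    simp only [← sum_add_distrib, h, Sum.inl.injEq, sum_ite_eq, mem_filter, mem_univ, true_and]
    split_ifs with hcd
    · subst hcd
      rw [sum_congr rfl fun i hi => if_pos (mem_filter.1 hi).2, sum_const, ← mul_inv,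
        ← Complex.ofReal_mul, Real.mul_self_sqrt (Nat.cast_nonneg _), ← Nat.cast_smul_eq_nsmul ℂ,
        smul_smul, Complex.ofReal_natCast, inv_mul_cancel₀, one_smul]
      obtain ⟨i, -, hi⟩ := mem_image.1 (ha c rfl)
      exact Nat.cast_ne_zero.2 (card_pos.2 ⟨i, by simpa using hi⟩).ne'
    · rw [sum_eq_zero fun i hi => if_neg fun h' => hcd ((mem_filter.1 hi).2.symm.trans h'), smul_zero]
  · simp only [uu, smul_mul_assoc, mul_smul_comm, sum_mul, mul_sum, ← smul_add, ← sum_add_distrib, h]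
    simp
  · simp only [uu, smul_mul_assoc, mul_smul_comm, sum_mul, mul_sum, ← smul_add, ← sum_add_distrib, h]
    simp
  · simp only [uu, h, Sum.inr.injEq]

theorem uu_act {n l : ℕ} (f : Fin n → Fin l) (g : Tf (sπ n) f) (a : Fin l ⊕ Option (Fin n)) :
    sρ n g * uu f a = ((Perm.sign (sπ n g) : ℤ) : ℂ) • (uu f a * sρ n g) := by
  have h : ∀ a, sρ n g * gam a =
      ((Perm.sign (sπ n g) : ℤ) : ℂ) • (gam (Sum.map (sπ n g) id a) * sρ n g) := g.1.2.2
  rcases a with c | o
  · simp only [uu, smul_mul_assoc, mul_smul_comm, sum_mul, mul_sum, h, Sum.map_inl, ← smul_sum]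
    rw [smul_comm]
    congr 2
    refine sum_equiv (sπ n g) (fun i => ?_) fun i _ => rfl
    have : f (sπ n g i) = f i := congrFun g.2 i
    simp [this]
  · exact h (.inr o)

theorem g4 (gm : GAM) : G4 := by
  intro n l f
  have hl : #(univ.image f) ≤ n := card_image_le.trans (by simp)
  obtain ⟨t, ht, hr⟩ : ∃ t : Finset (Option (Fin n)), (Even (n - #(univ.image f)) → none ∉ t) ∧
      #(univ.image f) + #t = 2 * (n - (n - #(univ.image f)) / 2) := by
    by_cases h : Even (n - #(univ.image f))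
    · refine ⟨univ.erase none, fun _ => notMem_erase _ _, ?_⟩
      rw [card_erase_of_mem (mem_univ _), card_univ, Fintype.card_option, Fintype.card_fin]
      obtain ⟨k, hk⟩ := h
      omega
    · refine ⟨univ, fun h' => absurd h' h, ?_⟩
      rw [card_univ, Fintype.card_option, Fintype.card_fin]
      obtain ⟨k, hk⟩ := Nat.not_even_iff_odd.1 h
      omega
  have hs : ∀ a ∈ (univ.image f).disjSum t, ∀ c, a = .inl c → c ∈ univ.image f := by
    rintro _ ha c rfl; exact inl_mem_disjSum.1 ha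
  have sq : ∀ a, (∀ c, a = .inl c → c ∈ univ.image f) → uu f a * uu f a = 1 := fun a ha => by
    have := uu_rel gm f a a ha
    rw [if_pos rfl, two_mat, ← two_smul ℂ] at this
    exact smul_right_injective _ two_ne_zero this
  have an : ∀ a b, (∀ c, a = .inl c → c ∈ univ.image f) → a ≠ b →
      uu f a * uu f b = -(uu f b * uu f a) := fun a b ha h =>
    eq_neg_of_add_eq_zero_left ((uu_rel gm f a b ha).trans (if_neg h))
  obtain ⟨P, p1, p2, p3⟩ := half (uu f) _ ((univ.image f).disjSum t) (by rw [card_disjSum, hr])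
    (fun a ha => sq a (hs a ha)) fun a ha b _ => an a b (hs a ha)
  refine ⟨_, char_idem ((sρ n).comp (Tf (sπ n) f).subtype) P p1 fun g =>
    p2 _ _ ?_ fun a _ => uu_act f g a, fun g hg => ?_⟩
  · rw [← Int.cast_mul, ← Units.val_mul, Int.units_mul_self]; simp
  change (sρ n g * P).trace = _ * ((sρ n g).trace / 2 ^ n)
  rcases Int.units_eq_one_or (Perm.sign (sπ n g)) with h | h
  · rw [← p3 (sρ n g) fun a _ => by simpa [h] using uu_act f g a, ← mul_div_assoc, ← mul_assoc,
      ← pow_add, Nat.add_sub_cancel' (by omega), mul_div_cancel_left₀ _ (pow_ne_zero _ two_ne_zero)]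
  · have he := hg.resolve_left (by rw [h]; decide)
    have h0 := sq (.inr none) (by simp)
    have h1 : sρ n g * uu f (.inr none) = -(uu f (.inr none) * sρ n g) := by
      simpa [h] using uu_act f g (.inr none)
    have h2 : uu f (.inr none) * P = P * uu f (.inr none) := p2 _ (-1) (by simp) fun a ha => by
      rw [an _ a (by simp) (by rintro rfl; exact ht he (inr_mem_disjSum.1 ha)), neg_one_smul]
    rw [tr0 h0 h1, tr0 h0 (by rw [mul_assoc, ← h2, ← mul_assoc, h1, neg_mul, mul_assoc])]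
    simp

end H2.RB
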