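/-
Unbalancing triples: inverted automorphisms of odd order of `PSL` (chunk `LI`).
-/
import Cfsg.Agent.H27.UA0
import Cfsg.Agent.H22.AutPSL2
import Cfsg.Agent.H22.FldAut

set_option autoImplicit false

namespace H2.UA
open Matrix Cfsg SemidirectProduct H22

theorem li0 {F : Type} [Field F] [Finite F] {n : ℕ} (hn : 2 ≤ n) (β σ : MulAut (ProjectiveSpecialLinearGroup (Fin n) F))
    (e : σ * β * σ⁻¹ = β⁻¹) (o : Odd (orderOf β)) : IsInnerDiagonalAutPSL β := by
  obtain ⟨a, rfl⟩ := thSL_surjective (by simpa using hn) σ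
  obtain ⟨b, hb⟩ := thSL_surjective (by simpa using hn) β
  have m : b * a * b⁻¹ * a⁻¹ ∈ (inl : GL (Fin n) F →* GamX (Fin n) F).range := by
    rw [range_inl_eq_ker_rightHom, MonoidHom.mem_ker, map_mul, map_mul, map_mul, map_inv, map_inv,
      show rightHom b * rightHom a = rightHom a * rightHom b from Prod.ext (ringAut_comm _ _) (mul_comm _ _)]
    group
  obtain ⟨g, hg⟩ := m
  obtain ⟨k, hk⟩ := o
  refine innDiagPSL_iff.2 ⟨g ^ (k + 1), ?_⟩
  have : thSL (Fin n) F (inl g) = β ^ 2 := by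
    rw [hg, map_mul, map_mul, map_mul, map_inv, map_inv, hb, mul_assoc, mul_assoc, ← mul_assoc _ β⁻¹, sq]
    congr 1
    simpa [mul_assoc] using congrArg (·⁻¹) e
  rw [map_pow, map_pow, this, ← pow_mul, show 2 * (k + 1) = orderOf β + 1 by omega, pow_succ, pow_orderOf_eq_one, one_mul]

theorem li : H27.UA.LI := fun _ _ _ _ _ _ _ _ β σ => li0 le_rfl β σ

end H2.UA
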